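import Mathlib
import Cfsg.Agent.Lib.Helper81.AQDefs

/-! Project AQ (helper81, S3911), piece ASMFACT (duplicate copy by helper14): the order of the
commutative join of the subgroups `Z p`, `p ∈ S`. -/

set_option autoImplicit false

namespace Cfsg.Agent.Lib.Helper81.AQ

variable {G : Type*} [Group G]

-- piece ASMFACT
theorem asm_fact [Finite G] (L : Subgroup G) (S : Finset ℕ) (hSp : ∀ p ∈ S, p.Prime)
    (Z : ℕ → Subgroup G) (hZL : ∀ p ∈ S, Z p ≤ L)
    (hcard : ∀ p ∈ S, Nat.card (Z p) = p ^ (Nat.card L).factorization p)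
    (hcomm : IsMulCommutative ↥(⨆ p ∈ S, Z p)) :
    ∀ q : ℕ, q.Prime → (Nat.card ↥(⨆ p ∈ S, Z p)).factorization q =
      if q ∈ S then (Nat.card L).factorization q else 0 := by
  intro q hq
  have hAL : (⨆ p ∈ S, Z p) ≤ L := iSup₂_le hZL
  have hZA : ∀ p ∈ S, Z p ≤ ⨆ p ∈ S, Z p := fun p hp => le_iSup₂ (f := fun p _ => Z p) p hp
  have hA0 : Nat.card ↥(⨆ p ∈ S, Z p) ≠ 0 := Nat.card_pos.ne'
  have hL0 : Nat.card ↥L ≠ 0 := Nat.card_pos.ne'
  have hdvd : Nat.card ↥(⨆ p ∈ S, Z p) ∣ Nat.card ↥L := Subgroup.card_dvd_of_le hAL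
  by_cases hqS : q ∈ S
  · rw [if_pos hqS]
    apply le_antisymm
    · exact (Nat.factorization_le_iff_dvd hA0 hL0).mpr hdvd q
    · apply (Nat.Prime.pow_dvd_iff_le_factorization hq hA0).mp
      rw [← hcard q hqS]
      exact Subgroup.card_dvd_of_le (hZA q hqS)
  · rw [if_neg hqS]
    apply Nat.factorization_eq_zero_of_not_dvd
    intro hqA
    -- every element of the join is killed by `E`
    have hpow : ∀ a ∈ (⨆ p ∈ S, Z p), (a ∈ ⨆ p ∈ S, Z p) ∧ a ^ (∏ p ∈ S, Nat.card (Z p)) = 1 := by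
      intro a ha
      refine Subgroup.iSup_induction (fun p => ⨆ (_ : p ∈ S), Z p)
        (C := fun a => (a ∈ ⨆ p ∈ S, Z p) ∧ a ^ (∏ p ∈ S, Nat.card (Z p)) = 1) ha ?_ ?_ ?_
      · intro p x hx
        by_cases hp : p ∈ S
        · rw [iSup_pos hp] at hx
          refine ⟨hZA p hp hx, ?_⟩
          apply orderOf_dvd_iff_pow_eq_one.mp
          exact (Subgroup.orderOf_dvd_natCard (Z p) hx).trans
            (Finset.dvd_prod_of_mem (fun p => Nat.card (Z p)) hp)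
        · rw [iSup_neg hp, Subgroup.mem_bot] at hx
          rw [hx]
          exact ⟨one_mem _, one_pow _⟩
      · exact ⟨one_mem _, one_pow _⟩
      · rintro x y ⟨hx, hx1⟩ ⟨hy, hy1⟩
        refine ⟨mul_mem hx hy, ?_⟩
        have hc : x * y = y * x := by
          have h1 := hcomm.is_comm.comm (⟨x, hx⟩ : ↥(⨆ p ∈ S, Z p)) ⟨y, hy⟩
          exact congrArg Subtype.val h1
        have hc' : Commute x y := hc
        rw [hc'.mul_pow, hx1, hy1, one_mul]
    haveI : Fact q.Prime := ⟨hq⟩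
    obtain ⟨a, ha⟩ := exists_prime_orderOf_dvd_card' (G := ↥(⨆ p ∈ S, Z p)) q hqA
    have ha' : orderOf (a : G) = q := by rw [Subgroup.orderOf_coe, ha]
    have hqE : q ∣ ∏ p ∈ S, Nat.card (Z p) := by
      rw [← ha']
      exact orderOf_dvd_of_pow_eq_one (hpow a a.2).2
    obtain ⟨p, hpS, hqp⟩ := (Prime.dvd_finset_prod_iff (Nat.Prime.prime hq) _).mp hqE
    rw [hcard p hpS] at hqp
    have hqp' : q ∣ p := Nat.Prime.dvd_of_dvd_pow hq hqp
    have hqeq : q = p := (Nat.prime_dvd_prime_iff_eq hq (hSp p hpS)).mp hqp'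
    exact hqS (hqeq ▸ hpS)

end Cfsg.Agent.Lib.Helper81.AQ
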