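import Mathlib
import Cfsg.Agent.Lib.Helper14.Thompson
import Cfsg.Agent.Lib.Helper14.VOmega
import Cfsg.Agent.Lib.Helper14.SL2Solv3
import Cfsg.Agent.Lib.Helper26.ThompsonJ

set_option autoImplicit false

namespace Cfsg.Agent.Lib.Helper14

open Cfsg

section elts

variable {G : Type*} [Group G]

/-- the `q`-part of an element: a power of `x` with exponent prime to `q` has `q`-power order. -/
theorem exists_qpart [Finite G] (q : ℕ) [Fact q.Prime] (x : G) :
    ∃ m : ℕ, m.Coprime q ∧ ∃ k : ℕ, orderOf (x ^ m) = q ^ k := by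
  have hpos : 0 < orderOf x := orderOf_pos x
  refine ⟨orderOf x / q ^ (orderOf x).factorization q, ?_, (orderOf x).factorization q, ?_⟩
  · exact (Nat.coprime_ordCompl (Fact.out : q.Prime) hpos.ne').symm
  · exact orderOf_pow_orderOf_div hpos.ne' (Nat.ordProj_dvd _ _)

theorem mem_of_pow_mem_of_coprime {C : Subgroup G} {y : G} {m : ℕ} (h : y ^ m ∈ C)
    (hc : (orderOf y).Coprime m) : y ∈ C := by
  obtain ⟨j, hj⟩ := exists_pow_eq_self_of_coprime hc.symm
  rw [← hj]
  exact C.pow_mem h j

/-- a nontrivial element of `q`-power order stays nontrivial under powers prime to `q`. -/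
theorem pow_ne_one_of_qpow {q : ℕ} [Fact q.Prime] {z : G} {m k : ℕ}
    (hz : orderOf z = q ^ k) (hz1 : z ≠ 1) (hm : m.Coprime q) : z ^ m ≠ 1 := by
  have hq : q.Prime := Fact.out
  intro h
  have h1 : orderOf z ∣ m := orderOf_dvd_of_pow_eq_one h
  have hk : k ≠ 0 := by
    rintro rfl
    rw [pow_zero, orderOf_eq_one_iff] at hz
    exact hz1 hz
  rw [hz] at h1
  exact (Nat.Prime.coprime_iff_not_dvd hq).mp hm.symm ((dvd_pow_self q hk).trans h1)

/-- an element of `q`-power order outside a normal subgroup forces `q` to divide the index. -/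
theorem dvd_index_of_elt {q : ℕ} [Fact q.Prime] (C : Subgroup G) [C.Normal] {c : G} {k : ℕ}
    (hcC : c ∉ C) (hc : orderOf c = q ^ k) : q ∣ C.index := by
  have hq : q.Prime := Fact.out
  have h1 : orderOf (QuotientGroup.mk' C c) ∣ q ^ k := by
    rw [← hc]; exact orderOf_map_dvd _ c
  obtain ⟨j, -, hj⟩ := (Nat.dvd_prime_pow hq).mp h1
  have hj0 : j ≠ 0 := by
    rintro rfl
    rw [pow_zero, orderOf_eq_one_iff] at hj
    exact hcC ((QuotientGroup.eq_one_iff c).mp hj)
  have h2 : orderOf (QuotientGroup.mk' C c) ∣ Nat.card (G ⧸ C) := orderOf_dvd_natCard _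
  rw [hj] at h2
  exact (dvd_pow_self q hj0).trans h2

/-- if `q` divides the index of a normal subgroup, some element of `q`-power order lies outside. -/
theorem exists_elt_of_dvd_index [Finite G] {q : ℕ} [Fact q.Prime] (C : Subgroup G) [C.Normal]
    (h : q ∣ C.index) : ∃ c : G, c ∉ C ∧ ∃ k : ℕ, orderOf c = q ^ k := by
  have hq : q.Prime := Fact.out
  obtain ⟨z, hz⟩ := exists_prime_orderOf_dvd_card' q (G := G ⧸ C) h
  obtain ⟨x, rfl⟩ := QuotientGroup.mk'_surjective C z
  obtain ⟨m, hm, k, hk⟩ := exists_qpart q x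
  refine ⟨x ^ m, ?_, k, hk⟩
  intro hmem
  have h1 : (QuotientGroup.mk' C x) ^ m = 1 := by
    rw [← map_pow]; exact (QuotientGroup.eq_one_iff _).mpr hmem
  have h2 := orderOf_dvd_of_pow_eq_one h1
  rw [hz] at h2
  exact (Nat.Prime.coprime_iff_not_dvd hq).mp hm.symm h2

theorem dvd_autIndex_of_elt {q : ℕ} [Fact q.Prime] (K : Subgroup G) {c : G} {k : ℕ}
    (hcN : c ∈ Subgroup.normalizer (K : Set G)) (hcC : c ∉ Subgroup.centralizer (K : Set G))
    (hc : orderOf c = q ^ k) :
    q ∣ ((Subgroup.centralizer (K : Set G)).subgroupOf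
      (Subgroup.normalizer (K : Set G))).index := by
  refine dvd_index_of_elt ((Subgroup.centralizer (K : Set G)).subgroupOf
      (Subgroup.normalizer (K : Set G)))
    (c := (⟨c, hcN⟩ : ↥(Subgroup.normalizer (K : Set G)))) (k := k) ?_ ?_
  · rw [Subgroup.mem_subgroupOf]; exact hcC
  · rw [← hc]; exact Subgroup.orderOf_mk c hcN

theorem exists_elt_of_dvd_autIndex [Finite G] {q : ℕ} [Fact q.Prime] (K : Subgroup G)
    (h : q ∣ ((Subgroup.centralizer (K : Set G)).subgroupOf
      (Subgroup.normalizer (K : Set G))).index) :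
    ∃ c : G, c ∈ Subgroup.normalizer (K : Set G) ∧ c ∉ Subgroup.centralizer (K : Set G) ∧
      ∃ k : ℕ, orderOf c = q ^ k := by
  obtain ⟨c, hc, k, hk⟩ := exists_elt_of_dvd_index _ h
  exact ⟨c, c.2, fun h' => hc (Subgroup.mem_subgroupOf.mpr h'), k, by
    rw [← hk, Subgroup.orderOf_coe]⟩

/-- transport of normalizer membership along an injective homomorphism. -/
theorem mem_normalizer_map_iff {G' : Type*} [Group G'] (f : G →* G') (hf : Function.Injective f)
    (K : Subgroup G) (c : G) :
    f c ∈ Subgroup.normalizer ((K.map f : Subgroup G') : Set G') ↔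
      c ∈ Subgroup.normalizer (K : Set G) := by
  rw [Subgroup.mem_normalizer_iff, Subgroup.mem_normalizer_iff]
  constructor
  · intro h x
    have h1 := h (f x)
    rw [Subgroup.mem_map_iff_mem hf, ← map_inv, ← map_mul, ← map_mul,
      Subgroup.mem_map_iff_mem hf] at h1
    exact h1
  · intro h y
    constructor
    · rintro ⟨x, hx, rfl⟩
      rw [← map_inv, ← map_mul, ← map_mul]
      exact Subgroup.mem_map_of_mem f ((h x).mp hx)
    · intro hy
      have h2 : y = f c⁻¹ * (f c * y * (f c)⁻¹) * f c := by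
        rw [map_inv]; group
      obtain ⟨x, hx, hxe⟩ := hy
      refine ⟨c⁻¹ * x * c, ?_, ?_⟩
      · have := (h (c⁻¹ * x * c)).mpr (by
          have e : c * (c⁻¹ * x * c) * c⁻¹ = x := by group
          rw [e]; exact hx)
        exact this
      · rw [map_mul, map_mul, hxe, map_inv]; group

/-- transport of centralizer membership along an injective homomorphism. -/
theorem mem_centralizer_map_iff {G' : Type*} [Group G'] (f : G →* G') (hf : Function.Injective f)
    (K : Subgroup G) (c : G) :
    f c ∈ Subgroup.centralizer ((K.map f : Subgroup G') : Set G') ↔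
      c ∈ Subgroup.centralizer (K : Set G) := by
  rw [Subgroup.mem_centralizer_iff, Subgroup.mem_centralizer_iff]
  constructor
  · intro h x hx
    apply hf
    rw [map_mul, map_mul]
    exact h (f x) (Subgroup.mem_map_of_mem f hx)
  · rintro h _ ⟨x, hx, rfl⟩
    rw [← map_mul, ← map_mul, h x hx]

/-- the image of the centralizer lies in the centralizer of the image. -/
theorem map_mem_centralizer_map {G' : Type*} [Group G'] (f : G →* G') (K : Subgroup G) {c : G}
    (hc : c ∈ Subgroup.centralizer (K : Set G)) :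
    f c ∈ Subgroup.centralizer ((K.map f : Subgroup G') : Set G') := by
  rw [Subgroup.mem_centralizer_iff] at hc ⊢
  rintro _ ⟨x, hx, rfl⟩
  rw [← map_mul, ← map_mul, hc x hx]

theorem normalizer_inf_le_normalizer_sup (A B : Subgroup G) :
    Subgroup.normalizer (A : Set G) ⊓ Subgroup.normalizer (B : Set G) ≤
      Subgroup.normalizer ((A ⊔ B : Subgroup G) : Set G) := by
  rintro g ⟨hA, hB⟩
  apply Cfsg.Agent.Lib.Helper26.mem_normalizer_of_map_conj_eq
  rw [Subgroup.map_sup, Cfsg.Agent.Lib.Helper26.map_conj_eq_of_mem_normalizer hA,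
    Cfsg.Agent.Lib.Helper26.map_conj_eq_of_mem_normalizer hB]

end elts

section conj

variable {G : Type*} [Group G] [Finite G]

/-- the divisibility `q ∣ |N(K) : C(K)|` is invariant under isomorphisms. -/
theorem dvd_autIndex_map_equiv {G' : Type*} [Group G'] {q : ℕ} [Fact q.Prime] (e : G ≃* G')
    (K : Subgroup G)
    (h : q ∣ ((Subgroup.centralizer (K : Set G)).subgroupOf
      (Subgroup.normalizer (K : Set G))).index) :
    q ∣ ((Subgroup.centralizer ((K.map e.toMonoidHom : Subgroup G') : Set G')).subgroupOf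
      (Subgroup.normalizer ((K.map e.toMonoidHom : Subgroup G') : Set G'))).index := by
  obtain ⟨c, hcN, hcC, k, hk⟩ := exists_elt_of_dvd_autIndex K h
  refine dvd_autIndex_of_elt (c := e c) (k := k) _ ?_ ?_ ?_
  · exact (mem_normalizer_map_iff e.toMonoidHom e.injective K c).mpr hcN
  · intro h'
    exact hcC ((mem_centralizer_map_iff e.toMonoidHom e.injective K c).mp h')
  · rw [← hk]; exact MulEquiv.orderOf_eq e c

/-- moving a `p`-subgroup with a normal subgroup into a fixed Sylow subgroup. -/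
theorem exists_conj_le_sylow {p q : ℕ} [Fact p.Prime] [Fact q.Prime] (S : Sylow p G)
    {P K : Subgroup G} (hP : IsPGroup p P) (hKP : K ≤ P)
    (hPK : P ≤ Subgroup.normalizer (K : Set G))
    (hq : q ∣ ((Subgroup.centralizer (K : Set G)).subgroupOf
      (Subgroup.normalizer (K : Set G))).index) :
    ∃ K' : Subgroup G, K' ≤ (S : Subgroup G) ∧
      q ∣ ((Subgroup.centralizer (K' : Set G)).subgroupOf
        (Subgroup.normalizer (K' : Set G))).index ∧
      Nat.card P ≤ Nat.card ((S : Subgroup G) ⊓ Subgroup.normalizer (K' : Set G) : Subgroup G) ∧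
      Nat.card K' = Nat.card K := by
  obtain ⟨Q, hQ⟩ := hP.exists_le_sylow
  obtain ⟨g, hg⟩ := MulAction.exists_smul_eq G Q S
  have hS : (S : Subgroup G) = (Q : Subgroup G).map (MulAut.conj g).toMonoidHom := by
    rw [← hg]; exact sylow_smul_coe_eq_map g Q
  have hPS : P.map (MulAut.conj g).toMonoidHom ≤ (S : Subgroup G) := by
    rw [hS]; exact Subgroup.map_mono hQ
  refine ⟨K.map (MulAut.conj g).toMonoidHom, (Subgroup.map_mono hKP).trans hPS,
    dvd_autIndex_map_equiv (MulAut.conj g) K hq, ?_,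
    Subgroup.card_map_of_injective (MulAut.conj g).injective⟩
  have h1 : P.map (MulAut.conj g).toMonoidHom ≤
      (S : Subgroup G) ⊓ Subgroup.normalizer
        ((K.map (MulAut.conj g).toMonoidHom : Subgroup G) : Set G) := by
    refine le_inf hPS ?_
    rintro _ ⟨x, hx, rfl⟩
    exact (mem_normalizer_map_iff (MulAut.conj g).toMonoidHom (MulAut.conj g).injective K x).mpr
      (hPK hx)
  calc Nat.card P = Nat.card (P.map (MulAut.conj g).toMonoidHom) :=
        (Subgroup.card_map_of_injective (MulAut.conj g).injective).symm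
    _ ≤ _ := Subgroup.card_le_of_le h1

/-- Frattini argument: a `q`-element outside the normal subgroup `C` normalizing `R ∩ C`. -/
theorem exists_qelt_normalizer_inf {p q : ℕ} [Fact p.Prime] [Fact q.Prime] (C : Subgroup G)
    [C.Normal] (R : Sylow p G) (h : q ∣ C.index) :
    ∃ y : G, y ∈ Subgroup.normalizer (((R : Subgroup G) ⊓ C : Subgroup G) : Set G) ∧ y ∉ C ∧
      ∃ k : ℕ, orderOf y = q ^ k := by
  have hq : q.Prime := Fact.out
  obtain ⟨z, hz⟩ := exists_prime_orderOf_dvd_card' q (G := G ⧸ C) h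
  obtain ⟨x, rfl⟩ := QuotientGroup.mk'_surjective C z
  obtain ⟨c, hc, n, hn, rfl⟩ := exists_mul_of_sup_normal_eq_top (normalizer_inf_sup_eq_top C R) x
  have hmk : QuotientGroup.mk' C (c * n) = QuotientGroup.mk' C n := by
    rw [map_mul, QuotientGroup.mk'_apply, QuotientGroup.mk'_apply,
      (QuotientGroup.eq_one_iff c).mpr hc, one_mul]
  rw [hmk] at hz
  obtain ⟨m, hm, k, hk⟩ := exists_qpart q n
  refine ⟨n ^ m, Subgroup.pow_mem _ hn m, ?_, k, hk⟩
  intro hmem
  have h1 : (QuotientGroup.mk' C n) ^ m = 1 := by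
    rw [← map_pow]; exact (QuotientGroup.eq_one_iff _).mpr hmem
  have h2 := orderOf_dvd_of_pow_eq_one h1
  rw [hz] at h2
  exact (Nat.Prime.coprime_iff_not_dvd hq).mp hm.symm h2

end conj

section psolvT

variable {p : ℕ} [Fact p.Prime]

/-- `p`-solvability of a quotient pulls back along a homomorphism compatible with the kernels. -/
theorem isPSolvable_quotient_of_comap {A B : Type*} [Group A] [Group B]
    (NA : Subgroup A) [NA.Normal] (NB : Subgroup B) [NB.Normal] (φ : A →* B)
    (h : NA = NB.comap φ) (hB : IsPSolvable p (B ⧸ NB)) : IsPSolvable p (A ⧸ NA) := by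
  let ψ : A →* B ⧸ NB := (QuotientGroup.mk' NB).comp φ
  have hker : NA = ψ.ker := by
    rw [h]
    ext x
    rw [Subgroup.mem_comap, MonoidHom.mem_ker, MonoidHom.comp_apply, QuotientGroup.mk'_apply,
      QuotientGroup.eq_one_iff]
  let e : A ⧸ NA ≃* ψ.range :=
    (QuotientGroup.quotientMulEquivOfEq hker).trans (QuotientGroup.quotientKerEquivRange ψ)
  exact isPSolvable_map e.symm.toMonoidHom e.symm.surjective (isPSolvable_subgroup hB ψ.range)

/-- `p`-solvability of a quotient pushes forward along a surjection. -/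
theorem isPSolvable_quotient_of_surjective {A B : Type*} [Group A] [Group B]
    (NA : Subgroup A) [NA.Normal] (NB : Subgroup B) [NB.Normal] (φ : A →* B)
    (hφ : Function.Surjective φ) (h : NA ≤ NB.comap φ) (hA : IsPSolvable p (A ⧸ NA)) :
    IsPSolvable p (B ⧸ NB) := by
  refine isPSolvable_map (QuotientGroup.map NA NB φ h) ?_ hA
  intro y
  obtain ⟨b, rfl⟩ := QuotientGroup.mk'_surjective NB y
  obtain ⟨a, rfl⟩ := hφ b
  exact ⟨QuotientGroup.mk' NA a, rfl⟩

end psolvT

end Cfsg.Agent.Lib.Helper14
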