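import Mathlib
import Cfsg.Agent.Lib.Helper14.Aut1
import Cfsg.Agent.Lib.Helper14.Holo
import Cfsg.Agent.Lib.Helper14.FF3
import Cfsg.Agent.Lib.Helper40.HallHigman
import Cfsg.Agent.Lib.Helper6.PSLCard
import Cfsg.Agent.S0600
import Cfsg.Agent.S0601
import Cfsg.Agent.S0602
import Cfsg.Agent.S0606
import Cfsg.Agent.S0618

set_option autoImplicit false

namespace Cfsg.Agent.Lib.Helper14

open Cfsg

section supcard

variable {G : Type*} [Group G] [Finite G]

theorem exists_dvd_card_of_dvd_card_finset_sup {ι : Type*} (E : ι → Subgroup G) (H : Subgroup G)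
    (hn : ∀ i, H ≤ Subgroup.normalizer (E i : Set G)) (hle : ∀ i, E i ≤ H) {q : ℕ}
    (hq : q.Prime) (s : Finset ι) :
    q ∣ Nat.card (s.sup E : Subgroup G) → ∃ i ∈ s, q ∣ Nat.card (E i) := by
  classical
  induction s using Finset.induction_on with
  | empty =>
    intro h
    rw [Finset.sup_empty, Subgroup.card_bot] at h
    exact absurd h hq.not_dvd_one
  | insert a s ha ih =>
    intro h
    rw [Finset.sup_insert] at h
    have hT : s.sup E ≤ Subgroup.normalizer (E a : Set G) :=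
      (Finset.sup_le (fun i _ => hle i)).trans (hn a)
    have h1 := card_sup_mul_card_inf hT
    have h2 : q ∣ Nat.card (s.sup E : Subgroup G) * Nat.card (E a) := by
      rw [← h1, sup_comm]; exact Dvd.dvd.mul_right h _
    rcases (Nat.Prime.dvd_mul hq).mp h2 with h3 | h3
    · obtain ⟨i, hi, hi'⟩ := ih h3
      exact ⟨i, Finset.mem_insert_of_mem hi, hi'⟩
    · exact ⟨a, Finset.mem_insert_self a s, h3⟩

theorem exists_dvd_card_of_dvd_card_iSup {ι : Type*} [Finite ι] (E : ι → Subgroup G)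
    (H : Subgroup G) (hn : ∀ i, H ≤ Subgroup.normalizer (E i : Set G)) (hsup : ⨆ i, E i = H)
    {q : ℕ} (hq : q.Prime) (h : q ∣ Nat.card H) : ∃ i, q ∣ Nat.card (E i) := by
  classical
  haveI := Fintype.ofFinite ι
  have hle : ∀ i, E i ≤ H := fun i => (le_iSup E i).trans hsup.le
  have h' : q ∣ Nat.card (Finset.univ.sup E : Subgroup G) := by
    rw [Finset.sup_univ_eq_iSup, hsup]; exact h
  obtain ⟨i, -, hi⟩ := exists_dvd_card_of_dvd_card_finset_sup E H hn hle hq Finset.univ h'
  exact ⟨i, hi⟩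

end supcard

theorem not_dvd_card_SL2 {p q : ℕ} [Fact p.Prime] (hq : q.Prime) (hpq : p ≠ q)
    (hp23 : p = 2 ∨ p = 3) (h23 : ¬ ((p = 2 ∧ q = 3) ∨ (p = 3 ∧ q = 2))) :
    ¬ q ∣ Nat.card (Matrix.SpecialLinearGroup (Fin 2) (ZMod p)) := by
  have h := Cfsg.Agent.Lib.Helper6.card_sl (F := ZMod p) (q := p) (ZMod.card p) 2 (by norm_num)
  rw [Fin.prod_univ_two] at h
  intro hd
  have hd2 : q ∣ (p ^ 2 - p ^ ((0 : Fin 2) : ℕ)) * (p ^ 2 - p ^ ((1 : Fin 2) : ℕ)) := by
    rw [← h]; exact Dvd.dvd.mul_left hd _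
  rcases hp23 with rfl | rfl
  · have h6 : q ∣ 6 := by simpa using hd2
    have hle : q ≤ 6 := Nat.le_of_dvd (by norm_num) h6
    interval_cases q <;> simp_all (config := {decide := true})
  · have h48 : q ∣ 48 := by simpa using hd2
    have hle : q ≤ 48 := Nat.le_of_dvd (by norm_num) h48
    interval_cases q <;> simp_all (config := {decide := true})

section thmB

variable {G : Type*} [Group G] [Finite G] {p q : ℕ} [Fact p.Prime] [Fact q.Prime]

/-- in a `p`-solvable group with `O_{p'} = 1`, the only primes other than `p` dividing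
`|J(G) C_G(V) : C_G(V)|` occur for `{p, q} = {2, 3}`. -/
theorem not_dvd_relIndex_thompson (hpq : p ≠ q) (h23 : ¬ ((p = 2 ∧ q = 3) ∨ (p = 3 ∧ q = 2)))
    (hsep : IsPSolvable p G) (hO : pPrimeCore p G = ⊥) :
    ¬ q ∣ (Subgroup.centralizer ((⨆ S : Sylow p G, omegaOne p ((S : Subgroup G) ⊓
      Subgroup.centralizer ((S : Subgroup G) : Set G)) : Subgroup G) : Set G)).relIndex
        (thompsonSubgroup p G) := by
  have hq : q.Prime := Fact.out
  have hc : Subgroup.centralizer (Cfsg.pCore p G : Set G) ≤ Cfsg.pCore p G :=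
    Cfsg.Agent.Lib.Helper40.centralizer_pCore_le hsep hO
  obtain ⟨hVn, hVea, -⟩ := Cfsg.Agent.S0601.result (G := G) (p := p) hc
  set V : Subgroup G := ⨆ S : Sylow p G,
    Cfsg.omegaOne p ((S : Subgroup G) ⊓ Subgroup.centralizer ((S : Subgroup G) : Set G)) with hV
  haveI : V.Normal := hVn
  set C := Subgroup.centralizer (V : Set G) with hC
  set J := Cfsg.thompsonSubgroup p G with hJ
  by_cases hJC : J ≤ C
  · rw [Subgroup.relIndex_eq_one.mpr hJC]; exact hq.not_dvd_one
  have hgen : V = ⨆ S : Sylow p G, V ⊓ Subgroup.centralizer ((S : Subgroup G) : Set G) := by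
    apply le_antisymm
    · rw [hV]
      refine iSup_le fun S => ?_
      refine le_trans ?_ (le_iSup (fun S : Sylow p G =>
        V ⊓ Subgroup.centralizer ((S : Subgroup G) : Set G)) S)
      refine le_inf (le_iSup (fun S : Sylow p G => Cfsg.omegaOne p ((S : Subgroup G) ⊓
        Subgroup.centralizer ((S : Subgroup G) : Set G))) S) ?_
      exact (omegaOne_le _).trans inf_le_right
    · exact iSup_le fun S => inf_le_left
  have hOq : Cfsg.pCore p (G ⧸ C) = ⊥ := Cfsg.Agent.S0600.result V hVea hgen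
  set τ := holoHom V with hτ
  set ℍ : Subgroup (Holo V) := J.map τ with hℍ
  have hHV : ℍ ≤ Subgroup.normalizer (holoV V : Set (Holo V)) := by
    rw [Subgroup.normalizer_eq_top_iff.mpr (holoV_normal V)]
    exact le_top
  have hf : ℍ ⊓ Subgroup.centralizer (holoV V : Set (Holo V)) = ⊥ := by
    rw [eq_bot_iff, ← holo_faithful V]
    exact inf_le_inf_right _ (Subgroup.map_le_range _ _)
  have hsol : Cfsg.IsPSolvable p ↥ℍ :=
    isPSolvable_map (τ.subgroupMap J) (τ.subgroupMap_surjective J) (isPSolvable_subgroup hsep J)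
  have hS1 : Subgroup.centralizer (Cfsg.pPrimeCore p ↥ℍ : Set ↥ℍ) ≤ Cfsg.pPrimeCore p ↥ℍ :=
    centralizer_pPrimeCore_le hsol (Cfsg.Agent.S0618.pCore_map_thompson V hOq)
  have hS3 : ℍ = ⨆ A : {A : Subgroup (Holo V) // A ≤ ℍ ∧ Cfsg.IsBestOffenderOn p (holoV V) A},
      (A : Subgroup (Holo V)) := by
    apply le_antisymm
    · rw [hℍ, Subgroup.map_le_iff_le_comap, hJ]
      unfold Cfsg.thompsonSubgroup
      apply sSup_le
      intro A hA
      rw [← Subgroup.map_le_iff_le_comap]
      exact le_iSup (fun A : {A : Subgroup (Holo V) // A ≤ ℍ ∧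
        Cfsg.IsBestOffenderOn p (holoV V) A} => (A : Subgroup (Holo V)))
        ⟨A.map τ, Subgroup.map_mono (le_sSup hA),
          holo_bo V A (Cfsg.Agent.S0606.result V hVea A hA)⟩
    · exact iSup_le fun A => A.2.1
  have hH1 : ℍ ≠ ⊥ := by
    intro h
    apply hJC
    intro x hx
    have h1 : τ x ∈ ℍ := ⟨x, hx, rfl⟩
    rw [h, Subgroup.mem_bot] at h1
    rw [hC, ← holoHom_ker V]
    exact h1
  obtain ⟨hp23, hcomp, -, hsup, -, -⟩ :=
    ff_structure (holoV V) ℍ (holoV_ea V hVea) hHV hf hS1 hS3 hH1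
  have hcard : Nat.card ℍ = C.relIndex J := by
    rw [hC, ← holoHom_ker V]; exact (Subgroup.relIndex_ker J τ).symm
  intro hdvd
  rw [← hcard] at hdvd
  obtain ⟨E, hE⟩ := exists_dvd_card_of_dvd_card_iSup
    (fun E : {E : Subgroup (Holo V) // IsMinComp p (holoV V) ℍ E} => (E : Subgroup (Holo V))) ℍ
    (fun E => (hcomp E).1) hsup hq hdvd
  obtain ⟨-, ⟨iso⟩, -⟩ := hcomp E
  rw [Nat.card_congr iso.toEquiv] at hE
  exact not_dvd_card_SL2 hq hpq hp23 h23 hE

/-- **Theorem B.** In a `p`-solvable group with `O_{p'} = 1`, a prime `q ≠ p` dividing the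
order (with `{p, q} ≠ {2, 3}`) divides the order of `C(Ω₁ Z(R))` or of `N(J(R))`. -/
theorem dvd_card_centralizer_or_normalizer (hpq : p ≠ q)
    (h23 : ¬ ((p = 2 ∧ q = 3) ∨ (p = 3 ∧ q = 2)))
    (hsep : IsPSolvable p G) (hO : pPrimeCore p G = ⊥) (R : Sylow p G)
    (hqG : q ∣ Nat.card G) :
    q ∣ Nat.card (Subgroup.centralizer ((omegaOne p ((R : Subgroup G) ⊓
      Subgroup.centralizer ((R : Subgroup G) : Set G)) : Subgroup G) : Set G)) ∨
    q ∣ Nat.card (Subgroup.normalizer
      ((thompsonSubgroupOf p (R : Subgroup G) : Subgroup G) : Set G)) := by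
  have hq : q.Prime := Fact.out
  have hnd := not_dvd_relIndex_thompson hpq h23 hsep hO
  set V : Subgroup G := ⨆ S : Sylow p G,
    Cfsg.omegaOne p ((S : Subgroup G) ⊓ Subgroup.centralizer ((S : Subgroup G) : Set G)) with hV
  set C := Subgroup.centralizer (V : Set G) with hC
  set J := Cfsg.thompsonSubgroup p G with hJ
  haveI hJn : J.Normal := by
    have : J.Characteristic := (Cfsg.Agent.S0602.result (G := G) (p := p)).1
    exact Subgroup.normal_of_characteristic J
  set N := Subgroup.normalizer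
    ((thompsonSubgroupOf p (R : Subgroup G) : Subgroup G) : Set G) with hN
  have hF : Subgroup.normalizer (((R : Subgroup G) ⊓ J : Subgroup G) : Set G) ⊔ J = ⊤ :=
    normalizer_inf_sup_eq_top J R
  have hJR : thompsonSubgroupOf p ((R : Subgroup G) ⊓ J) = thompsonSubgroupOf p (R : Subgroup G) :=
    Cfsg.Agent.Lib.Helper26.thompsonOf_eq_of_le inf_le_left
      (le_inf (thompsonOf_le _) (thompsonOf_sylow_le_thompson R))
  have hNJ : N ⊔ J = ⊤ := by
    rw [eq_top_iff, ← hF]
    refine sup_le_sup_right ?_ J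
    have := Cfsg.Agent.Lib.Helper26.normalizer_le_normalizer_thompsonOf (p := p)
      ((R : Subgroup G) ⊓ J)
    rwa [hJR] at this
  have h1 := card_sup_mul_card_inf (H := N) (K := J)
    (by rw [Subgroup.normalizer_eq_top_iff.mpr hJn]; exact le_top)
  rw [hNJ, Subgroup.card_top] at h1
  have h2 : q ∣ Nat.card N * Nat.card J := by
    rw [← h1]; exact Dvd.dvd.mul_right hqG _
  rcases (Nat.Prime.dvd_mul hq).mp h2 with h3 | h3
  · right; exact h3
  · left
    have h4 : Nat.card (C ⊓ J : Subgroup G) * (C ⊓ J).relIndex J = Nat.card J :=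
      card_mul_relIndex inf_le_right
    rw [Subgroup.inf_relIndex_right] at h4
    rw [← h4] at h3
    rcases (Nat.Prime.dvd_mul hq).mp h3 with h5 | h5
    · have hC1 : C ≤ Subgroup.centralizer ((omegaOne p ((R : Subgroup G) ⊓
          Subgroup.centralizer ((R : Subgroup G) : Set G)) : Subgroup G) : Set G) :=
        Subgroup.centralizer_le (SetLike.coe_subset_coe.mpr
          (le_iSup (fun S : Sylow p G => Cfsg.omegaOne p ((S : Subgroup G) ⊓
            Subgroup.centralizer ((S : Subgroup G) : Set G))) R))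
      exact h5.trans ((Subgroup.card_dvd_of_le inf_le_left).trans (Subgroup.card_dvd_of_le hC1))
    · exact absurd h5 hnd

end thmB

end Cfsg.Agent.Lib.Helper14
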