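import Mathlib
import Cfsg.Agent.Lib.Helper14.Aut2
import Cfsg.Agent.Lib.Helper14.PCore
import Cfsg.Agent.Lib.Helper14.Stable
import Cfsg.Agent.Lib.Helper40.PiCore
import Cfsg.Agent.Lib.Helper81.PSolv2
import Cfsg.Agent.Lib.Helper26.SolvPSolv
import Cfsg.Agent.Lib.Helper26.ThompsonStep0
import Cfsg.Agent.Lib.Helper26.NpcBasic

set_option autoImplicit false

universe u

namespace Cfsg.Agent.Lib.Helper14

open Cfsg

section thmA

variable {X : Type u} [Group X] [Finite X] {p q : ℕ} [Fact p.Prime] [Fact q.Prime]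

/-- `Ω₁(Z(R)) ≤ J(R)`. -/
theorem omegaZ_le_thompsonOf (R : Subgroup X) :
    omegaOne p (R ⊓ Subgroup.centralizer (R : Set X)) ≤ thompsonSubgroupOf p R := by
  unfold omegaOne
  rw [Subgroup.closure_le]
  rintro x ⟨⟨hxR, hxc⟩, hxp⟩
  have h1 : (⟨x, hxR⟩ : ↥R) ∈ thompsonSubgroup p ↥R := by
    apply mem_thompson_of_pow_eq_one
    · exact Subtype.ext (by simpa using hxp)
    · rw [Subgroup.mem_centralizer_iff]
      intro h _
      exact Subtype.ext (Subgroup.mem_centralizer_iff.mp hxc h h.2)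
  exact ⟨⟨x, hxR⟩, h1, rfl⟩

theorem coprime_relIndex_center (R : Sylow p X) (H : Subgroup X) (C : Subgroup X) [C.Normal]
    (hRC : (R : Subgroup X) ⊓ C ≤ H) : ((H ⊓ C).relIndex C).Coprime p := by
  have hp : p.Prime := Fact.out
  obtain ⟨P, hP⟩ := exists_sylow_map_eq_inf C R
  have h1 : ¬ p ∣ ((R : Subgroup X) ⊓ C).relIndex C := by
    rw [← hP]
    show ¬ p ∣ (((P : Subgroup C).map C.subtype).comap C.subtype).index
    rw [Subgroup.comap_map_eq_self_of_injective C.subtype_injective]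
    exact P.not_dvd_index
  have h3 : (H ⊓ C).relIndex C ∣ ((R : Subgroup X) ⊓ C).relIndex C :=
    Subgroup.relIndex_dvd_of_le_left C (le_inf hRC inf_le_right)
  exact ((Nat.Prime.coprime_iff_not_dvd hp).mpr (fun h => h1 (h.trans h3))).symm

/-- **Theorem A.** -/
theorem exists_qelt_thmA (hpq : p ≠ q) (h23 : ¬ ((p = 2 ∧ q = 3) ∨ (p = 3 ∧ q = 2)))
    (R : Sylow p X) (H : Subgroup X) [hHn : H.Normal] (hH : IsPGroup p H)
    (C : Subgroup X) [hCn : C.Normal] (hC : C = Subgroup.centralizer (H : Set X))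
    (hRC : (R : Subgroup X) ⊓ C ≤ H)
    (hsol : IsPSolvable p (X ⧸ C)) (hq : q ∣ C.index) :
    ∃ c : X, (∃ k : ℕ, orderOf c = q ^ k) ∧ c ∉ C ∧
      (c ∈ Subgroup.centralizer ((omegaOne p ((R : Subgroup X) ⊓
          Subgroup.centralizer ((R : Subgroup X) : Set X)) : Subgroup X) : Set X) ∨
       (c ∈ Subgroup.normalizer ((thompsonSubgroupOf p (R : Subgroup X) : Subgroup X) : Set X) ∧
        c ∉ Subgroup.centralizer
          ((thompsonSubgroupOf p (R : Subgroup X) : Subgroup X) : Set X))) := by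
  have hp : p.Prime := Fact.out
  have hqp : q.Prime := Fact.out
  have hcop_qp : Nat.Coprime q p := (Nat.coprime_primes hqp hp).mpr (Ne.symm hpq)
  set Z : Subgroup X := H ⊓ C with hZ
  have hZp : IsPGroup p Z := hH.to_le inf_le_left
  have hZn : Z.Normal := Subgroup.normal_inf_normal H C
  have hcent : ∀ z ∈ Z, ∀ c ∈ C, z * c = c * z := by
    intro z hz c hc
    rw [hC] at hc
    exact Subgroup.mem_centralizer_iff.mp hc z hz.1
  have hidx : (Z.relIndex C).Coprime p := coprime_relIndex_center R H C hRC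
  obtain ⟨K, hKC, hKc, hK⟩ :=
    Cfsg.Agent.Lib.Helper81.exists_pprime_complement p C Z hcent hZp hidx
  have hKn : K.Normal := by
    refine ⟨fun k hk g => ?_⟩
    apply hK _ (hCn.conj_mem k (hKC hk) g)
    rw [Cfsg.Agent.Lib.Helper26.orderOf_conj_eq g k]
    have h2 : orderOf k ∣ Nat.card K := by
      have := orderOf_dvd_natCard (⟨k, hk⟩ : K)
      rwa [Subgroup.orderOf_mk] at this
    exact Nat.Coprime.coprime_dvd_left h2 hKc
  set D := pPrimeCore p X with hD
  have hKD : K ≤ D := le_pPrimeCore hKn hKc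
  have hDc : (Nat.card D).Coprime p := pPrimeCore_coprime
  have claim1 : ∀ c : X, c ∈ C → (∃ k : ℕ, orderOf c = q ^ k) → c ∈ D := by
    rintro c hc ⟨k, hk⟩
    apply hKD
    apply hK c hc
    rw [hk]; exact Nat.Coprime.pow_left k hcop_qp
  have hXsol : IsPSolvable p X := by
    apply Cfsg.Agent.Lib.Helper26.isPSolvable_lift p Z (Or.inl (IsPGroup.iff_card.mp hZp))
    have hZC : Z ≤ C := inf_le_right
    have : (C.map (QuotientGroup.mk' Z)).Normal := hCn.map _ (QuotientGroup.mk'_surjective Z)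
    apply Cfsg.Agent.Lib.Helper26.isPSolvable_lift p (C.map (QuotientGroup.mk' Z))
    · right
      have h1 : Nat.card (C.map (QuotientGroup.mk' Z)) = Z.relIndex C := by
        have h2 := Subgroup.relIndex_comap (⊥ : Subgroup (X ⧸ Z)) (QuotientGroup.mk' Z) C
        rw [Subgroup.relIndex_bot_left, MonoidHom.comap_bot, QuotientGroup.ker_mk'] at h2
        exact h2.symm
      rw [h1]; exact hidx
    · exact isPSolvable_map (QuotientGroup.quotientQuotientEquivQuotient Z C hZC).symm.toMonoidHom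
        (QuotientGroup.quotientQuotientEquivQuotient Z C hZC).symm.surjective hsol
  have hπs : Function.Surjective (QuotientGroup.mk' D) := QuotientGroup.mk'_surjective D
  have hYsol : IsPSolvable p (X ⧸ D) := isPSolvable_map (QuotientGroup.mk' D) hπs hXsol
  have hYO : pPrimeCore p (X ⧸ D) = ⊥ := Cfsg.Agent.Lib.Helper40.pPrimeCore_quotient hp
  have hDord : ∀ d ∈ D, (orderOf d).Coprime p := by
    intro d hd
    have h2 : orderOf d ∣ Nat.card D := by
      have := orderOf_dvd_natCard (⟨d, hd⟩ : D)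
      rwa [Subgroup.orderOf_mk] at this
    exact Nat.Coprime.coprime_dvd_left h2 hDc
  have hDC : D ≤ C := by
    intro d hd
    rw [hC, Subgroup.mem_centralizer_iff]
    intro h hh
    have hdisj : Disjoint D H := by
      rw [disjoint_iff, eq_bot_iff]
      intro x hx
      rw [Subgroup.mem_bot]
      exact Cfsg.Agent.Lib.Helper26.eq_one_of_mem_pgroup_of_coprime hH hx.2 (hDord x hx.1)
    exact ((Subgroup.commute_of_normal_of_disjoint D H inferInstance hHn hdisj d h hd hh).eq).symm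
  have hqY : q ∣ Nat.card (X ⧸ D) := hq.trans (Subgroup.index_dvd_of_le hDC)
  have hRp : IsPGroup p (R : Subgroup X) := R.isPGroup'
  have hcoe : ((R.mapSurjective hπs : Sylow p (X ⧸ D)) : Subgroup (X ⧸ D)) =
      (R : Subgroup X).map (QuotientGroup.mk' D) := Sylow.coe_mapSurjective hπs R
  -- a `q`-element of `X` with nontrivial image is not in `C`
  have key : ∀ (c₀ : X) (y₀ : X ⧸ D), QuotientGroup.mk' D c₀ = y₀ → orderOf y₀ = q →
      ∃ m : ℕ, (∃ k : ℕ, orderOf (c₀ ^ m) = q ^ k) ∧ c₀ ^ m ∉ C := by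
    intro c₀ y₀ hcy hy
    obtain ⟨m, hm, k, hk⟩ := exists_qpart q c₀
    refine ⟨m, ⟨k, hk⟩, ?_⟩
    intro hmem
    have h1 : c₀ ^ m ∈ D := claim1 _ hmem ⟨k, hk⟩
    have h2 : y₀ ^ m = 1 := by
      rw [← hcy, ← map_pow]
      exact Cfsg.Agent.Lib.Helper26.mk'_eq_one_of_mem D h1
    have hy1 : y₀ ≠ 1 := by
      intro h
      rw [h, orderOf_one] at hy
      exact hqp.one_lt.ne hy
    exact pow_ne_one_of_qpow (k := 1) (by rw [hy, pow_one]) hy1 hm h2
  rcases dvd_card_centralizer_or_normalizer hpq h23 hYsol hYO (R.mapSurjective hπs) hqY with h | h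
  · -- centralizer case
    obtain ⟨yb, hyb⟩ := exists_prime_orderOf_dvd_card' q h
    have hy : orderOf (yb : X ⧸ D) = q := by rw [Subgroup.orderOf_coe, hyb]
    have hsub : (omegaOne p ((R : Subgroup X) ⊓
        Subgroup.centralizer ((R : Subgroup X) : Set X))).map (QuotientGroup.mk' D) ≤
        omegaOne p (((R.mapSurjective hπs : Sylow p (X ⧸ D)) : Subgroup (X ⧸ D)) ⊓
          Subgroup.centralizer
            (((R.mapSurjective hπs : Sylow p (X ⧸ D)) : Subgroup (X ⧸ D)) : Set (X ⧸ D))) := by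
      refine (omegaOne_map_le _ _).trans (omegaOne_mono ?_)
      rw [hcoe]
      rintro _ ⟨x, hx, rfl⟩
      exact ⟨Subgroup.mem_map_of_mem _ hx.1, map_mem_centralizer_map _ _ hx.2⟩
    have h1 : (yb : X ⧸ D) ∈ Subgroup.centralizer
        (((omegaOne p ((R : Subgroup X) ⊓ Subgroup.centralizer ((R : Subgroup X) : Set X))).map
          (QuotientGroup.mk' D) : Subgroup (X ⧸ D)) : Set (X ⧸ D)) :=
      Subgroup.centralizer_le (SetLike.coe_subset_coe.mpr hsub) yb.2
    have hΩp : IsPGroup p ↥(omegaOne p ((R : Subgroup X) ⊓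
        Subgroup.centralizer ((R : Subgroup X) : Set X))) :=
      hRp.to_le ((omegaOne_le _).trans inf_le_left)
    obtain ⟨c₀, hc₀, hc₀y⟩ := Cfsg.Agent.Lib.Helper26.centralizer_map_le D hDc _ hΩp h1
    obtain ⟨m, hmk, hmC⟩ := key c₀ _ hc₀y hy
    exact ⟨c₀ ^ m, hmk, hmC, Or.inl (Subgroup.pow_mem _ hc₀ m)⟩
  · -- normalizer case
    obtain ⟨yb, hyb⟩ := exists_prime_orderOf_dvd_card' q h
    have hy : orderOf (yb : X ⧸ D) = q := by rw [Subgroup.orderOf_coe, hyb]
    have hJmap : thompsonSubgroupOf p ((R : Subgroup X).map (QuotientGroup.mk' D)) =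
        (thompsonSubgroupOf p (R : Subgroup X)).map (QuotientGroup.mk' D) := by
      apply Cfsg.Agent.Lib.Helper26.thompsonOf_map
      intro u hu hu1
      have huD : u ∈ D := Cfsg.Agent.Lib.Helper26.mem_of_mk'_eq_one D hu1
      exact Cfsg.Agent.Lib.Helper26.eq_one_of_mem_pgroup_of_coprime hRp hu (hDord u huD)
    have h1 : (yb : X ⧸ D) ∈ Subgroup.normalizer
        (((thompsonSubgroupOf p (R : Subgroup X)).map
          (QuotientGroup.mk' D) : Subgroup (X ⧸ D)) : Set (X ⧸ D)) := by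
      have hle : Subgroup.normalizer ((thompsonSubgroupOf p
          ((R.mapSurjective hπs : Sylow p (X ⧸ D)) : Subgroup (X ⧸ D)) : Subgroup (X ⧸ D)) :
            Set (X ⧸ D)) ≤ Subgroup.normalizer (((thompsonSubgroupOf p (R : Subgroup X)).map
              (QuotientGroup.mk' D) : Subgroup (X ⧸ D)) : Set (X ⧸ D)) := by
        rw [hcoe, hJmap]
      exact hle yb.2
    have hJp : IsPGroup p ↥(thompsonSubgroupOf p (R : Subgroup X)) :=
      hRp.to_le (thompsonOf_le _)
    obtain ⟨n₀, hn₀, hn₀y⟩ := Cfsg.Agent.Lib.Helper26.normalizer_map_le D hDc _ hJp h1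
    obtain ⟨m, hmk, hmC⟩ := key n₀ _ hn₀y hy
    by_cases hcJ : n₀ ^ m ∈ Subgroup.centralizer
        ((thompsonSubgroupOf p (R : Subgroup X) : Subgroup X) : Set X)
    · exact ⟨n₀ ^ m, hmk, hmC, Or.inl (Subgroup.centralizer_le
        (SetLike.coe_subset_coe.mpr (omegaZ_le_thompsonOf (R : Subgroup X))) hcJ)⟩
    · exact ⟨n₀ ^ m, hmk, hmC, Or.inr ⟨Subgroup.pow_mem _ hn₀ m, hcJ⟩⟩

end thmA

end Cfsg.Agent.Lib.Helper14
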