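import Mathlib
import Cfsg.Agent.Lib.Helper14.Aut3
import Cfsg.Agent.Lib.Helper14.ClassTwo
import Cfsg.Agent.Lib.Helper14.Coprime

set_option autoImplicit false

universe u

namespace Cfsg.Agent.Lib.Helper14

open Cfsg

/-- `q` divides the order of the automizer `N(K)/C(K)`. -/
abbrev AutDvd (q : ℕ) {G : Type*} [Group G] (K : Subgroup G) : Prop :=
  q ∣ ((Subgroup.centralizer (K : Set G)).subgroupOf (Subgroup.normalizer (K : Set G))).index

/-- all automizers of `p`-subgroups are `p`-solvable. -/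
def AutHyp (p : ℕ) (G : Type u) [Group G] : Prop :=
  ∀ H : Subgroup G, IsPGroup p ↥H →
    IsPSolvable p (↥(Subgroup.normalizer (H : Set G)) ⧸
      (Subgroup.centralizer (H : Set G)).subgroupOf (Subgroup.normalizer (H : Set G)))

/-- the statement proved by induction. -/
def AutConclusion (p q : ℕ) (G : Type u) [Group G] : Prop :=
  AutHyp p G → ∀ H : Subgroup G, IsPGroup p ↥H → AutDvd q H → ∀ S : Sylow p G,
    ∃ K : Subgroup G, K ≤ (S : Subgroup G) ∧
      (S : Subgroup G) ≤ Subgroup.normalizer (K : Set G) ∧ AutDvd q K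

section transport

variable {p : ℕ} [Fact p.Prime]

theorem dvd_autIndex_map_injective {A B : Type*} [Group A] [Finite A] [Group B] {q : ℕ}
    [Fact q.Prime] (f : A →* B) (hf : Function.Injective f) (K : Subgroup A)
    (h : AutDvd q K) : AutDvd q (K.map f) := by
  obtain ⟨c, hcN, hcC, k, hk⟩ := exists_elt_of_dvd_autIndex K h
  refine dvd_autIndex_of_elt (c := f c) (k := k) _ ?_ ?_ ?_
  · exact (mem_normalizer_map_iff f hf K c).mpr hcN
  · intro h'
    exact hcC ((mem_centralizer_map_iff f hf K c).mp h')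
  · rw [← hk]; exact orderOf_injective f hf c

theorem isPSolvable_automizer_of_injective {A B : Type*} [Group A] [Group B] (f : A →* B)
    (hf : Function.Injective f) (K : Subgroup A)
    (h : IsPSolvable p (↥(Subgroup.normalizer ((K.map f : Subgroup B) : Set B)) ⧸
      (Subgroup.centralizer ((K.map f : Subgroup B) : Set B)).subgroupOf
        (Subgroup.normalizer ((K.map f : Subgroup B) : Set B)))) :
    IsPSolvable p (↥(Subgroup.normalizer (K : Set A)) ⧸
      (Subgroup.centralizer (K : Set A)).subgroupOf (Subgroup.normalizer (K : Set A))) := by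
  let φ : ↥(Subgroup.normalizer (K : Set A)) →*
      ↥(Subgroup.normalizer ((K.map f : Subgroup B) : Set B)) :=
    (f.comp (Subgroup.normalizer (K : Set A)).subtype).codRestrict _
      (fun x => (mem_normalizer_map_iff f hf K x).mpr x.2)
  refine isPSolvable_quotient_of_comap _ _ φ ?_ h
  ext x
  rw [Subgroup.mem_subgroupOf, Subgroup.mem_comap, Subgroup.mem_subgroupOf]
  exact (mem_centralizer_map_iff f hf K x).symm

theorem isPSolvable_automizer_of_surjective {A B : Type*} [Group A] [Group B] (f : A →* B)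
    (hf : Function.Surjective f) (K : Subgroup B)
    (h : IsPSolvable p (↥(Subgroup.normalizer ((K.comap f : Subgroup A) : Set A)) ⧸
      (Subgroup.centralizer ((K.comap f : Subgroup A) : Set A)).subgroupOf
        (Subgroup.normalizer ((K.comap f : Subgroup A) : Set A)))) :
    IsPSolvable p (↥(Subgroup.normalizer (K : Set B)) ⧸
      (Subgroup.centralizer (K : Set B)).subgroupOf (Subgroup.normalizer (K : Set B))) := by
  have hN : (Subgroup.normalizer (K : Set B)).comap f =
      Subgroup.normalizer ((K.comap f : Subgroup A) : Set A) :=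
    Subgroup.comap_normalizer_eq_of_surjective K hf
  let φ : ↥(Subgroup.normalizer ((K.comap f : Subgroup A) : Set A)) →*
      ↥(Subgroup.normalizer (K : Set B)) :=
    (f.comp (Subgroup.normalizer ((K.comap f : Subgroup A) : Set A)).subtype).codRestrict _
      (fun x => by
        have hx : (x : A) ∈ (Subgroup.normalizer (K : Set B)).comap f := by rw [hN]; exact x.2
        exact hx)
  refine isPSolvable_quotient_of_surjective _ _ φ ?_ ?_ h
  · rintro ⟨y, hy⟩
    obtain ⟨x, rfl⟩ := hf y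
    have hx : x ∈ Subgroup.normalizer ((K.comap f : Subgroup A) : Set A) := by
      rw [← hN]; exact hy
    exact ⟨⟨x, hx⟩, rfl⟩
  · intro x hx
    rw [Subgroup.mem_subgroupOf] at hx
    rw [Subgroup.mem_comap, Subgroup.mem_subgroupOf]
    have h1 := map_mem_centralizer_map f (K.comap f) hx
    rw [Subgroup.map_comap_eq_self_of_surjective hf] at h1
    exact h1

theorem omegaOne_ne_bot_of_isPGroup {G : Type*} [Group G] [Finite G] {H : Subgroup G}
    (hH : IsPGroup p H) (hne : H ≠ ⊥) : omegaOne p H ≠ ⊥ := by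
  have hp : p.Prime := Fact.out
  obtain ⟨k, hk⟩ := IsPGroup.iff_card.mp hH
  have hk0 : k ≠ 0 := by
    rintro rfl
    rw [pow_zero] at hk
    exact hne (Subgroup.card_eq_one.mp hk)
  have hdvd : p ∣ Nat.card H := by rw [hk]; exact dvd_pow_self p hk0
  obtain ⟨x, hx⟩ := exists_prime_orderOf_dvd_card' p hdvd
  intro h
  have hxp : (x : G) ^ p = 1 := by
    have := pow_orderOf_eq_one x
    rw [hx] at this
    exact congrArg Subtype.val this
  have h1 : (x : G) ∈ omegaOne p H := mem_omegaOne_of_mem x.2 hxp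
  rw [h, Subgroup.mem_bot] at h1
  have h2 : x = 1 := Subtype.ext h1
  rw [h2, orderOf_one] at hx
  exact hp.one_lt.ne hx

theorem normalizer_le_normalizer_omegaOne {G : Type*} [Group G] (K : Subgroup G) :
    Subgroup.normalizer (K : Set G) ≤
      Subgroup.normalizer ((omegaOne p K : Subgroup G) : Set G) := by
  intro g hg
  apply Cfsg.Agent.Lib.Helper26.mem_normalizer_of_map_conj_eq
  rw [omegaOne_map_equiv (p := p) (MulAut.conj g) K,
    Cfsg.Agent.Lib.Helper26.map_conj_eq_of_mem_normalizer hg]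

end transport

section choice

variable {G : Type*} [Group G] [Finite G] {p q : ℕ} [Fact p.Prime] [Fact q.Prime]

theorem exists_max_choice (S : Sylow p G) (H : Subgroup G) (hH : IsPGroup p H)
    (hq : AutDvd q H) :
    ∃ H₀ : Subgroup G, H₀ ≤ (S : Subgroup G) ∧ AutDvd q H₀ ∧
      (∀ P K : Subgroup G, IsPGroup p P → K ≤ P → P ≤ Subgroup.normalizer (K : Set G) →
        AutDvd q K → Nat.card P ≤
          Nat.card ((S : Subgroup G) ⊓ Subgroup.normalizer (H₀ : Set G) : Subgroup G)) ∧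
      (∀ K₁ : Subgroup G, K₁ ≤ (S : Subgroup G) → AutDvd q K₁ → H₀ ≤ K₁ →
        (S : Subgroup G) ⊓ Subgroup.normalizer (H₀ : Set G) ≤
          Subgroup.normalizer (K₁ : Set G) → K₁ = H₀) := by
  classical
  obtain ⟨K₀, hK₀S, hK₀q, -, -⟩ := exists_conj_le_sylow S hH le_rfl Subgroup.le_normalizer hq
  let μ : Subgroup G → ℕ := fun K =>
    Nat.card ((S : Subgroup G) ⊓ Subgroup.normalizer (K : Set G) : Subgroup G) *
      (Nat.card G + 1) + Nat.card K
  have hne : Nonempty {K : Subgroup G // K ≤ (S : Subgroup G) ∧ AutDvd q K} :=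
    ⟨⟨K₀, hK₀S, hK₀q⟩⟩
  obtain ⟨⟨H₀, hH₀S, hH₀q⟩, hmax⟩ := Finite.exists_max
    (fun K : {K : Subgroup G // K ≤ (S : Subgroup G) ∧ AutDvd q K} => μ K.1)
  have hmax' : ∀ K : Subgroup G, K ≤ (S : Subgroup G) → AutDvd q K → μ K ≤ μ H₀ :=
    fun K h1 h2 => hmax ⟨K, h1, h2⟩
  refine ⟨H₀, hH₀S, hH₀q, ?_, ?_⟩
  · intro P K hP hKP hPK hKq
    obtain ⟨K', hK'S, hK'q, hcard, -⟩ := exists_conj_le_sylow S hP hKP hPK hKq
    have h1 := hmax' K' hK'S hK'q
    refine hcard.trans ?_
    by_contra hlt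
    rw [not_le] at hlt
    have h2 : Nat.card H₀ ≤ Nat.card G := Subgroup.card_le_card_group H₀
    have h3 := Nat.mul_le_mul_right (Nat.card G + 1) (Nat.succ_le_of_lt hlt)
    simp only [μ] at h1
    nlinarith [Nat.zero_le (Nat.card K')]
  · intro K₁ hK₁S hK₁q hHK hRK
    have h1 := hmax' K₁ hK₁S hK₁q
    have h2 : Nat.card ((S : Subgroup G) ⊓ Subgroup.normalizer (H₀ : Set G) : Subgroup G) ≤
        Nat.card ((S : Subgroup G) ⊓ Subgroup.normalizer (K₁ : Set G) : Subgroup G) :=
      Subgroup.card_le_of_le (le_inf inf_le_left hRK)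
    have h3 := Nat.mul_le_mul_right (Nat.card G + 1) h2
    have h4 : Nat.card K₁ ≤ Nat.card H₀ := by
      simp only [μ] at h1
      omega
    exact (subgroup_eq_of_le_of_card_le hHK h4).symm

end choice

section cases

variable {G : Type u} [Group G] [Finite G] {p q : ℕ} [Fact p.Prime] [Fact q.Prime]

/-- the case of a proper subgroup `M` containing the relevant data. -/
theorem aut_sub_case
    (IH : ∀ (G' : Type u) [Group G'] [Finite G'], Nat.card G' < Nat.card G →
      AutConclusion p q G')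
    (hsol : AutHyp p G) (M : Subgroup G) (hM : M ≠ ⊤) (H₀ : Subgroup G)
    (hH₀ : IsPGroup p H₀) (hH₀M : H₀ ≤ M) (c : G) (hcM : c ∈ M)
    (hcN : c ∈ Subgroup.normalizer (H₀ : Set G)) (hcC : c ∉ Subgroup.centralizer (H₀ : Set G))
    (k : ℕ) (hk : orderOf c = q ^ k) (P : Subgroup G) (hP : IsPGroup p P) (hPM : P ≤ M) :
    ∃ P' K : Subgroup G, IsPGroup p P' ∧ K ≤ P' ∧ P' ≤ Subgroup.normalizer (K : Set G) ∧
      AutDvd q K ∧ Nat.card P ≤ Nat.card P' := by
  have hlt : Nat.card ↥M < Nat.card G := by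
    by_contra h
    exact hM (Subgroup.eq_top_of_le_card M (not_lt.mp h))
  have hinj : Function.Injective M.subtype := M.subtype_injective
  have hsolM : AutHyp p ↥M := fun K hK =>
    isPSolvable_automizer_of_injective M.subtype hinj K (hsol (K.map M.subtype) (hK.map M.subtype))
  have hHM : (H₀.subgroupOf M).map M.subtype = H₀ := Subgroup.map_subgroupOf_eq_of_le hH₀M
  have hHMp : IsPGroup p ↥(H₀.subgroupOf M) := hH₀.comap_of_injective M.subtype hinj
  have hqM : AutDvd q (H₀.subgroupOf M) := by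
    refine dvd_autIndex_of_elt (c := (⟨c, hcM⟩ : ↥M)) (k := k) _ ?_ ?_ ?_
    · refine (mem_normalizer_map_iff M.subtype hinj (H₀.subgroupOf M) ⟨c, hcM⟩).mp ?_
      rw [hHM]; exact hcN
    · intro h
      apply hcC
      have := (mem_centralizer_map_iff M.subtype hinj (H₀.subgroupOf M) ⟨c, hcM⟩).mpr h
      rw [hHM] at this
      exact this
    · rw [← hk]; exact Subgroup.orderOf_mk c hcM
  obtain ⟨SM, hSM⟩ := (hP.comap_of_injective M.subtype hinj).exists_le_sylow
  obtain ⟨KM, hKS, hSK, hKq⟩ := IH ↥M hlt hsolM (H₀.subgroupOf M) hHMp hqM SM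
  refine ⟨(SM : Subgroup ↥M).map M.subtype, KM.map M.subtype, SM.isPGroup'.map M.subtype,
    Subgroup.map_mono hKS, ?_, dvd_autIndex_map_injective M.subtype hinj KM hKq, ?_⟩
  · rintro _ ⟨y, hy, rfl⟩
    exact (mem_normalizer_map_iff M.subtype hinj KM y).mpr (hSK hy)
  · have h1 : P ≤ (SM : Subgroup ↥M).map M.subtype := by
      have h2 : P = (P.subgroupOf M).map M.subtype := (Subgroup.map_subgroupOf_eq_of_le hPM).symm
      rw [h2]
      exact Subgroup.map_mono hSM
    exact Subgroup.card_le_of_le h1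

/-- the case of a normal elementary abelian subgroup `Z₁` centralized by the `q`-element. -/
theorem aut_quot_case (hpq : p ≠ q)
    (IH : ∀ (G' : Type u) [Group G'] [Finite G'], Nat.card G' < Nat.card G →
      AutConclusion p q G')
    (hsol : AutHyp p G) (S : Sylow p G) (Z₁ : Subgroup G) [hZn : Z₁.Normal]
    (hZp : IsPGroup p Z₁) (hZ1 : Z₁ ≠ ⊥) (hZS : Z₁ ≤ (S : Subgroup G))
    (hZe : ∀ z ∈ Z₁, z ^ p = 1) (H₀ : Subgroup G) (hH₀ : IsPGroup p H₀) (c : G)
    (hcZ : c ∈ Subgroup.centralizer (Z₁ : Set G))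
    (hcN : c ∈ Subgroup.normalizer (H₀ : Set G)) (hcC : c ∉ Subgroup.centralizer (H₀ : Set G))
    (k : ℕ) (hk : orderOf c = q ^ k) :
    ∃ K : Subgroup G, K ≤ (S : Subgroup G) ∧
      (S : Subgroup G) ≤ Subgroup.normalizer (K : Set G) ∧ AutDvd q K := by
  have hp : p.Prime := Fact.out
  have hqp : q.Prime := Fact.out
  have hπs : Function.Surjective (QuotientGroup.mk' Z₁) := QuotientGroup.mk'_surjective Z₁
  have hker : (QuotientGroup.mk' Z₁).ker = Z₁ := QuotientGroup.ker_mk' Z₁
  have hlt : Nat.card (G ⧸ Z₁) < Nat.card G := by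
    have h1 := Subgroup.card_eq_card_quotient_mul_card_subgroup Z₁
    have h2 : 1 < Nat.card Z₁ := (Subgroup.one_lt_card_iff_ne_bot Z₁).mpr hZ1
    have h3 : 0 < Nat.card (G ⧸ Z₁) := Nat.card_pos
    rw [h1]; nlinarith
  have hsolQ : AutHyp p (G ⧸ Z₁) := fun K hK =>
    isPSolvable_automizer_of_surjective (QuotientGroup.mk' Z₁) hπs K
      (hsol (K.comap (QuotientGroup.mk' Z₁))
        (hK.comap_of_ker_isPGroup _ (by rw [hker]; exact hZp)))
  have hcop : (orderOf c).Coprime p := by
    rw [hk]; exact Nat.Coprime.pow_left k ((Nat.coprime_primes hqp hp).mpr (Ne.symm hpq))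
  have hqQ : AutDvd q (H₀.map (QuotientGroup.mk' Z₁)) := by
    have h1 : orderOf (QuotientGroup.mk' Z₁ c) ∣ q ^ k := by
      rw [← hk]; exact orderOf_map_dvd _ c
    obtain ⟨j, -, hj⟩ := (Nat.dvd_prime_pow hqp).mp h1
    refine dvd_autIndex_of_elt (c := QuotientGroup.mk' Z₁ c) (k := j) _ ?_ ?_ hj
    · exact Subgroup.le_normalizer_map _ (Subgroup.mem_map_of_mem _ hcN)
    · intro hcent
      apply hcC
      rw [Subgroup.mem_centralizer_iff]
      intro h hh
      have h2 := Subgroup.mem_centralizer_iff.mp hcent (QuotientGroup.mk' Z₁ h)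
        (Subgroup.mem_map_of_mem _ hh)
      have h3 : c * h * c⁻¹ * h⁻¹ ∈ Z₁ := by
        apply Cfsg.Agent.Lib.Helper26.mem_of_mk'_eq_one
        rw [map_mul, map_mul, map_mul, map_inv, map_inv, ← h2]; group
      have h4 : c * (c * h * c⁻¹ * h⁻¹) = (c * h * c⁻¹ * h⁻¹) * c :=
        (Subgroup.mem_centralizer_iff.mp hcZ _ h3).symm
      exact (comm_of_stab_coprime h4 (hZe _ h3) hcop).symm
  obtain ⟨Kb, hKS, hSK, hKq⟩ := IH (G ⧸ Z₁) hlt hsolQ (H₀.map (QuotientGroup.mk' Z₁))
    (hH₀.map _) hqQ (S.mapSurjective hπs)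
  rw [Sylow.coe_mapSurjective] at hKS hSK
  have hN : (Subgroup.normalizer (Kb : Set (G ⧸ Z₁))).comap (QuotientGroup.mk' Z₁) =
      Subgroup.normalizer ((Kb.comap (QuotientGroup.mk' Z₁) : Subgroup G) : Set G) :=
    Subgroup.comap_normalizer_eq_of_surjective Kb hπs
  refine ⟨Kb.comap (QuotientGroup.mk' Z₁), ?_, ?_, ?_⟩
  · calc Kb.comap (QuotientGroup.mk' Z₁)
        ≤ ((S : Subgroup G).map (QuotientGroup.mk' Z₁)).comap (QuotientGroup.mk' Z₁) :=
          Subgroup.comap_mono hKS
      _ = (S : Subgroup G) ⊔ (QuotientGroup.mk' Z₁).ker := Subgroup.comap_map_eq _ _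
      _ = (S : Subgroup G) := by rw [hker]; exact sup_eq_left.mpr hZS
  · intro s hs
    rw [← hN]
    exact hSK (Subgroup.mem_map_of_mem _ hs)
  · obtain ⟨db, hdN, hdC, j, hj⟩ := exists_elt_of_dvd_autIndex Kb hKq
    obtain ⟨d, rfl⟩ := hπs db
    obtain ⟨m, hm, k', hk'⟩ := exists_qpart q d
    refine dvd_autIndex_of_elt (c := d ^ m) (k := k') _ ?_ ?_ hk'
    · apply Subgroup.pow_mem
      rw [← hN]; exact hdN
    · intro hcent
      apply hdC
      have h1 := map_mem_centralizer_map (QuotientGroup.mk' Z₁) _ hcent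
      rw [Subgroup.map_comap_eq_self_of_surjective hπs, map_pow] at h1
      refine mem_of_pow_mem_of_coprime h1 ?_
      rw [hj]; exact Nat.Coprime.pow_left j hm.symm

end cases

end Cfsg.Agent.Lib.Helper14
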