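import Mathlib
import Cfsg.Agent.Lib.Helper14.Aut4

set_option autoImplicit false

universe u

namespace Cfsg.Agent.Lib.Helper14

open Cfsg

section step

variable {G : Type u} [Group G] [Finite G] {p q : ℕ} [Fact p.Prime] [Fact q.Prime]

theorem aut_step (hpq : p ≠ q) (h23 : ¬ ((p = 2 ∧ q = 3) ∨ (p = 3 ∧ q = 2)))
    (IH : ∀ (G' : Type u) [Group G'] [Finite G'], Nat.card G' < Nat.card G →
      AutConclusion p q G') :
    AutConclusion p q G := by
  intro hsol H hH hq S
  have hp : p.Prime := Fact.out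
  have hqp : q.Prime := Fact.out
  obtain ⟨H₀, hH₀S, hH₀q, hP1, hP2⟩ := exists_max_choice S H hH hq
  by_cases hSN : (S : Subgroup G) ≤ Subgroup.normalizer (H₀ : Set G)
  · exact ⟨H₀, hH₀S, hSN, hH₀q⟩
  have hSp : IsPGroup p (S : Subgroup G) := S.isPGroup'
  have hH₀p : IsPGroup p H₀ := hSp.to_le hH₀S
  set X := Subgroup.normalizer (H₀ : Set G) with hX
  set R : Subgroup G := (S : Subgroup G) ⊓ X with hR
  have hRS : R ≤ S := inf_le_left
  have hRX : R ≤ X := inf_le_right
  have hRp : IsPGroup p R := hSp.to_le hRS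
  have hH₀X : H₀ ≤ X := Subgroup.le_normalizer
  have hH₀R : H₀ ≤ R := le_inf hH₀S hH₀X
  have hinj : Function.Injective X.subtype := X.subtype_injective
  have h2a : ∀ P : Subgroup G, IsPGroup p P → R ≤ P → P ≤ X → P = R := by
    intro P hP hRP hPX
    exact (subgroup_eq_of_le_of_card_le hRP (hP1 P H₀ hP (hH₀R.trans hRP) hPX hH₀q)).symm
  obtain ⟨R', hR'⟩ := (hRp.comap_of_injective X.subtype hinj).exists_le_sylow
  have hR'map : (R' : Subgroup ↥X).map X.subtype = R := by
    apply h2a _ (R'.isPGroup'.map X.subtype) _ (Subgroup.map_subtype_le _)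
    have h1 : R = (R.subgroupOf X).map X.subtype := (Subgroup.map_subgroupOf_eq_of_le hRX).symm
    calc R = (R.subgroupOf X).map X.subtype := h1
      _ ≤ _ := Subgroup.map_mono hR'
  set C' : Subgroup ↥X := (Subgroup.centralizer (H₀ : Set G)).subgroupOf X with hC'
  set H' : Subgroup ↥X := H₀.subgroupOf X with hH'
  have hC'n : C'.Normal :=
    (inferInstance : ((Subgroup.centralizer (H₀ : Set G)).subgroupOf
      (Subgroup.normalizer (H₀ : Set G))).Normal)
  have hH'map : H'.map X.subtype = H₀ := Subgroup.map_subgroupOf_eq_of_le hH₀X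
  have hH'p : IsPGroup p H' := hH₀p.comap_of_injective X.subtype hinj
  have hH'n : H'.Normal := Subgroup.normal_in_normalizer
  have hC'eq : C' = Subgroup.centralizer (H' : Set ↥X) := by
    ext y
    rw [hC', Subgroup.mem_subgroupOf, ← mem_centralizer_map_iff X.subtype hinj H' y, hH'map]
    rfl
  have hmemR' : ∀ y : ↥X, y ∈ (R' : Subgroup ↥X) ↔ (y : G) ∈ R := by
    intro y
    rw [← hR'map]
    exact (Subgroup.mem_map_iff_mem hinj).symm
  -- `C_S(H₀) ≤ H₀`
  have h2b : (S : Subgroup G) ⊓ Subgroup.centralizer (H₀ : Set G) ≤ H₀ := by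
    have hK₁ : H₀ ⊔ ((S : Subgroup G) ⊓ Subgroup.centralizer (H₀ : Set G)) = H₀ := by
      apply hP2 (H₀ ⊔ ((S : Subgroup G) ⊓ Subgroup.centralizer (H₀ : Set G)))
        (sup_le hH₀S inf_le_left) ?_ le_sup_left ?_
      · obtain ⟨y, hyN, hyC, k, hk⟩ := exists_qelt_normalizer_inf C' R' hH₀q
        have hmapT : ((R' : Subgroup ↥X) ⊓ C').map X.subtype =
            (S : Subgroup G) ⊓ Subgroup.centralizer (H₀ : Set G) := by
          ext z
          constructor
          · rintro ⟨y, ⟨hy1, hy2⟩, rfl⟩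
            exact ⟨hRS ((hmemR' y).mp hy1), Subgroup.mem_subgroupOf.mp hy2⟩
          · rintro ⟨hz1, hz2⟩
            have hzX : z ∈ X := Subgroup.centralizer_le_normalizer _ hz2
            exact ⟨⟨z, hzX⟩, ⟨(hmemR' _).mpr ⟨hz1, hzX⟩, Subgroup.mem_subgroupOf.mpr hz2⟩, rfl⟩
        have hyT : (y : G) ∈ Subgroup.normalizer
            (((S : Subgroup G) ⊓ Subgroup.centralizer (H₀ : Set G) : Subgroup G) : Set G) := by
          rw [← hmapT]
          exact (mem_normalizer_map_iff X.subtype hinj _ y).mpr hyN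
        refine dvd_autIndex_of_elt (c := (y : G)) (k := k) _ ?_ ?_ ?_
        · exact normalizer_inf_le_normalizer_sup H₀ _ ⟨y.2, hyT⟩
        · intro hcent
          apply hyC
          rw [hC', Subgroup.mem_subgroupOf]
          exact Subgroup.centralizer_le (SetLike.coe_subset_coe.mpr le_sup_left) hcent
        · rw [← hk]; exact Subgroup.orderOf_coe y
      · intro r hr
        apply normalizer_inf_le_normalizer_sup H₀ _
        refine ⟨hRX hr, ?_⟩
        apply mem_normalizer_of_conj_mem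
        rintro x ⟨hx1, hx2⟩
        refine ⟨(S : Subgroup G).mul_mem ((S : Subgroup G).mul_mem (hRS hr) hx1)
          ((S : Subgroup G).inv_mem (hRS hr)), ?_⟩
        have := hC'n.conj_mem (⟨x, Subgroup.centralizer_le_normalizer _ hx2⟩ : ↥X)
          (Subgroup.mem_subgroupOf.mpr hx2) ⟨r, hRX hr⟩
        exact Subgroup.mem_subgroupOf.mp this
    exact le_sup_right.trans hK₁.le
  have hRC : (R' : Subgroup ↥X) ⊓ C' ≤ H' := by
    rintro y ⟨hy1, hy2⟩
    rw [hH', Subgroup.mem_subgroupOf]
    exact h2b ⟨hRS ((hmemR' y).mp hy1), Subgroup.mem_subgroupOf.mp hy2⟩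
  have hsol' : IsPSolvable p (↥X ⧸ C') := hsol H₀ hH₀p
  have hq' : q ∣ C'.index := hH₀q
  obtain ⟨c', ⟨k, hk⟩, hc'C, hcase⟩ :=
    exists_qelt_thmA hpq h23 R' H' hH'p C' hC'eq hRC hsol' hq'
  have hcX : (c' : G) ∈ X := c'.2
  have hcC : (c' : G) ∉ Subgroup.centralizer (H₀ : Set G) :=
    fun h => hc'C (Subgroup.mem_subgroupOf.mpr h)
  have hck : orderOf (c' : G) = q ^ k := by rw [← hk]; exact Subgroup.orderOf_coe c'
  -- the normalizer of `R` in `S` is larger than `R`
  have hPp : IsPGroup p ((S : Subgroup G) ⊓ Subgroup.normalizer (R : Set G) : Subgroup G) :=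
    hSp.to_le inf_le_left
  have hRP : R ≤ (S : Subgroup G) ⊓ Subgroup.normalizer (R : Set G) :=
    le_inf hRS Subgroup.le_normalizer
  have hlt : Nat.card R <
      Nat.card ((S : Subgroup G) ⊓ Subgroup.normalizer (R : Set G) : Subgroup G) := by
    by_contra hle
    have hPR : R = (S : Subgroup G) ⊓ Subgroup.normalizer (R : Set G) :=
      subgroup_eq_of_le_of_card_le hRP (not_lt.mp hle)
    have hnil : Group.IsNilpotent ↥(S : Subgroup G) := hSp.isNilpotent
    have hnc : NormalizerCondition ↥(S : Subgroup G) := Group.normalizerCondition_of_isNilpotent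
    have hne : R.subgroupOf (S : Subgroup G) < ⊤ := by
      rw [lt_top_iff_ne_top]
      intro h
      apply hSN
      have h1 : (S : Subgroup G) ≤ R := Subgroup.subgroupOf_eq_top.mp h
      exact h1.trans hRX
    obtain ⟨x, hxN, hxR⟩ := SetLike.exists_of_lt (hnc _ hne)
    apply hxR
    rw [Subgroup.mem_subgroupOf, hPR]
    refine ⟨x.2, ?_⟩
    have h2 := (mem_normalizer_map_iff (S : Subgroup G).subtype
      (S : Subgroup G).subtype_injective (R.subgroupOf (S : Subgroup G)) x).mpr hxN
    rw [Subgroup.map_subgroupOf_eq_of_le hRS] at h2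
    exact h2
  have hstar : ∀ P' K : Subgroup G, IsPGroup p P' → K ≤ P' →
      P' ≤ Subgroup.normalizer (K : Set G) → AutDvd q K →
      Nat.card ((S : Subgroup G) ⊓ Subgroup.normalizer (R : Set G) : Subgroup G) ≤
        Nat.card P' → False := by
    intro P' K h1 h2 h3 h4 h5
    have h6 : Nat.card P' ≤ Nat.card R := hP1 P' K h1 h2 h3 h4
    exact absurd (lt_of_lt_of_le hlt (h5.trans h6)) (lt_irrefl _)
  have hJmap : thompsonSubgroupOf p ((R' : Subgroup ↥X).map X.subtype) =
      (thompsonSubgroupOf p (R' : Subgroup ↥X)).map X.subtype :=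
    Cfsg.Agent.Lib.Helper26.thompsonOf_map X.subtype _ (fun u _ hu => Subtype.ext hu)
  rw [hR'map] at hJmap
  have hZmap : (omegaOne p ((R' : Subgroup ↥X) ⊓
      Subgroup.centralizer ((R' : Subgroup ↥X) : Set ↥X))).map X.subtype =
      omegaOne p (R ⊓ Subgroup.centralizer (R : Set G)) := by
    rw [omegaOne_map_injective X.subtype hinj, map_inf_centralizer_injective X.subtype hinj,
      hR'map]
  rcases hcase with hcZ' | ⟨hcN', hcJ'⟩
  · -- the centralizer case
    have hcZ : (c' : G) ∈ Subgroup.centralizer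
        ((omegaOne p (R ⊓ Subgroup.centralizer (R : Set G)) : Subgroup G) : Set G) := by
      rw [← hZmap]
      exact (mem_centralizer_map_iff X.subtype hinj _ c').mpr hcZ'
    have hR1 : R ≠ ⊥ := by
      intro hRb
      have hH₀b : H₀ = ⊥ := le_bot_iff.mp (hRb ▸ hH₀R)
      apply hcC
      rw [hH₀b, Subgroup.mem_centralizer_iff]
      intro h hh
      have hh1 : h = 1 := Subgroup.mem_bot.mp hh
      rw [hh1, one_mul, mul_one]
    have hZne : omegaOne p (R ⊓ Subgroup.centralizer (R : Set G)) ≠ ⊥ :=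
      omegaOne_ne_bot_of_isPGroup (hRp.to_le inf_le_left)
        (Cfsg.Agent.Lib.Helper26.zc_ne_bot hRp hR1)
    have hZR : omegaOne p (R ⊓ Subgroup.centralizer (R : Set G)) ≤ R :=
      (omegaOne_le _).trans inf_le_left
    have hNR : Subgroup.normalizer (R : Set G) ≤ Subgroup.normalizer
        ((omegaOne p (R ⊓ Subgroup.centralizer (R : Set G)) : Subgroup G) : Set G) :=
      (Cfsg.Agent.Lib.Helper26.normalizer_le_normalizer_zc R).trans
        (normalizer_le_normalizer_omegaOne _)
    have hZe : ∀ z ∈ omegaOne p (R ⊓ Subgroup.centralizer (R : Set G)), z ^ p = 1 :=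
      (ea_omegaZ (p := p) R).2
    have hZp : IsPGroup p ↥(omegaOne p (R ⊓ Subgroup.centralizer (R : Set G))) := hRp.to_le hZR
    by_cases hM : Subgroup.normalizer
        ((omegaOne p (R ⊓ Subgroup.centralizer (R : Set G)) : Subgroup G) : Set G) = ⊤
    · have hZn : (omegaOne p (R ⊓ Subgroup.centralizer (R : Set G))).Normal :=
        Subgroup.normalizer_eq_top_iff.mp hM
      exact aut_quot_case hpq IH hsol S _ hZp hZne (hZR.trans hRS) hZe H₀ hH₀p (c' : G) hcZ
        hcX hcC k hck
    · exfalso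
      obtain ⟨P', K, h1, h2, h3, h4, h5⟩ := aut_sub_case IH hsol _ hM H₀ hH₀p
        (hH₀R.trans (Subgroup.le_normalizer.trans hNR)) (c' : G)
        (Subgroup.centralizer_le_normalizer _ hcZ) hcX hcC k hck _ hPp (inf_le_right.trans hNR)
      exact hstar P' K h1 h2 h3 h4 h5
  · -- the normalizer case
    exfalso
    have hcN : (c' : G) ∈ Subgroup.normalizer ((thompsonSubgroupOf p R : Subgroup G) : Set G) := by
      rw [hJmap]; exact (mem_normalizer_map_iff X.subtype hinj _ c').mpr hcN'
    have hcJ : (c' : G) ∉ Subgroup.centralizer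
        ((thompsonSubgroupOf p R : Subgroup G) : Set G) := by
      rw [hJmap]; exact fun h => hcJ' ((mem_centralizer_map_iff X.subtype hinj _ c').mp h)
    have hJq : AutDvd q (thompsonSubgroupOf p R) := dvd_autIndex_of_elt _ hcN hcJ hck
    exact hstar _ (thompsonSubgroupOf p R) hPp ((thompsonOf_le R).trans hRP)
      (inf_le_right.trans (Cfsg.Agent.Lib.Helper26.normalizer_le_normalizer_thompsonOf R)) hJq
      le_rfl

end step

/-- the main theorem, by induction on the order. -/
theorem aut_main (p q : ℕ) [Fact p.Prime] [Fact q.Prime] (hpq : p ≠ q)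
    (h23 : ¬ ((p = 2 ∧ q = 3) ∨ (p = 3 ∧ q = 2))) :
    ∀ (n : ℕ) (G : Type u) [Group G] [Finite G], Nat.card G = n → AutConclusion p q G := by
  intro n
  induction n using Nat.strong_induction_on with
  | _ n ih =>
    intro G _ _ hn
    apply aut_step hpq h23
    intro G' _ _ hlt
    exact ih (Nat.card G') (hn ▸ hlt) G' rfl

end Cfsg.Agent.Lib.Helper14
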