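import Cfsg.Agent.Lib.Helper46.BSW0
import Cfsg.Agent.Lib.Helper4.CharExp2

/-!
# Brauer–Suzuki–Wall, piece E0B (helper14, for helper46's project S3282)

The subgroup `Q` in the case `δ = -1`: an abstract double count shows that the centralizer of an
element of the two "non-real" classes is abelian, self-centralizing, of index `k - 1` in its
normalizer.
-/

set_option autoImplicit false
set_option linter.unusedSectionVars false

namespace Cfsg.Agent.Lib.Helper14.BSWE0B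

/-- counting along a map with constant fibres. -/
theorem card_of_fibers {A B : Type*} [Finite A] [Finite B] (f : A → B) (m : ℕ)
    (hf : ∀ b, Nat.card {a // f a = b} = m) : Nat.card A = Nat.card B * m := by
  classical
  have : Fintype B := Fintype.ofFinite B
  rw [← Nat.card_congr (Equiv.sigmaFiberEquiv f), Nat.card_sigma]
  simp [hf, Nat.card_eq_fintype_card]

variable {G : Type*} [Group G]

theorem conj_inv_iff {a b : G} : IsConj a⁻¹ b⁻¹ ↔ IsConj a b := by
  simp only [isConj_iff]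
  constructor
  · rintro ⟨c, hc⟩
    refine ⟨c, ?_⟩
    have h1 := congrArg Inv.inv hc
    simpa [mul_assoc] using h1
  · rintro ⟨c, hc⟩
    refine ⟨c, ?_⟩
    rw [← hc]; group

theorem conj_inv_iff' {a b : G} : IsConj a⁻¹ b ↔ IsConj a b⁻¹ := by
  rw [← conj_inv_iff (a := a) (b := b⁻¹), inv_inv]

theorem mem_cent_iff {g x : G} :
    x ∈ Subgroup.centralizer ({g} : Set G) ↔ g * x = x * g := by
  rw [Subgroup.mem_centralizer_iff]
  constructor
  · intro h; exact h g rfl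
  · intro h y hy
    rw [Set.mem_singleton_iff] at hy
    rw [hy]; exact h

/-- the size of a conjugacy class. -/
theorem card_class [Finite G] (y : G) :
    Nat.card G =
      Nat.card {g : G // IsConj y g} * Nat.card (Subgroup.centralizer ({y} : Set G)) := by
  refine card_of_fibers (fun x : G => (⟨x * y * x⁻¹, isConj_iff.mpr ⟨x, rfl⟩⟩ :
    {g : G // IsConj y g})) _ ?_
  rintro ⟨g, hg⟩
  obtain ⟨c, hc⟩ := isConj_iff.mp hg
  have h1 : ∀ x : G, x * y * x⁻¹ = g → c⁻¹ * x ∈ Subgroup.centralizer ({y} : Set G) := by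
    intro x hx
    rw [mem_cent_iff]
    have h2 : x * y * x⁻¹ = c * y * c⁻¹ := by rw [hx, hc]
    calc y * (c⁻¹ * x) = c⁻¹ * (c * y * c⁻¹) * x := by group
      _ = c⁻¹ * (x * y * x⁻¹) * x := by rw [h2]
      _ = c⁻¹ * x * y := by group
  have h2 : ∀ a ∈ Subgroup.centralizer ({y} : Set G), (c * a) * y * (c * a)⁻¹ = g := by
    intro a ha
    rw [mem_cent_iff] at ha
    calc (c * a) * y * (c * a)⁻¹ = c * (a * y) * a⁻¹ * c⁻¹ := by group
      _ = c * (y * a) * a⁻¹ * c⁻¹ := by rw [ha]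
      _ = c * y * c⁻¹ := by group
      _ = g := hc
  refine Nat.card_congr
    { toFun := fun x => ⟨c⁻¹ * x.1, h1 x.1 (congrArg Subtype.val x.2)⟩
      invFun := fun a => ⟨c * a.1, Subtype.ext (h2 a.1 a.2)⟩
      left_inv := fun x => by apply Subtype.ext; simp
      right_inv := fun a => by apply Subtype.ext; simp }

section core

variable [Finite G] (E : G → Prop) (k : ℕ)
  (hEconj : ∀ z g, E z → E (g * z * g⁻¹)) (hEinv : ∀ z, E z → E z⁻¹)
  (hcent : ∀ z, E z → ∀ x ∈ Subgroup.centralizer ({z} : Set G), x ≠ 1 → E x)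
  (hcls : ∀ z z', E z → E z' → IsConj z z' ∨ IsConj z⁻¹ z')
  (hnr : ∀ z, E z → ¬ IsConj z z⁻¹)
  (hcard : ∀ z, E z → Nat.card (Subgroup.centralizer ({z} : Set G)) + 1 = 2 * k)

include hEconj in
theorem E_of_conj {y x : G} (hy : E y) (hx : IsConj y x) : E x := by
  obtain ⟨c, rfl⟩ := isConj_iff.mp hx
  exact hEconj y c hy

include hnr in
theorem E_ne_one {y : G} (hy : E y) : y ≠ 1 := by
  rintro rfl
  exact hnr 1 hy (by rw [inv_one])

include hEconj hEinv hcent hcls hnr hcard in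
/-- half of the nonidentity elements of `C(g)` lie in each of the two classes. -/
theorem half_count {y g : G} (hy : E y) (hg : E g) :
    Set.ncard {x : G | x ∈ Subgroup.centralizer ({g} : Set G) ∧ IsConj y x} + 1 = k ∧
    Set.ncard {x : G | x ∈ Subgroup.centralizer ({g} : Set G) ∧ IsConj y⁻¹ x} + 1 = k := by
  obtain ⟨A₁, hA₁⟩ : ∃ A₁ : Set G,
    A₁ = {x : G | x ∈ Subgroup.centralizer ({g} : Set G) ∧ IsConj y x} := ⟨_, rfl⟩
  obtain ⟨A₂, hA₂⟩ : ∃ A₂ : Set G,
    A₂ = {x : G | x ∈ Subgroup.centralizer ({g} : Set G) ∧ IsConj y⁻¹ x} := ⟨_, rfl⟩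
  rw [← hA₁, ← hA₂]
  have himg : A₂ = Inv.inv '' A₁ := by
    ext x
    rw [hA₁, hA₂]
    constructor
    · rintro ⟨hx1, hx2⟩
      exact ⟨x⁻¹, ⟨Subgroup.inv_mem _ hx1, conj_inv_iff'.mp hx2⟩, inv_inv x⟩
    · rintro ⟨x', ⟨hx1, hx2⟩, rfl⟩
      exact ⟨Subgroup.inv_mem _ hx1, conj_inv_iff.mpr hx2⟩
  have hcard12 : A₂.ncard = A₁.ncard := by
    rw [himg]
    exact Set.ncard_image_of_injective _ inv_injective
  have hunion : A₁ ∪ A₂ = ((Subgroup.centralizer ({g} : Set G) : Subgroup G) : Set G) \ {1} := by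
    ext x
    rw [hA₁, hA₂]
    constructor
    · rintro (⟨hx1, hx2⟩ | ⟨hx1, hx2⟩)
      · exact ⟨hx1, E_ne_one E hnr (E_of_conj E hEconj hy hx2)⟩
      · exact ⟨hx1, E_ne_one E hnr (E_of_conj E hEconj (hEinv y hy) hx2)⟩
    · rintro ⟨hx1, hx2⟩
      have hEx : E x := hcent g hg x hx1 hx2
      rcases hcls y x hy hEx with h | h
      · exact Or.inl ⟨hx1, h⟩
      · exact Or.inr ⟨hx1, h⟩
  have hdisj : Disjoint A₁ A₂ := by
    rw [Set.disjoint_left]
    intro x hx1 hx2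
    rw [hA₁] at hx1
    rw [hA₂] at hx2
    exact hnr y hy (hx1.2.trans hx2.2.symm)
  have h1 := Set.ncard_union_eq hdisj (Set.toFinite _) (Set.toFinite _)
  rw [hunion] at h1
  have h2 := Set.ncard_sdiff_singleton_add_one
    (Subgroup.one_mem (Subgroup.centralizer ({g} : Set G))) (Set.toFinite _)
  have h3 : ((Subgroup.centralizer ({g} : Set G) : Subgroup G) : Set G).ncard =
      Nat.card (Subgroup.centralizer ({g} : Set G)) := rfl
  have h4 := hcard g hg
  omega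

include hEconj hEinv hcent hcls hnr hcard in
/-- the double count: products in `E` of elements of the two classes come from commuting
pairs. -/
theorem comm_of_count {y : G} (hy : E y)
    (hcount : ∀ z z₃, E z → E z₃ →
      2 * Nat.card {p : G × G // IsConj z p.1 ∧ IsConj z⁻¹ p.2 ∧ p.1 * p.2 = z₃} + 2 = k) :
    ∀ g h : G, IsConj y g → IsConj y⁻¹ h → E (g * h) → g * h = h * g := by
  obtain ⟨n, hn⟩ : ∃ n : ℕ, n =
    Nat.card {p : G × G // IsConj y p.1 ∧ IsConj y⁻¹ p.2 ∧ p.1 * p.2 = y} := ⟨_, rfl⟩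
  have hkn : k = 2 * n + 2 := by
    have h1 := hcount y y hy hy
    omega
  have hfib : ∀ z₃, E z₃ →
      Nat.card {p : G × G // IsConj y p.1 ∧ IsConj y⁻¹ p.2 ∧ p.1 * p.2 = z₃} = n := by
    intro z₃ hz₃
    have h1 := hcount y z₃ hy hz₃
    omega
  obtain ⟨P, hP⟩ : ∃ P : Set (G × G),
    P = {p : G × G | IsConj y p.1 ∧ IsConj y⁻¹ p.2 ∧ E (p.1 * p.2)} := ⟨_, rfl⟩
  obtain ⟨Pc, hPc⟩ : ∃ Pc : Set (G × G),
    Pc = {p : G × G | IsConj y p.1 ∧ IsConj y⁻¹ p.2 ∧ p.1 * p.2 = p.2 * p.1 ∧ p.2 ≠ p.1⁻¹} :=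
      ⟨_, rfl⟩
  have hPiff : ∀ p : G × G, p ∈ P ↔ (IsConj y p.1 ∧ IsConj y⁻¹ p.2 ∧ E (p.1 * p.2)) := by
    intro p; rw [hP]; rfl
  have hPciff : ∀ p : G × G, p ∈ Pc ↔
      (IsConj y p.1 ∧ IsConj y⁻¹ p.2 ∧ p.1 * p.2 = p.2 * p.1 ∧ p.2 ≠ p.1⁻¹) := by
    intro p; rw [hPc]; rfl
  have hsub : Pc ⊆ P := by
    rintro ⟨g, h⟩ hp
    rw [hPciff] at hp
    rw [hPiff]
    obtain ⟨h1, h2, h3, h4⟩ := hp
    refine ⟨h1, h2, ?_⟩
    have hEg : E g := E_of_conj E hEconj hy h1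
    apply hcent g hEg
    · rw [mem_cent_iff]
      show g * (g * h) = g * h * g
      have h3' : g * h = h * g := h3
      rw [mul_assoc g h g, ← h3']
    · intro h5
      apply h4
      exact (eq_inv_of_mul_eq_one_right h5)
  -- the cardinality of `P`
  have hcardP : P.ncard = Nat.card {z : G // E z} * n := by
    rw [← Nat.card_coe_set_eq]
    have hmem : ∀ a : ↥P, E (a.1.1 * a.1.2) := fun a => ((hPiff a.1).mp a.2).2.2
    refine card_of_fibers (fun a : ↥P => (⟨a.1.1 * a.1.2, hmem a⟩ : {z : G // E z})) n ?_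
    rintro ⟨z, hz⟩
    rw [← hfib z hz]
    refine Nat.card_congr
      { toFun := fun a => ⟨a.1.1, ?_⟩
        invFun := fun p => ⟨⟨p.1, ?_⟩, ?_⟩
        left_inv := fun a => rfl
        right_inv := fun p => rfl }
    · have h1 := (hPiff a.1.1).mp a.1.2
      exact ⟨h1.1, h1.2.1, congrArg Subtype.val a.2⟩
    · rw [hPiff]
      exact ⟨p.2.1, p.2.2.1, by rw [p.2.2.2]; exact hz⟩
    · exact Subtype.ext p.2.2.2
  -- the cardinality of `Pc`
  have hcardPc : Pc.ncard = Nat.card {g : G // IsConj y g} * (2 * n) := by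
    rw [← Nat.card_coe_set_eq]
    have hmem : ∀ a : ↥Pc, IsConj y a.1.1 := fun a => ((hPciff a.1).mp a.2).1
    refine card_of_fibers (fun a : ↥Pc => (⟨a.1.1, hmem a⟩ : {g : G // IsConj y g})) (2 * n) ?_
    rintro ⟨g, hg⟩
    have hEg : E g := E_of_conj E hEconj hy hg
    have hA := (half_count E k hEconj hEinv hcent hcls hnr hcard hy hEg).2
    have hginv : g⁻¹ ∈ {x : G | x ∈ Subgroup.centralizer ({g} : Set G) ∧ IsConj y⁻¹ x} :=
      ⟨Subgroup.inv_mem _ (mem_cent_iff.mpr rfl), conj_inv_iff.mpr hg⟩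
    have h2 := Set.ncard_sdiff_singleton_add_one hginv (Set.toFinite _)
    have h3 : Nat.card ↥({x : G | x ∈ Subgroup.centralizer ({g} : Set G) ∧ IsConj y⁻¹ x} \
        {g⁻¹} : Set G) = 2 * n := by
      rw [Nat.card_coe_set_eq]
      omega
    rw [← h3]
    refine Nat.card_congr
      { toFun := fun a => ⟨a.1.1.2, ?_⟩
        invFun := fun x => ⟨⟨(g, x.1), ?_⟩, rfl⟩
        left_inv := ?_
        right_inv := fun x => rfl }
    · have h1 := (hPciff a.1.1).mp a.1.2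
      have h4 : a.1.1.1 = g := congrArg Subtype.val a.2
      rw [h4] at h1
      exact ⟨⟨mem_cent_iff.mpr h1.2.2.1, h1.2.1⟩, h1.2.2.2⟩
    · rw [hPciff]
      exact ⟨hg, x.2.1.2, mem_cent_iff.mp x.2.1.1, x.2.2⟩
    · rintro ⟨⟨⟨g', x⟩, hp⟩, ha⟩
      have h4 : g' = g := congrArg Subtype.val ha
      subst h4
      rfl
  -- `E` is the union of the two classes
  have hcardE : Nat.card {z : G // E z} = 2 * Nat.card {g : G // IsConj y g} := by
    have h1 : {z : G | E z} = {g : G | IsConj y g} ∪ Inv.inv '' {g : G | IsConj y g} := by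
      ext x
      constructor
      · intro hx
        rcases hcls y x hy hx with h | h
        · exact Or.inl h
        · exact Or.inr ⟨x⁻¹, conj_inv_iff'.mp h, inv_inv x⟩
      · rintro (h | ⟨x', h, rfl⟩)
        · exact E_of_conj E hEconj hy h
        · exact hEinv x' (E_of_conj E hEconj hy h)
    have hdisj : Disjoint {g : G | IsConj y g} (Inv.inv '' {g : G | IsConj y g}) := by
      rw [Set.disjoint_left]
      rintro x hx1 ⟨x', hx2, rfl⟩
      have h3 : IsConj y x' := hx2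
      have h4 : IsConj y x'⁻¹ := hx1
      exact hnr y hy (h4.trans (conj_inv_iff.mpr h3.symm))
    have h2 := Set.ncard_union_eq hdisj (Set.toFinite _) (Set.toFinite _)
    rw [← h1, Set.ncard_image_of_injective _ inv_injective] at h2
    have h5 : Nat.card {z : G // E z} = {z : G | E z}.ncard := rfl
    have h6 : Nat.card {g : G // IsConj y g} = {g : G | IsConj y g}.ncard := rfl
    omega
  have heq : Pc = P := by
    apply Set.eq_of_subset_of_ncard_le hsub _ (Set.toFinite _)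
    rw [hcardP, hcardPc, hcardE]
    exact le_of_eq (by ring)
  intro g h hg hh hE
  have hmem : (g, h) ∈ P := (hPiff _).mpr ⟨hg, hh, hE⟩
  rw [← heq, hPciff] at hmem
  exact hmem.2.2.1

include hEconj hEinv hcent hcls hnr hcard in
theorem e0b_core (hEne : ∃ y, E y)
    (hcount : ∀ z z₃, E z → E z₃ →
      2 * Nat.card {p : G × G // IsConj z p.1 ∧ IsConj z⁻¹ p.2 ∧ p.1 * p.2 = z₃} + 2 = k) :
    ∃ Q : Subgroup G, (∀ a ∈ Q, ∀ b ∈ Q, a * b = b * a) ∧ Nat.card Q + 1 = 2 * k ∧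
      (∀ x ∈ Q, x ≠ 1 → Subgroup.centralizer ({x} : Set G) = Q) ∧ (∀ x ∈ Q, x ≠ 1 → E x) ∧
      Nat.card (Subgroup.normalizer (Q : Set G)) + Nat.card Q = Nat.card Q * k := by
  obtain ⟨y, hy⟩ := hEne
  have hstar := comm_of_count E k hEconj hEinv hcent hcls hnr hcard hy hcount
  obtain ⟨Q, hQ⟩ : ∃ Q : Subgroup G, Q = Subgroup.centralizer ({y} : Set G) := ⟨_, rfl⟩
  have hyQ : y ∈ Q := by rw [hQ]; exact mem_cent_iff.mpr rfl
  have hQE : ∀ x ∈ Q, x ≠ 1 → E x := fun x hx hx1 => hcent y hy x (hQ ▸ hx) hx1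
  -- commuting of an element of the class with one of the inverse class
  have hhelp : ∀ a ∈ Q, ∀ b ∈ Q, IsConj y a → IsConj y⁻¹ b → a * b = b * a := by
    intro a ha b hb hca hcb
    by_cases h1 : a * b = 1
    · have h2 : b = a⁻¹ := eq_inv_of_mul_eq_one_right h1
      rw [h2, mul_inv_cancel, inv_mul_cancel]
    · exact hstar a b hca hcb (hQE _ (Q.mul_mem ha hb) h1)
  have hab : ∀ a ∈ Q, ∀ b ∈ Q, a * b = b * a := by
    intro a ha b hb
    by_cases ha1 : a = 1
    · rw [ha1, one_mul, mul_one]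
    by_cases hb1 : b = 1
    · rw [hb1, one_mul, mul_one]
    have hEa := hQE a ha ha1
    have hEb := hQE b hb hb1
    rcases hcls y a hy hEa with hca | hca <;> rcases hcls y b hy hEb with hcb | hcb
    · have h1 := hhelp a ha b⁻¹ (Q.inv_mem hb) hca (conj_inv_iff.mpr hcb)
      calc a * b = b * (b⁻¹ * a) * b := by group
        _ = b * (a * b⁻¹) * b := by rw [h1]
        _ = b * a := by group
    · exact hhelp a ha b hb hca hcb
    · exact (hhelp b hb a ha hcb hca).symm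
    · have h1 := hhelp a⁻¹ (Q.inv_mem ha) b hb (conj_inv_iff'.mp hca) hcb
      calc a * b = a * (b * a⁻¹) * a := by group
        _ = a * (a⁻¹ * b) * a := by rw [h1]
        _ = b * a := by group
  have hcardQ : Nat.card Q + 1 = 2 * k := by rw [hQ]; exact hcard y hy
  have hcentQ : ∀ x ∈ Q, x ≠ 1 → Subgroup.centralizer ({x} : Set G) = Q := by
    intro x hx hx1
    symm
    apply Subgroup.eq_of_le_of_card_ge
    · intro b hb
      rw [mem_cent_iff]
      exact hab x hx b hb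
    · have h1 := hcard x (hQE x hx hx1)
      omega
  refine ⟨Q, hab, hcardQ, hcentQ, hQE, ?_⟩
  -- the normalizer
  have hy1 : y ≠ 1 := E_ne_one E hnr hy
  have hnorm : ∀ c : G, c * y * c⁻¹ ∈ Q → c ∈ Subgroup.normalizer (Q : Set G) := by
    intro c hc
    have hc1 : c * y * c⁻¹ ≠ 1 := by
      intro h1
      apply hy1
      have h2 : y = c⁻¹ * (c * y * c⁻¹) * c := by group
      rw [h2, h1]; group
    have h3 := hcentQ _ hc hc1
    rw [Subgroup.mem_normalizer_iff]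
    intro x
    constructor
    · intro hx
      rw [← h3, mem_cent_iff]
      have h4 : y * x = x * y := mem_cent_iff.mp (hQ ▸ hx)
      calc c * y * c⁻¹ * (c * x * c⁻¹) = c * (y * x) * c⁻¹ := by group
        _ = c * (x * y) * c⁻¹ := by rw [h4]
        _ = c * x * c⁻¹ * (c * y * c⁻¹) := by group
    · intro hx
      rw [← h3, mem_cent_iff] at hx
      rw [hQ, mem_cent_iff]
      calc y * x = c⁻¹ * (c * y * c⁻¹ * (c * x * c⁻¹)) * c := by group
        _ = c⁻¹ * (c * x * c⁻¹ * (c * y * c⁻¹)) * c := by rw [hx]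
        _ = x * y := by group
  have hQN : Q ≤ Subgroup.normalizer (Q : Set G) := Subgroup.le_normalizer
  have hA := (half_count E k hEconj hEinv hcent hcls hnr hcard hy hy).1
  have hcardN : Nat.card (Subgroup.normalizer (Q : Set G)) =
      Nat.card ↥({x : G | x ∈ Subgroup.centralizer ({y} : Set G) ∧ IsConj y x} : Set G) *
        Nat.card Q := by
    have hmem : ∀ c : ↥(Subgroup.normalizer (Q : Set G)),
        (c : G) * y * (c : G)⁻¹ ∈
          ({x : G | x ∈ Subgroup.centralizer ({y} : Set G) ∧ IsConj y x} : Set G) := by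
      intro c
      refine ⟨?_, isConj_iff.mpr ⟨c, rfl⟩⟩
      rw [← hQ]
      exact (Subgroup.mem_normalizer_iff.mp c.2 y).mp hyQ
    refine card_of_fibers (fun c : ↥(Subgroup.normalizer (Q : Set G)) =>
      (⟨(c : G) * y * (c : G)⁻¹, hmem c⟩ :
        ↥({x : G | x ∈ Subgroup.centralizer ({y} : Set G) ∧ IsConj y x} : Set G))) _ ?_
    rintro ⟨x, hx1, hx2⟩
    obtain ⟨c, hc⟩ := isConj_iff.mp hx2
    have hcN : c ∈ Subgroup.normalizer (Q : Set G) := by
      apply hnorm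
      rw [hc, hQ]; exact hx1
    have h1 : ∀ d : G, d * y * d⁻¹ = x → c⁻¹ * d ∈ Q := by
      intro d hd
      rw [hQ, mem_cent_iff]
      have h2 : d * y * d⁻¹ = c * y * c⁻¹ := by rw [hd, hc]
      calc y * (c⁻¹ * d) = c⁻¹ * (c * y * c⁻¹) * d := by group
        _ = c⁻¹ * (d * y * d⁻¹) * d := by rw [h2]
        _ = c⁻¹ * d * y := by group
    have h2 : ∀ a ∈ Q, (c * a) * y * (c * a)⁻¹ = x := by
      intro a ha
      rw [hQ, mem_cent_iff] at ha
      calc (c * a) * y * (c * a)⁻¹ = c * (a * y) * a⁻¹ * c⁻¹ := by group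
        _ = c * (y * a) * a⁻¹ * c⁻¹ := by rw [ha]
        _ = c * y * c⁻¹ := by group
        _ = x := hc
    refine Nat.card_congr
      { toFun := fun d => ⟨c⁻¹ * d.1.1, h1 d.1.1 (congrArg Subtype.val d.2)⟩
        invFun := fun a => ⟨⟨c * a.1, Subgroup.mul_mem _ hcN (hQN a.2)⟩, Subtype.ext (h2 a.1 a.2)⟩
        left_inv := fun d => by apply Subtype.ext; apply Subtype.ext; simp
        right_inv := fun a => by apply Subtype.ext; simp }
  rw [hcardN, Nat.card_coe_set_eq]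
  obtain ⟨m, hm⟩ : ∃ m : ℕ, m =
    Set.ncard {x : G | x ∈ Subgroup.centralizer ({y} : Set G) ∧ IsConj y x} := ⟨_, rfl⟩
  rw [← hm] at hA ⊢
  have hk' : k = m + 1 := hA.symm
  rw [hk']
  ring

end core

end Cfsg.Agent.Lib.Helper14.BSWE0B

namespace Cfsg.Agent.Lib.Helper46.BSW

open Cfsg Cfsg.Agent.Lib.Helper4
open scoped ComplexConjugate

universe u

variable {G : Type u} [Group G]

/-! ### Piece E0B : the subgroup `Q` (case `δ = -1`) -/
theorem qdata_exists [Finite G] {t s : G} {K : Subgroup G} (h : Setup t s K)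
    (hk : 4 ≤ Nat.card K) (Δ : IrrCharacter G) (hS : Stage1 K (-1) Δ)
    (hcard : ∀ y, Off K y → (Δ : G → ℂ) y = 0 →
      Nat.card (Subgroup.centralizer ({y} : Set G)) + 1 = 2 * Nat.card K)
    (hnr : ∀ y, Off K y → (Δ : G → ℂ) y = 0 → ¬ IsConj y y⁻¹)
    (hcent : ∀ y, Off K y → (Δ : G → ℂ) y = 0 →
      ∀ x ∈ Subgroup.centralizer ({y} : Set G), x ≠ 1 → Off K x ∧ (Δ : G → ℂ) x = 0)
    (hcls : ∀ y y', Off K y → (Δ : G → ℂ) y = 0 → Off K y' → (Δ : G → ℂ) y' = 0 →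
      IsConj y y' ∨ IsConj y⁻¹ y')
    (hcount : ∀ y y₃ : G, Off K y → (Δ : G → ℂ) y = 0 → Off K y₃ → (Δ : G → ℂ) y₃ = 0 →
      2 * Nat.card {p : G × G // IsConj y p.1 ∧ IsConj y⁻¹ p.2 ∧ p.1 * p.2 = y₃} + 2
        = Nat.card K) :
    ∃ Q : Subgroup G, QData K Δ Q := by
  have hEconj : ∀ z g : G, (Off K z ∧ (Δ : G → ℂ) z = 0) →
      (Off K (g * z * g⁻¹) ∧ (Δ : G → ℂ) (g * z * g⁻¹) = 0) := by
    rintro z g ⟨hz1, hz2⟩
    refine ⟨fun y hy => hz1 (y * g) ?_, ?_⟩
    · have h1 : y * g * z * (y * g)⁻¹ = y * (g * z * g⁻¹) * y⁻¹ := by group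
      rw [h1]; exact hy
    · rw [isClassFunction_irr Δ z g]; exact hz2
  have hEinv : ∀ z : G, (Off K z ∧ (Δ : G → ℂ) z = 0) →
      (Off K z⁻¹ ∧ (Δ : G → ℂ) z⁻¹ = 0) := by
    rintro z ⟨hz1, hz2⟩
    refine ⟨fun y hy => hz1 y ?_, ?_⟩
    · have h1 : y * z * y⁻¹ = (y * z⁻¹ * y⁻¹)⁻¹ := by group
      rw [h1]; exact K.inv_mem hy
    · rw [irr_inv, hz2, map_zero]
  have hEne : ∃ y : G, Off K y ∧ (Δ : G → ℂ) y = 0 := by
    have h1 := hS.card_E0
    have h2 : 0 < Nat.card {z : G // Off K z ∧ (Δ : G → ℂ) z = 0} := by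
      have h3 : (4 : ℤ) ≤ (Nat.card K : ℤ) := by exact_mod_cast hk
      have h4 : (0 : ℤ) < (2 * (Nat.card K : ℤ) + -1) ^ 2 - 1 := by nlinarith
      rw [← h1] at h4
      exact_mod_cast h4
    obtain ⟨⟨y, hy⟩⟩ := (Nat.card_pos_iff.mp h2).1
    exact ⟨y, hy⟩
  obtain ⟨Q, hab, hc, hcentQ, hQE, hN⟩ := Cfsg.Agent.Lib.Helper14.BSWE0B.e0b_core
    (fun z : G => Off K z ∧ (Δ : G → ℂ) z = 0) (Nat.card K) hEconj hEinv
    (fun z hz x hx hx1 => hcent z hz.1 hz.2 x hx hx1)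
    (fun z z' hz hz' => hcls z z' hz.1 hz.2 hz'.1 hz'.2)
    (fun z hz => hnr z hz.1 hz.2) (fun z hz => hcard z hz.1 hz.2) hEne
    (fun z z₃ hz hz₃ => hcount z z₃ hz.1 hz.2 hz₃.1 hz₃.2)
  exact ⟨Q, ⟨hab, hc, hcentQ, fun x hx hx1 => (hQE x hx hx1).1,
    fun x hx hx1 => (hQE x hx hx1).2, hN⟩⟩

end Cfsg.Agent.Lib.Helper46.BSW
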