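import Mathlib
import Cfsg.Agent.S3734
import Cfsg.Agent.Lib.Helper14.Coprime
import Cfsg.Agent.Lib.Helper14.FF3

set_option autoImplicit false
set_option linter.unusedSectionVars false

universe u

namespace Cfsg.Agent.Lib.Helper14

open Cfsg

section autfix

variable {P : Type u} [Group P]

/-- the fixed points of a group of automorphisms. -/
def fixOf (B : Subgroup (MulAut P)) : Subgroup P where
  carrier := {x | ∀ T ∈ B, T x = x}
  mul_mem' := by
    intro a b ha hb T hT
    rw [map_mul, ha T hT, hb T hT]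
  one_mem' := by
    intro T _
    exact map_one T
  inv_mem' := by
    intro a ha T hT
    rw [map_inv, ha T hT]

theorem mem_fixOf {B : Subgroup (MulAut P)} {x : P} : x ∈ fixOf B ↔ ∀ T ∈ B, T x = x := Iff.rfl

/-- the fixed points of one automorphism. -/
def fixAut (T : MulAut P) : Subgroup P where
  carrier := {x | T x = x}
  mul_mem' := by
    intro a b ha hb
    show T (a * b) = a * b
    rw [map_mul, ha, hb]
  one_mem' := map_one T
  inv_mem' := by
    intro a ha
    show T a⁻¹ = a⁻¹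
    rw [map_inv, ha]

theorem mem_fixAut {T : MulAut P} {x : P} : x ∈ fixAut T ↔ T x = x := Iff.rfl

/-- the fixed points of a cyclic group of automorphisms are cyclic. -/
def CycFix (T : MulAut P) : Prop := ∃ g : P, ∀ x : P, (T x = x ↔ x ∈ Subgroup.zpowers g)

theorem map_zpowers_of_fix (T : MulAut P) {h x : P} (hT : T h = h)
    (hx : x ∈ Subgroup.zpowers h) : T x = x := by
  obtain ⟨k, rfl⟩ := Subgroup.mem_zpowers_iff.mp hx
  rw [map_zpow, hT]

theorem map_zpowers_of_inv (T : MulAut P) {h x : P} (hT : T h = h⁻¹)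
    (hx : x ∈ Subgroup.zpowers h) : T x = x⁻¹ := by
  obtain ⟨k, rfl⟩ := Subgroup.mem_zpowers_iff.mp hx
  rw [map_zpow, hT, inv_zpow]

theorem mem_zpowers_invol {G : Type*} [Group G] {d z : G} (hd : d * d = 1)
    (hz : z ∈ Subgroup.zpowers d) : z = 1 ∨ z = d := by
  obtain ⟨k, rfl⟩ := Subgroup.mem_zpowers_iff.mp hz
  have h2 : d ^ (2 : ℤ) = 1 := by rw [zpow_two]; exact hd
  rcases Int.even_or_odd' k with ⟨m, rfl | rfl⟩
  · left
    rw [zpow_mul, h2, one_zpow]
  · right
    rw [zpow_add, zpow_mul, h2, one_zpow, one_mul, zpow_one]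

theorem eq_one_of_eq_inv {p : ℕ} (hp : p.Prime) (hp2 : p ≠ 2) (hP : IsPGroup p P) {x : P}
    (h : x = x⁻¹) : x = 1 := by
  have h2 : x ^ 2 = 1 := by
    rw [pow_two]
    nth_rewrite 2 [h]
    exact mul_inv_cancel x
  obtain ⟨k, hk⟩ := hP x
  have d1 : orderOf x ∣ 2 := orderOf_dvd_of_pow_eq_one h2
  have d2 : orderOf x ∣ p ^ k := orderOf_dvd_of_pow_eq_one hk
  have hcop : Nat.Coprime 2 (p ^ k) :=
    Nat.Coprime.pow_right k ((Nat.coprime_primes Nat.prime_two hp).mpr (Ne.symm hp2))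
  have d3 : orderOf x ∣ 1 := by
    have := Nat.dvd_gcd d1 d2
    rwa [hcop] at this
  exact orderOf_eq_one_iff.mp (Nat.dvd_one.mp d3)

/-- an involutory automorphism stabilizing a cyclic `p`-subgroup (`p` odd) fixes or inverts its
generator. -/
theorem map_gen_eq_or_inv {p : ℕ} (hp : p.Prime) (hp2 : p ≠ 2) (hP : IsPGroup p P)
    (T : MulAut P) (h : P) (hT : T (T h) = h) (hh : T h ∈ Subgroup.zpowers h) :
    T h = h ∨ T h = h⁻¹ := by
  obtain ⟨k, hk⟩ := Subgroup.mem_zpowers_iff.mp hh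
  have h2 : h ^ (k * k) = h := by
    rw [zpow_mul, hk, ← map_zpow, hk]; exact hT
  have h3 : h ^ (k * k - 1) = 1 := by rw [zpow_sub, h2, zpow_one, mul_inv_cancel]
  have h4 : (orderOf h : ℤ) ∣ k * k - 1 := orderOf_dvd_iff_zpow_eq_one.mpr h3
  obtain ⟨m, hm⟩ := hP h
  obtain ⟨j, -, hj⟩ := (Nat.dvd_prime_pow hp).mp (orderOf_dvd_of_pow_eq_one hm)
  have h5 : ((p : ℤ)) ^ j ∣ (k - 1) * (k + 1) := by
    have e : k * k - 1 = (k - 1) * (k + 1) := by ring
    rw [← e]
    have : ((p : ℤ)) ^ j = ((orderOf h : ℕ) : ℤ) := by rw [hj, Nat.cast_pow]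
    rw [this]; exact h4
  have hpp : Prime (p : ℤ) := Nat.prime_iff_prime_int.mp hp
  by_cases hd : (p : ℤ) ∣ k - 1
  · have hnd : ¬ (p : ℤ) ∣ k + 1 := by
      intro hd'
      have h6 : (p : ℤ) ∣ 2 := by
        have := dvd_sub hd' hd
        have e : k + 1 - (k - 1) = 2 := by ring
        rwa [e] at this
      have h7 : p ∣ 2 := by exact_mod_cast h6
      exact hp2 ((Nat.prime_dvd_prime_iff_eq hp Nat.prime_two).mp h7)
    have h8 : (p : ℤ) ^ j ∣ k - 1 := hpp.pow_dvd_of_dvd_mul_right j hnd h5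
    left
    have h9 : h ^ (k - 1) = 1 := by
      apply orderOf_dvd_iff_zpow_eq_one.mp
      rw [hj, Nat.cast_pow]; exact h8
    rw [← hk]
    have e : k = (k - 1) + 1 := by ring
    rw [e, zpow_add, h9, one_mul, zpow_one]
  · have h8 : (p : ℤ) ^ j ∣ k + 1 := hpp.pow_dvd_of_dvd_mul_left j hd h5
    right
    have h9 : h ^ (k + 1) = 1 := by
      apply orderOf_dvd_iff_zpow_eq_one.mp
      rw [hj, Nat.cast_pow]; exact h8
    rw [← hk]
    apply eq_inv_of_mul_eq_one_left
    rw [← zpow_add_one]; exact h9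

/-- a fixed-point-free involutory automorphism inverts. -/
theorem inv_of_fixed_point_free [Finite P] (D : Subgroup P) (s : MulAut P)
    (hs : ∀ x ∈ D, s (s x) = x) (hinv : ∀ x ∈ D, s x ∈ D) (hfix : ∀ x ∈ D, s x = x → x = 1) :
    ∀ x ∈ D, s x = x⁻¹ := by
  let f : ↥D → ↥D := fun x => ⟨(x : P)⁻¹ * s x, D.mul_mem (D.inv_mem x.2) (hinv x x.2)⟩
  have hf : Function.Injective f := by
    intro x y hxy
    have h1 : (x : P)⁻¹ * s x = (y : P)⁻¹ * s y := congrArg Subtype.val hxy
    have h2 : s ((y : P) * (x : P)⁻¹) = (y : P) * (x : P)⁻¹ := by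
      rw [map_mul, map_inv]
      have e : s (y : P) = (y : P) * (x : P)⁻¹ * s (x : P) := by
        rw [mul_assoc, h1]; group
      rw [e]; group
    have h3 := hfix _ (D.mul_mem y.2 (D.inv_mem x.2)) h2
    apply Subtype.ext
    exact (mul_inv_eq_one.mp h3).symm
  have hsurj : Function.Surjective f := Finite.surjective_of_injective hf
  intro d hd
  obtain ⟨x, hx⟩ := hsurj ⟨d, hd⟩
  have h1 : (x : P)⁻¹ * s x = d := congrArg Subtype.val hx
  rw [← h1, map_mul, map_inv, hs x x.2]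
  group

theorem comm_of_fixed_point_free [Finite P] (D : Subgroup P) (s : MulAut P)
    (hs : ∀ x ∈ D, s (s x) = x) (hinv : ∀ x ∈ D, s x ∈ D) (hfix : ∀ x ∈ D, s x = x → x = 1) :
    ∀ x ∈ D, ∀ y ∈ D, x * y = y * x := by
  have h := inv_of_fixed_point_free D s hs hinv hfix
  intro x hx y hy
  have h1 := h (x * y) (D.mul_mem hx hy)
  rw [map_mul, h x hx, h y hy] at h1
  have h2 : (x⁻¹ * y⁻¹)⁻¹ = ((x * y)⁻¹)⁻¹ := congrArg _ h1
  rw [mul_inv_rev, inv_inv, inv_inv, inv_inv] at h2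
  exact h2.symm

/-- generation by fixed points of subgroups with cyclic quotient, for a commutative group of
automorphisms of coprime order. -/
theorem coprime_gen [Finite P] (A₀ : Subgroup (MulAut P))
    (hA : ∀ x ∈ A₀, ∀ y ∈ A₀, x * y = y * x) (D : Subgroup P)
    (hD : ∀ T ∈ A₀, ∀ x ∈ D, T x ∈ D) (hcop : (Nat.card A₀).Coprime (Nat.card D)) :
    D ≤ ⨆ B ∈ {B : Subgroup (MulAut P) | B ≤ A₀ ∧ ∃ a ∈ A₀, B ⊔ Subgroup.zpowers a = A₀},
      D ⊓ fixOf B := by
  have hfinX : Finite (P ⋊[MonoidHom.id (MulAut P)] MulAut P) :=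
    Finite.of_equiv (P × MulAut P) SemidirectProduct.equivProd.symm
  have hil : Function.Injective
      (SemidirectProduct.inl : P →* P ⋊[MonoidHom.id (MulAut P)] MulAut P) :=
    SemidirectProduct.inl_injective
  have hir : Function.Injective
      (SemidirectProduct.inr : MulAut P →* P ⋊[MonoidHom.id (MulAut P)] MulAut P) :=
    SemidirectProduct.inr_injective
  have hconj : ∀ (T : MulAut P) (x : P),
      (SemidirectProduct.inr T : P ⋊[MonoidHom.id (MulAut P)] MulAut P) *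
        SemidirectProduct.inl x * (SemidirectProduct.inr T)⁻¹ = SemidirectProduct.inl (T x) := by
    intro T x
    rw [← map_inv]
    exact (SemidirectProduct.inl_aut (φ := MonoidHom.id (MulAut P)) T x).symm
  have hAab : IsMulCommutative ↥(A₀.map
      (SemidirectProduct.inr : MulAut P →* P ⋊[MonoidHom.id (MulAut P)] MulAut P)) := by
    refine IsMulCommutative.of_comm ?_
    rintro ⟨_, a, ha, rfl⟩ ⟨_, b, hb, rfl⟩
    apply Subtype.ext
    show SemidirectProduct.inr a * SemidirectProduct.inr b =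
      SemidirectProduct.inr b * SemidirectProduct.inr a
    rw [← map_mul, ← map_mul, hA a ha b hb]
  have hAG : A₀.map
      (SemidirectProduct.inr : MulAut P →* P ⋊[MonoidHom.id (MulAut P)] MulAut P) ≤
      Subgroup.normalizer ((D.map
        (SemidirectProduct.inl : P →* P ⋊[MonoidHom.id (MulAut P)] MulAut P) :
          Subgroup (P ⋊[MonoidHom.id (MulAut P)] MulAut P)) : Set _) := by
    rintro _ ⟨T, hT, rfl⟩
    apply mem_normalizer_of_conj_mem
    rintro _ ⟨x, hx, rfl⟩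
    rw [hconj]
    exact ⟨T x, hD T hT x hx, rfl⟩
  have hcop' : (Nat.card ↥(A₀.map
      (SemidirectProduct.inr : MulAut P →* P ⋊[MonoidHom.id (MulAut P)] MulAut P))).Coprime
      (Nat.card ↥(D.map
        (SemidirectProduct.inl : P →* P ⋊[MonoidHom.id (MulAut P)] MulAut P))) := by
    rw [Subgroup.card_map_of_injective hir, Subgroup.card_map_of_injective hil]; exact hcop
  have key := (Cfsg.Agent.S3734.result _ _ hAab hAG hcop').1
  apply (Subgroup.map_le_map_iff_of_injective hil).mp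
  refine key.symm.le.trans ?_
  apply iSup₂_le
  rintro B' ⟨hB'A, a', ha', hB'a⟩
  obtain ⟨a, ha, rfl⟩ := ha'
  have hB'range : B' ≤ (SemidirectProduct.inr :
      MulAut P →* P ⋊[MonoidHom.id (MulAut P)] MulAut P).range :=
    hB'A.trans (Subgroup.map_le_range _ A₀)
  have hBmap : (B'.comap (SemidirectProduct.inr :
      MulAut P →* P ⋊[MonoidHom.id (MulAut P)] MulAut P)).map SemidirectProduct.inr = B' := by
    rw [Subgroup.map_comap_eq, inf_eq_right.mpr hB'range]
  have hBA : B'.comap (SemidirectProduct.inr :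
      MulAut P →* P ⋊[MonoidHom.id (MulAut P)] MulAut P) ≤ A₀ := by
    intro x hx
    have : SemidirectProduct.inr x ∈ A₀.map (SemidirectProduct.inr :
      MulAut P →* P ⋊[MonoidHom.id (MulAut P)] MulAut P) := hB'A hx
    exact (Subgroup.mem_map_iff_mem hir).mp this
  have hBsup : B'.comap (SemidirectProduct.inr :
      MulAut P →* P ⋊[MonoidHom.id (MulAut P)] MulAut P) ⊔ Subgroup.zpowers a = A₀ := by
    apply Subgroup.map_injective hir
    rw [Subgroup.map_sup, hBmap, MonoidHom.map_zpowers]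
    exact hB'a
  have hle : D.map (SemidirectProduct.inl : P →* P ⋊[MonoidHom.id (MulAut P)] MulAut P) ⊓
      Subgroup.centralizer (B' : Set (P ⋊[MonoidHom.id (MulAut P)] MulAut P)) ≤
      (D ⊓ fixOf (B'.comap (SemidirectProduct.inr :
        MulAut P →* P ⋊[MonoidHom.id (MulAut P)] MulAut P))).map SemidirectProduct.inl := by
    rintro _ ⟨⟨x, hx, rfl⟩, hc⟩
    refine ⟨x, ⟨hx, ?_⟩, rfl⟩
    intro T hT
    have h1 := Subgroup.mem_centralizer_iff.mp hc (SemidirectProduct.inr T) hT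
    apply hil
    rw [← hconj, h1]; group
  refine hle.trans ?_
  apply Subgroup.map_mono
  exact le_iSup₂ (f := fun (B : Subgroup (MulAut P))
    (_ : B ∈ {B : Subgroup (MulAut P) | B ≤ A₀ ∧ ∃ a ∈ A₀, B ⊔ Subgroup.zpowers a = A₀}) =>
      D ⊓ fixOf B) _ ⟨hBA, a, ha, hBsup⟩

/-- two automorphisms agreeing on three generators are equal. -/
theorem aut_ext_of_gens {ga gb gc : P} (hgen : Subgroup.closure {ga, gb, gc} = (⊤ : Subgroup P))
    (S S' : MulAut P) (h1 : S ga = S' ga) (h2 : S gb = S' gb) (h3 : S gc = S' gc) : S = S' := by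
  apply MulEquiv.ext
  intro y
  have hy : y ∈ Subgroup.closure {ga, gb, gc} := by rw [hgen]; exact Subgroup.mem_top y
  have heq : Set.EqOn (S.toMonoidHom) (S'.toMonoidHom) {ga, gb, gc} := by
    intro x hx
    rcases hx with rfl | rfl | rfl
    · exact h1
    · exact h2
    · exact h3
  exact MonoidHom.eqOn_closure heq hy

end autfix

/-- a commutative `p`-group containing `p ^ 3` elements of order dividing `p` is not generated
by two elements. -/
theorem not_two_gen_comm {Q : Type*} [CommGroup Q] [Finite Q] {p : ℕ} (hp : p.Prime)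
    (W : Subgroup Q) (hW : ∀ w ∈ W, w ^ p = 1) (hWc : p ^ 3 ≤ Nat.card W) (u v : Q) :
    Subgroup.closure {u, v} ≠ (⊤ : Subgroup Q) := by
  intro hgen
  have hp0 : 0 < p := hp.pos
  have hWker : W ≤ (powMonoidHom p : Q →* Q).ker := by
    intro w hw
    rw [MonoidHom.mem_ker]
    exact hW w hw
  have hk : Nat.card ↥(powMonoidHom p : Q →* Q).ker * Nat.card ↥(powMonoidHom p : Q →* Q).range =
      Nat.card Q := by
    rw [← Subgroup.index_ker]; exact Subgroup.card_mul_index _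
  have hsurj : Function.Surjective (fun t : Fin p × Fin p × ↥(powMonoidHom p : Q →* Q).range =>
      u ^ (t.1 : ℕ) * v ^ (t.2.1 : ℕ) * (t.2.2 : Q)) := by
    intro x
    have hx : x ∈ Subgroup.closure {u, v} := by rw [hgen]; exact Subgroup.mem_top x
    obtain ⟨m, n, rfl⟩ := Subgroup.mem_closure_pair.mp hx
    have hpz : (p : ℤ) ≠ 0 := by exact_mod_cast hp0.ne'
    have hm0 : 0 ≤ m % (p : ℤ) := Int.emod_nonneg m hpz
    have hn0 : 0 ≤ n % (p : ℤ) := Int.emod_nonneg n hpz
    have hm1 : (m % (p : ℤ)).toNat < p := by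
      have := Int.emod_lt_of_pos m (by exact_mod_cast hp0 : (0 : ℤ) < p)
      omega
    have hn1 : (n % (p : ℤ)).toNat < p := by
      have := Int.emod_lt_of_pos n (by exact_mod_cast hp0 : (0 : ℤ) < p)
      omega
    refine ⟨(⟨(m % (p : ℤ)).toNat, hm1⟩, ⟨(n % (p : ℤ)).toNat, hn1⟩,
      ⟨(u ^ (m / (p : ℤ)) * v ^ (n / (p : ℤ))) ^ p, ⟨_, rfl⟩⟩), ?_⟩
    show u ^ (m % (p : ℤ)).toNat * v ^ (n % (p : ℤ)).toNat *
      (u ^ (m / (p : ℤ)) * v ^ (n / (p : ℤ))) ^ p = u ^ m * v ^ n
    have e1 : u ^ (m % (p : ℤ)).toNat = u ^ (m % (p : ℤ)) := by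
      rw [← zpow_natCast, Int.toNat_of_nonneg hm0]
    have e2 : v ^ (n % (p : ℤ)).toNat = v ^ (n % (p : ℤ)) := by
      rw [← zpow_natCast, Int.toNat_of_nonneg hn0]
    have e3 : (u ^ (m / (p : ℤ)) * v ^ (n / (p : ℤ))) ^ p =
        u ^ ((p : ℤ) * (m / (p : ℤ))) * v ^ ((p : ℤ) * (n / (p : ℤ))) := by
      rw [mul_pow, ← zpow_natCast, ← zpow_natCast, ← zpow_mul, ← zpow_mul, mul_comm (m / (p : ℤ)),
        mul_comm (n / (p : ℤ))]
    have e4 : u ^ m = u ^ (m % (p : ℤ)) * u ^ ((p : ℤ) * (m / (p : ℤ))) := by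
      rw [← zpow_add, Int.emod_add_mul_ediv]
    have e5 : v ^ n = v ^ (n % (p : ℤ)) * v ^ ((p : ℤ) * (n / (p : ℤ))) := by
      rw [← zpow_add, Int.emod_add_mul_ediv]
    rw [e1, e2, e3, e4, e5]
    exact mul_mul_mul_comm _ _ _ _
  have hle := Nat.card_le_card_of_surjective _ hsurj
  rw [Nat.card_prod, Nat.card_prod, Nat.card_fin] at hle
  have hker : p ^ 3 ≤ Nat.card ↥(powMonoidHom p : Q →* Q).ker :=
    hWc.trans (Subgroup.card_le_of_le hWker)
  have hrpos : 0 < Nat.card ↥(powMonoidHom p : Q →* Q).range := Nat.card_pos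
  have h1 : p ^ 3 * Nat.card ↥(powMonoidHom p : Q →* Q).range ≤
      p * (p * Nat.card ↥(powMonoidHom p : Q →* Q).range) := by
    calc p ^ 3 * Nat.card ↥(powMonoidHom p : Q →* Q).range
        ≤ Nat.card ↥(powMonoidHom p : Q →* Q).ker *
          Nat.card ↥(powMonoidHom p : Q →* Q).range := Nat.mul_le_mul_right _ hker
      _ = Nat.card Q := hk
      _ ≤ _ := hle
  have h2 : p ^ 3 ≤ p * p := by
    have : p ^ 3 * Nat.card ↥(powMonoidHom p : Q →* Q).range ≤
        (p * p) * Nat.card ↥(powMonoidHom p : Q →* Q).range := by rw [mul_assoc]; exact h1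
    exact Nat.le_of_mul_le_mul_right this hrpos
  have hp2 : 2 ≤ p := hp.two_le
  have h3 : p * p * 2 ≤ p ^ 3 := by
    have : p ^ 3 = p * p * p := by ring
    rw [this]; exact Nat.mul_le_mul_left _ hp2
  have h4 : 0 < p * p := Nat.mul_pos hp0 hp0
  omega

end Cfsg.Agent.Lib.Helper14
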