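import Mathlib
import Cfsg.Agent.Lib.Helper14.E8a
import Cfsg.Agent.Lib.Helper14.Basic

set_option autoImplicit false
set_option linter.unusedSectionVars false
set_option linter.unusedSimpArgs false

universe u

namespace Cfsg.Agent.Lib.Helper14

open Cfsg

section e8

variable {P : Type u} [Group P] [Finite P]

theorem aut_sq_apply {T : MulAut P} (h : T * T = 1) (x : P) : T (T x) = x := by
  rw [← MulAut.mul_apply, h, MulAut.one_apply]

theorem aut_comm_apply {S T : MulAut P} (h : S * T = T * S) (x : P) : S (T x) = T (S x) := by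
  rw [← MulAut.mul_apply, h, MulAut.mul_apply]

theorem noncyc_key {p : ℕ} (hp : p.Prime) (hp2 : p ≠ 2) (hP : IsPGroup p P)
    (T c Tb : MulAut P) (gb gc : P) (hTb : T gb = gb) (hTc : T gc = gc)
    (hc2 : ∀ x, c (c x) = x) (hcT : ∀ x, c (T x) = T (c x))
    (hcfix : ∀ x, c x = x ↔ x ∈ Subgroup.zpowers gc) (hgc : gc ≠ 1)
    (hTbc : Tb gc = gc) (hTbb : Tb gb ≠ gb) : ¬ CycFix T := by
  rintro ⟨g, hg⟩
  have hgb : gb ∈ Subgroup.zpowers g := (hg gb).mp hTb
  have hgc' : gc ∈ Subgroup.zpowers g := (hg gc).mp hTc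
  have hgfix : T g = g := (hg g).mpr (Subgroup.mem_zpowers g)
  have hcg : c g ∈ Subgroup.zpowers g := by
    apply (hg (c g)).mp
    rw [← hcT, hgfix]
  rcases map_gen_eq_or_inv hp hp2 hP c g (hc2 g) hcg with h | h
  · have h1 : g ∈ Subgroup.zpowers gc := (hcfix g).mp h
    have h2 : gb ∈ Subgroup.zpowers gc := (Subgroup.zpowers_le.mpr h1) hgb
    exact hTbb (map_zpowers_of_fix Tb hTbc h2)
  · have h1 : c gc = gc⁻¹ := map_zpowers_of_inv c h hgc'
    have h2 : c gc = gc := (hcfix gc).mpr (Subgroup.mem_zpowers gc)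
    exact hgc (eq_one_of_eq_inv hp hp2 hP (h2.symm.trans h1))

theorem comm_key {p : ℕ} (hp : p.Prime) (hp2 : p ≠ 2) (hP : IsPGroup p P)
    (s Tc : MulAut P) (ga gb gc : P)
    (hs2 : ∀ x, s (s x) = x) (hTc2 : ∀ x, Tc (Tc x) = x) (hsT : ∀ x, s (Tc x) = Tc (s x))
    (hs : CycFix s) (hsc : s gc = gc)
    (hTa : Tc ga = ga) (hTb : Tc gb = gb) (hTcc : Tc gc = gc⁻¹) (hgc : gc ≠ 1) :
    ga * gb = gb * ga := by
  obtain ⟨g, hg⟩ := hs
  have hgc' : gc ∈ Subgroup.zpowers g := (hg gc).mp hsc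
  have hsg : s g = g := (hg g).mpr (Subgroup.mem_zpowers g)
  have hTg : Tc g ∈ Subgroup.zpowers g := by
    apply (hg (Tc g)).mp
    rw [hsT, hsg]
  have hinvg : Tc g = g⁻¹ := by
    rcases map_gen_eq_or_inv hp hp2 hP Tc g (hTc2 g) hTg with h | h
    · exfalso
      have h1 : Tc gc = gc := map_zpowers_of_fix Tc h hgc'
      exact hgc (eq_one_of_eq_inv hp hp2 hP (h1.symm.trans hTcc))
    · exact h
  apply comm_of_fixed_point_free (fixAut Tc) s (fun x _ => hs2 x) ?_ ?_ ga hTa gb hTb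
  · intro x hx
    show Tc (s x) = s x
    rw [← hsT, mem_fixAut.mp hx]
  · intro x hx hsx
    have h1 : x ∈ Subgroup.zpowers g := (hg x).mp hsx
    have h2 : Tc x = x⁻¹ := map_zpowers_of_inv Tc hinvg h1
    exact eq_one_of_eq_inv hp hp2 hP ((mem_fixAut.mp hx).symm.trans h2)

theorem fix_or_inv_of_comm {p : ℕ} (hp : p.Prime) (hp2 : p ≠ 2) (hP : IsPGroup p P)
    (T x : MulAut P) (g : P) (hT2 : T * T = 1) (hTx : T * x = x * T)
    (hx : ∀ y, x y = y ↔ y ∈ Subgroup.zpowers g) : T g = g ∨ T g = g⁻¹ := by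
  apply map_gen_eq_or_inv hp hp2 hP T g (aut_sq_apply hT2 g)
  apply (hx (T g)).mp
  rw [← aut_comm_apply hTx, (hx g).mpr (Subgroup.mem_zpowers g)]

theorem eq_of_fix_iff {g x y : P} (hx : x = g ∨ x = g⁻¹) (hy : y = g ∨ y = g⁻¹)
    (h : x = g ↔ y = g) : x = y := by
  rcases hx with e | e
  · rw [e, h.mp e]
  · rcases hy with f | f
    · have := h.mpr f
      rw [this, f]
    · rw [e, f]

theorem le_normalizer_of_comm {G : Type*} [Group G] [Finite G] {H K : Subgroup G}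
    (hc : ∀ x ∈ H, ∀ y ∈ K, x * y = y * x) : H ≤ Subgroup.normalizer (K : Set G) := by
  intro v hv
  apply mem_normalizer_of_conj_mem
  intro z hz
  have : v * z * v⁻¹ = z := by rw [hc v hv z hz]; group
  rw [this]; exact hz

theorem comm_of_gens3 {ga gb gc : P} (hgen : Subgroup.closure {ga, gb, gc} = (⊤ : Subgroup P))
    (hab : ga * gb = gb * ga) (hac : ga * gc = gc * ga) (hbc : gb * gc = gc * gb) :
    ∀ x y : P, x * y = y * x := by
  have key : ∀ g : P, g * ga = ga * g → g * gb = gb * g → g * gc = gc * g →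
      g ∈ Subgroup.center P := by
    intro g h1 h2 h3
    rw [Subgroup.mem_center_iff]
    intro y
    have hy : y ∈ Subgroup.closure {ga, gb, gc} := by rw [hgen]; exact Subgroup.mem_top y
    have hle : Subgroup.closure {ga, gb, gc} ≤ Subgroup.centralizer {g} := by
      rw [Subgroup.closure_le]
      intro z hz
      rw [SetLike.mem_coe, Subgroup.mem_centralizer_iff]
      intro h hh
      rw [Set.mem_singleton_iff] at hh
      rw [hh]
      rcases hz with hz | hz | hz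
      · rw [hz]; exact h1
      · rw [hz]; exact h2
      · rw [Set.mem_singleton_iff] at hz; rw [hz]; exact h3
    have := Subgroup.mem_centralizer_iff.mp (hle hy) g (Set.mem_singleton g)
    exact this.symm
  have hcen : Subgroup.closure {ga, gb, gc} ≤ Subgroup.center P := by
    rw [Subgroup.closure_le]
    intro z hz
    rcases hz with hz | hz | hz
    · rw [hz]; exact key ga rfl hab hac
    · rw [hz]; exact key gb hab.symm rfl hbc
    · rw [Set.mem_singleton_iff] at hz; rw [hz]; exact key gc hac.symm hbc.symm rfl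
  intro x y
  have hx : x ∈ Subgroup.center P := hcen (by rw [hgen]; exact Subgroup.mem_top x)
  exact (Subgroup.mem_center_iff.mp hx y).symm

theorem not_two_gen_of_comm (hcomm : ∀ x y : P, x * y = y * x) {p : ℕ} (hp : p.Prime)
    (W : Subgroup P) (hW : ∀ w ∈ W, w ^ p = 1) (hWc : p ^ 3 ≤ Nat.card W) (u v : P) :
    Subgroup.closure {u, v} ≠ (⊤ : Subgroup P) := by
  let _ : CommGroup P := { ‹Group P› with mul_comm := hcomm }
  exact not_two_gen_comm hp W hW hWc u v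

theorem exists_order_p {p : ℕ} (hP : IsPGroup p P) {g : P} (hg : g ≠ 1) :
    ∃ w ∈ Subgroup.zpowers g, w ≠ 1 ∧ w ^ p = 1 := by
  classical
  have hex : ∃ k, g ^ p ^ k = 1 := hP g
  obtain ⟨k0, hk0, hmin⟩ : ∃ k0, g ^ p ^ k0 = 1 ∧ ∀ m, g ^ p ^ m = 1 → k0 ≤ m :=
    ⟨Nat.find hex, Nat.find_spec hex, fun m hm => Nat.find_min' hex hm⟩
  have hk0pos : k0 ≠ 0 := by
    intro h0
    rw [h0, pow_zero, pow_one] at hk0
    exact hg hk0
  obtain ⟨j, hj⟩ := Nat.exists_eq_add_one_of_ne_zero hk0pos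
  refine ⟨g ^ p ^ j, Subgroup.pow_mem _ (Subgroup.mem_zpowers g) _, ?_, ?_⟩
  · intro h
    have := hmin j h
    omega
  · rw [← pow_mul, ← pow_succ, ← hj]; exact hk0

/-- the elements inverted by an automorphism of a commutative group. -/
def invSub (hcomm : ∀ x y : P, x * y = y * x) (w : MulAut P) : Subgroup P where
  carrier := {x | w x = x⁻¹}
  mul_mem' := by
    intro a b ha hb
    show w (a * b) = (a * b)⁻¹
    rw [map_mul, (ha : w a = a⁻¹), (hb : w b = b⁻¹), mul_inv_rev, hcomm]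
  one_mem' := by
    show w 1 = 1⁻¹
    rw [map_one, inv_one]
  inv_mem' := by
    intro a ha
    show w a⁻¹ = a⁻¹⁻¹
    rw [map_inv, (ha : w a = a⁻¹)]

/-- the normal form of the configuration. -/
structure E8Data (I : Subgroup (MulAut P)) (Ta Tb Tc : MulAut P) (ga gb gc : P) : Prop where
  hTa : Ta ∈ I
  hTb : Tb ∈ I
  hTc : Tc ∈ I
  aa : Ta ga = ga⁻¹
  ab : Ta gb = gb
  ac : Ta gc = gc
  ba : Tb ga = ga
  bb : Tb gb = gb⁻¹
  bc : Tb gc = gc
  ca : Tc ga = ga
  cb : Tc gb = gb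
  cc : Tc gc = gc⁻¹
  ga1 : ga ≠ 1
  gb1 : gb ≠ 1
  gc1 : gc ≠ 1
  gen : Subgroup.closure {ga, gb, gc} = (⊤ : Subgroup P)
  na : ¬ CycFix Ta
  nb : ¬ CycFix Tb
  nc : ¬ CycFix Tc
  all : ∀ T ∈ I, T = 1 ∨ T = Ta ∨ T = Tb ∨ T = Tc ∨ T = Ta * Tb ∨ T = Ta * Tc ∨ T = Tb * Tc ∨
    T = Ta * Tb * Tc

theorem e8_data {p : ℕ} (hp : p.Prime) (hp2 : p ≠ 2) (hP : IsPGroup p P)
    (I : Subgroup (MulAut P)) (hcomm : ∀ x ∈ I, ∀ y ∈ I, x * y = y * x)
    (hsq : ∀ x ∈ I, x * x = 1) (hI8 : Nat.card ↥I = 8)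
    (I₀ : Subgroup (MulAut P)) (hI₀ : I₀ < I)
    (hdisj : ∀ T ∈ I₀, T ≠ 1 → CycFix T)
    (hprod : ∀ T ∈ I, ∀ T' ∈ I, T ≠ 1 → T' ≠ 1 → ¬ CycFix T → ¬ CycFix T' → T * T' ∈ I₀) :
    ∃ (Ta Tb Tc : MulAut P) (ga gb gc : P), E8Data I Ta Tb Tc ga gb gc := by
  classical
  haveI : Fact p.Prime := ⟨hp⟩
  obtain ⟨T₀, hT₀I, hT₀n, hT₀⟩ : ∃ T₀ ∈ I, T₀ ∉ I₀ ∧
      ∀ T ∈ I, T ≠ 1 → ¬ CycFix T → T₀ * T ∈ I₀ := by
    by_cases hex : ∃ T ∈ I, T ≠ 1 ∧ ¬ CycFix T
    · obtain ⟨T, hTI, hT1, hTn⟩ := hex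
      exact ⟨T, hTI, fun h => hTn (hdisj T h hT1),
        fun T' hT' hT'1 hT'n => hprod T hTI T' hT' hT1 hT'1 hTn hT'n⟩
    · obtain ⟨T, hTI, hTn⟩ := SetLike.exists_of_lt hI₀
      exact ⟨T, hTI, hTn, fun T' hT' hT'1 hT'n => absurd ⟨T', hT', hT'1, hT'n⟩ hex⟩
  have hT₀1 : T₀ ≠ 1 := fun h => hT₀n (h ▸ I₀.one_mem)
  have hT₀sq : T₀ * T₀ = 1 := hsq T₀ hT₀I
  have hzc : ∀ x ∈ I, ∀ y ∈ I, ∀ u ∈ Subgroup.zpowers x, ∀ w ∈ Subgroup.zpowers y,
      u * w = w * u := by
    intro x hx y hy u hu w hw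
    obtain ⟨k, rfl⟩ := Subgroup.mem_zpowers_iff.mp hw
    obtain ⟨j, rfl⟩ := Subgroup.mem_zpowers_iff.mp hu
    exact hcomm _ (I.zpow_mem hx j) _ (I.zpow_mem hy k)
  obtain ⟨V, -, hVmax⟩ := Finite.exists_le_maximal
    (p := fun V : Subgroup (MulAut P) => I₀ ≤ V ∧ V ≤ I ∧ T₀ ∉ V) (a := I₀)
    ⟨le_refl _, hI₀.le, hT₀n⟩
  obtain ⟨⟨hI₀V, hVI, hT₀V⟩, hVmax'⟩ := hVmax
  have hVsup : V ⊔ Subgroup.zpowers T₀ = I := by
    apply le_antisymm (sup_le hVI (Subgroup.zpowers_le.mpr hT₀I))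
    intro x hx
    by_cases hxV : x ∈ V
    · exact Subgroup.mem_sup_left hxV
    · have hT₀' : T₀ ∈ V ⊔ Subgroup.zpowers x := by
        by_contra hcon
        have := hVmax' ⟨hI₀V.trans le_sup_left, sup_le hVI (Subgroup.zpowers_le.mpr hx), hcon⟩
          le_sup_left
        exact hxV (this (Subgroup.mem_sup_right (Subgroup.mem_zpowers x)))
      have hc : ∀ a ∈ V, ∀ b ∈ Subgroup.zpowers x, a * b = b * a := by
        intro a ha b hb
        obtain ⟨k, rfl⟩ := Subgroup.mem_zpowers_iff.mp hb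
        exact hcomm a (hVI ha) _ (I.zpow_mem hx k)
      obtain ⟨v, hv, z, hz, hvz⟩ := mem_sup_of_comm hc hT₀'
      rcases mem_zpowers_invol (hsq x hx) hz with h | h
      · exfalso
        rw [h, mul_one] at hvz
        apply hT₀V
        rw [hvz]; exact hv
      · rw [h] at hvz
        have e : x = v⁻¹ * T₀ := by rw [hvz]; group
        rw [e]
        exact Subgroup.mul_mem_sup (V.inv_mem hv) (Subgroup.mem_zpowers T₀)
  have hVinf : V ⊓ Subgroup.zpowers T₀ = ⊥ := by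
    rw [eq_bot_iff]
    rintro z ⟨hzV, hz⟩
    rcases mem_zpowers_invol hT₀sq hz with h | h
    · exact Subgroup.mem_bot.mpr h
    · rw [h] at hzV; exact absurd hzV hT₀V
  have hzT₀ : Nat.card ↥(Subgroup.zpowers T₀) = 2 := by
    rw [Nat.card_zpowers]
    exact orderOf_eq_prime (by rw [pow_two]; exact hT₀sq) hT₀1
  have hV4 : Nat.card ↥V = 4 := by
    have hn : V ≤ Subgroup.normalizer (Subgroup.zpowers T₀ : Set (MulAut P)) := by
      apply le_normalizer_of_comm
      intro a ha b hb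
      obtain ⟨k, rfl⟩ := Subgroup.mem_zpowers_iff.mp hb
      exact hcomm a (hVI ha) _ (I.zpow_mem hT₀I k)
    have h1 := card_sup_mul_card_inf hn
    rw [hVsup, hVinf, Subgroup.card_bot, hI8, hzT₀] at h1
    omega
  obtain ⟨a, haV, ha1⟩ : ∃ a ∈ V, a ≠ 1 := by
    by_contra hcon
    push Not at hcon
    have : V = ⊥ := (Subgroup.eq_bot_iff_forall V).mpr hcon
    rw [this, Subgroup.card_bot] at hV4
    omega
  have hasq : a * a = 1 := hsq a (hVI haV)
  have hza : Nat.card ↥(Subgroup.zpowers a) = 2 := by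
    rw [Nat.card_zpowers]
    exact orderOf_eq_prime (by rw [pow_two]; exact hasq) ha1
  obtain ⟨b, hbV, hba⟩ : ∃ b ∈ V, b ∉ Subgroup.zpowers a := by
    by_contra hcon
    push Not at hcon
    have hle : V ≤ Subgroup.zpowers a := hcon
    have := Subgroup.card_le_of_le hle
    omega
  have hb1 : b ≠ 1 := fun h => hba (h ▸ Subgroup.one_mem _)
  have hbsq : b * b = 1 := hsq b (hVI hbV)
  have hzb : Nat.card ↥(Subgroup.zpowers b) = 2 := by
    rw [Nat.card_zpowers]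
    exact orderOf_eq_prime (by rw [pow_two]; exact hbsq) hb1
  have hab1 : a * b ≠ 1 := by
    intro h
    apply hba
    have e : b = a⁻¹ := eq_inv_of_mul_eq_one_right h
    rw [e]; exact Subgroup.inv_mem _ (Subgroup.mem_zpowers a)
  have habV : a * b ∈ V := V.mul_mem haV hbV
  have hVenum : ∀ x ∈ V, x = 1 ∨ x = a ∨ x = b ∨ x = a * b := by
    have hinf : Subgroup.zpowers a ⊓ Subgroup.zpowers b = ⊥ := by
      rw [eq_bot_iff]
      rintro z ⟨hz1, hz2⟩
      rcases mem_zpowers_invol hasq hz1 with h | h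
      · exact Subgroup.mem_bot.mpr h
      · rcases mem_zpowers_invol hbsq hz2 with h' | h'
        · exact Subgroup.mem_bot.mpr h'
        · exfalso; apply hba; rw [← h', h]; exact Subgroup.mem_zpowers a
    have hsupV : Subgroup.zpowers a ⊔ Subgroup.zpowers b = V := by
      apply subgroup_eq_of_le_of_card_le
        (sup_le (Subgroup.zpowers_le.mpr haV) (Subgroup.zpowers_le.mpr hbV))
      have hn : Subgroup.zpowers a ≤ Subgroup.normalizer (Subgroup.zpowers b : Set (MulAut P)) :=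
        le_normalizer_of_comm (hzc a (hVI haV) b (hVI hbV))
      have h1 := card_sup_mul_card_inf hn
      rw [hinf, Subgroup.card_bot, hza, hzb] at h1
      omega
    intro x hx
    rw [← hsupV] at hx
    obtain ⟨z1, hz1, z2, hz2, rfl⟩ := mem_sup_of_comm (hzc a (hVI haV) b (hVI hbV)) hx
    rcases mem_zpowers_invol hasq hz1 with h | h <;>
      rcases mem_zpowers_invol hbsq hz2 with h' | h'
    · left; rw [h, h', mul_one]
    · right; right; left; rw [h, h', one_mul]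
    · right; left; rw [h, h', mul_one]
    · right; right; right; rw [h, h']
  have hVcyc : ∀ x ∈ V, x ≠ 1 → CycFix x := by
    intro x hx hx1
    by_contra hn
    apply hT₀V
    have h1 : T₀ * x ∈ V := hI₀V (hT₀ x (hVI hx) hx1 hn)
    have e : T₀ = T₀ * x * x⁻¹ := by group
    rw [e]; exact V.mul_mem h1 (V.inv_mem hx)
  obtain ⟨ga, hga⟩ := hVcyc a haV ha1
  obtain ⟨gb, hgb⟩ := hVcyc b hbV hb1
  obtain ⟨gc, hgc⟩ := hVcyc (a * b) habV hab1
  have hgen : Subgroup.closure {ga, gb, gc} = (⊤ : Subgroup P) := by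
    rw [eq_top_iff]
    have hcop : (Nat.card ↥V).Coprime (Nat.card ↥(⊤ : Subgroup P)) := by
      rw [hV4, Subgroup.card_top]
      obtain ⟨n, hn⟩ := (IsPGroup.iff_card).mp hP
      rw [hn]
      apply Nat.Coprime.pow_right
      have h2 : Nat.Coprime 2 p := (Nat.coprime_primes Nat.prime_two hp).mpr (Ne.symm hp2)
      exact Nat.Coprime.pow_left 2 h2
    refine (coprime_gen V (fun x hx y hy => hcomm x (hVI hx) y (hVI hy)) ⊤
      (fun _ _ _ _ => Subgroup.mem_top _) hcop).trans ?_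
    apply iSup₂_le
    rintro B ⟨hBV, a', ha', hBa'⟩
    have hB : ∃ x ∈ B, x ≠ 1 := by
      by_contra hcon
      push Not at hcon
      have hBbot : B = ⊥ := (Subgroup.eq_bot_iff_forall B).mpr hcon
      rw [hBbot, bot_sup_eq] at hBa'
      have h1 : Nat.card ↥(Subgroup.zpowers a') = 4 := by rw [hBa']; exact hV4
      rw [Nat.card_zpowers] at h1
      have h2 : orderOf a' ∣ 2 :=
        orderOf_dvd_of_pow_eq_one (by rw [pow_two]; exact hsq a' (hVI ha'))
      have := Nat.le_of_dvd (by norm_num) h2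
      omega
    obtain ⟨x, hxB, hx1⟩ := hB
    refine inf_le_right.trans ?_
    intro y hy
    have hyx : x y = y := hy x hxB
    rcases hVenum x (hBV hxB) with h | h | h | h
    · exact absurd h hx1
    · rw [h] at hyx
      exact (Subgroup.zpowers_le.mpr (Subgroup.subset_closure (by simp))) ((hga y).mp hyx)
    · rw [h] at hyx
      exact (Subgroup.zpowers_le.mpr (Subgroup.subset_closure (by simp))) ((hgb y).mp hyx)
    · rw [h] at hyx
      exact (Subgroup.zpowers_le.mpr (Subgroup.subset_closure (by simp))) ((hgc y).mp hyx)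
  have hfi : ∀ T ∈ I, (T ga = ga ∨ T ga = ga⁻¹) ∧ (T gb = gb ∨ T gb = gb⁻¹) ∧
      (T gc = gc ∨ T gc = gc⁻¹) := by
    intro T hT
    exact ⟨fix_or_inv_of_comm hp hp2 hP T a ga (hsq T hT) (hcomm T hT a (hVI haV)) hga,
      fix_or_inv_of_comm hp hp2 hP T b gb (hsq T hT) (hcomm T hT b (hVI hbV)) hgb,
      fix_or_inv_of_comm hp hp2 hP T (a * b) gc (hsq T hT) (hcomm T hT (a * b) (hVI habV)) hgc⟩
  let ψ : ↥I → Bool × Bool × Bool := fun T =>
    (decide ((T : MulAut P) ga = ga), decide ((T : MulAut P) gb = gb),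
      decide ((T : MulAut P) gc = gc))
  have hψinj : Function.Injective ψ := by
    rintro ⟨T, hT⟩ ⟨T', hT'⟩ h
    have h' : (decide (T ga = ga), decide (T gb = gb), decide (T gc = gc)) =
        (decide (T' ga = ga), decide (T' gb = gb), decide (T' gc = gc)) := h
    simp only [Prod.mk.injEq, decide_eq_decide] at h'
    obtain ⟨h1, h2, h3⟩ := h'
    apply Subtype.ext
    show T = T'
    obtain ⟨e1, e2, e3⟩ := hfi T hT
    obtain ⟨f1, f2, f3⟩ := hfi T' hT'
    exact aut_ext_of_gens hgen T T' (eq_of_fix_iff e1 f1 h1) (eq_of_fix_iff e2 f2 h2)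
      (eq_of_fix_iff e3 f3 h3)
  have hψbij : Function.Bijective ψ := by
    apply Function.Injective.bijective_of_nat_card_le hψinj
    rw [hI8]
    simp [Nat.card_eq_fintype_card]
  obtain ⟨⟨Ta, hTaI⟩, hTa⟩ := hψbij.2 (false, true, true)
  obtain ⟨⟨Tb, hTbI⟩, hTb⟩ := hψbij.2 (true, false, true)
  obtain ⟨⟨Tc, hTcI⟩, hTc⟩ := hψbij.2 (true, true, false)
  have hTa' : (decide (Ta ga = ga), decide (Ta gb = gb), decide (Ta gc = gc)) =
      (false, true, true) := hTa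
  have hTb' : (decide (Tb ga = ga), decide (Tb gb = gb), decide (Tb gc = gc)) =
      (true, false, true) := hTb
  have hTc' : (decide (Tc ga = ga), decide (Tc gb = gb), decide (Tc gc = gc)) =
      (true, true, false) := hTc
  simp only [Prod.mk.injEq, decide_eq_false_iff_not, decide_eq_true_eq] at hTa' hTb' hTc'
  obtain ⟨aa', ab, ac⟩ := hTa'
  obtain ⟨ba, bb', bc⟩ := hTb'
  obtain ⟨ca, cb, cc'⟩ := hTc'
  have aa : Ta ga = ga⁻¹ := (hfi Ta hTaI).1.resolve_left aa'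
  have bb : Tb gb = gb⁻¹ := (hfi Tb hTbI).2.1.resolve_left bb'
  have cc : Tc gc = gc⁻¹ := (hfi Tc hTcI).2.2.resolve_left cc'
  have ga1 : ga ≠ 1 := by
    intro h; apply aa'; rw [h, map_one]
  have gb1 : gb ≠ 1 := by
    intro h; apply bb'; rw [h, map_one]
  have gc1 : gc ≠ 1 := by
    intro h; apply cc'; rw [h, map_one]
  have inv2 : ∀ T ∈ I, ∀ x, T (T x) = x := fun T hT x => aut_sq_apply (hsq T hT) x
  have hna : ¬ CycFix Ta := noncyc_key hp hp2 hP Ta (a * b) Tb gb gc ab ac (inv2 _ (hVI habV))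
    (aut_comm_apply (hcomm _ (hVI habV) _ hTaI)) hgc gc1 bc bb'
  have hnb : ¬ CycFix Tb := noncyc_key hp hp2 hP Tb (a * b) Ta ga gc ba bc (inv2 _ (hVI habV))
    (aut_comm_apply (hcomm _ (hVI habV) _ hTbI)) hgc gc1 ac aa'
  have hnc : ¬ CycFix Tc := noncyc_key hp hp2 hP Tc b Ta ga gb ca cb (inv2 _ (hVI hbV))
    (aut_comm_apply (hcomm _ (hVI hbV) _ hTcI)) hgb gb1 ab aa'
  have hall : ∀ T ∈ I, T = 1 ∨ T = Ta ∨ T = Tb ∨ T = Tc ∨ T = Ta * Tb ∨ T = Ta * Tc ∨
      T = Tb * Tc ∨ T = Ta * Tb * Tc := by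
    intro T hT
    obtain ⟨e1, e2, e3⟩ := hfi T hT
    rcases e1 with e1 | e1 <;> rcases e2 with e2 | e2 <;> rcases e3 with e3 | e3
    · left
      apply aut_ext_of_gens hgen <;>
        simp only [MulAut.mul_apply, MulAut.one_apply, map_inv, e1, e2, e3, aa, ab, ac, ba, bb,
          bc, ca, cb, cc]
    · right; right; right; left
      apply aut_ext_of_gens hgen <;>
        simp only [MulAut.mul_apply, MulAut.one_apply, map_inv, e1, e2, e3, aa, ab, ac, ba, bb,
          bc, ca, cb, cc]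
    · right; right; left
      apply aut_ext_of_gens hgen <;>
        simp only [MulAut.mul_apply, MulAut.one_apply, map_inv, e1, e2, e3, aa, ab, ac, ba, bb,
          bc, ca, cb, cc]
    · right; right; right; right; right; right; left
      apply aut_ext_of_gens hgen <;>
        simp only [MulAut.mul_apply, MulAut.one_apply, map_inv, e1, e2, e3, aa, ab, ac, ba, bb,
          bc, ca, cb, cc]
    · right; left
      apply aut_ext_of_gens hgen <;>
        simp only [MulAut.mul_apply, MulAut.one_apply, map_inv, e1, e2, e3, aa, ab, ac, ba, bb,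
          bc, ca, cb, cc]
    · right; right; right; right; right; left
      apply aut_ext_of_gens hgen <;>
        simp only [MulAut.mul_apply, MulAut.one_apply, map_inv, e1, e2, e3, aa, ab, ac, ba, bb,
          bc, ca, cb, cc]
    · right; right; right; right; left
      apply aut_ext_of_gens hgen <;>
        simp only [MulAut.mul_apply, MulAut.one_apply, map_inv, e1, e2, e3, aa, ab, ac, ba, bb,
          bc, ca, cb, cc]
    · right; right; right; right; right; right; right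
      apply aut_ext_of_gens hgen <;>
        simp only [MulAut.mul_apply, MulAut.one_apply, map_inv, e1, e2, e3, aa, ab, ac, ba, bb,
          bc, ca, cb, cc]
  exact ⟨Ta, Tb, Tc, ga, gb, gc, ⟨hTaI, hTbI, hTcI, aa, ab, ac, ba, bb, bc, ca, cb, cc, ga1, gb1,
    gc1, hgen, hna, hnb, hnc, hall⟩⟩

theorem e8_main {p : ℕ} (hp : p.Prime) (hp2 : p ≠ 2) (hP : IsPGroup p P)
    (I : Subgroup (MulAut P)) (hI : Cfsg.IsElementaryAbelian 2 I) (hI8 : Nat.card ↥I = 8)
    (I₀ : Subgroup (MulAut P)) (hI₀ : I₀ < I)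
    (hdisj : ∀ T ∈ I₀, T ≠ 1 → CycFix T)
    (hprod : ∀ T ∈ I, ∀ T' ∈ I, T ≠ 1 → T' ≠ 1 → ¬ CycFix T → ¬ CycFix T' → T * T' ∈ I₀) :
    IsMulCommutative P ∧ (∃ a b c : P, Subgroup.closure {a, b, c} = ⊤) ∧
      (¬ ∃ a b : P, Subgroup.closure {a, b} = ⊤) ∧
      Nat.card {T : MulAut P // T ∈ I ∧ T ≠ 1 ∧ ¬ CycFix T} = 3 ∧
      Subgroup.closure {T : MulAut P | T ∈ I ∧ T ≠ 1 ∧ ¬ CycFix T} = I ∧
      (I₀ : Set (MulAut P)) = {S : MulAut P | ∃ T T' : MulAut P, T ∈ I ∧ T' ∈ I ∧ T ≠ 1 ∧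
        T' ≠ 1 ∧ ¬ CycFix T ∧ ¬ CycFix T' ∧ S = T * T'} := by
  have hcomm := ea_comm hI
  have hsq : ∀ x ∈ I, x * x = 1 := fun x hx => by rw [← pow_two]; exact hI.2 x hx
  obtain ⟨Ta, Tb, Tc, ga, gb, gc, D⟩ := e8_data hp hp2 hP I hcomm hsq hI8 I₀ hI₀ hdisj hprod
  have hne : ∀ g : P, g ≠ 1 → g⁻¹ ≠ g := fun g hg h => hg (eq_one_of_eq_inv hp hp2 hP h.symm)
  have hTa1 : Ta ≠ 1 := by
    intro h
    have e := D.aa
    rw [h, MulAut.one_apply] at e
    exact hne ga D.ga1 e.symm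
  have hTb1 : Tb ≠ 1 := by
    intro h
    have e := D.bb
    rw [h, MulAut.one_apply] at e
    exact hne gb D.gb1 e.symm
  have hTc1 : Tc ≠ 1 := by
    intro h
    have e := D.cc
    rw [h, MulAut.one_apply] at e
    exact hne gc D.gc1 e.symm
  have hsab : Ta * Tb ∈ I₀ := hprod Ta D.hTa Tb D.hTb hTa1 hTb1 D.na D.nb
  have hsac : Ta * Tc ∈ I₀ := hprod Ta D.hTa Tc D.hTc hTa1 hTc1 D.na D.nc
  have hsbc : Tb * Tc ∈ I₀ := hprod Tb D.hTb Tc D.hTc hTb1 hTc1 D.nb D.nc
  have eab_a : (Ta * Tb) ga = ga⁻¹ := by rw [MulAut.mul_apply, D.ba, D.aa]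
  have eab_c : (Ta * Tb) gc = gc := by rw [MulAut.mul_apply, D.bc, D.ac]
  have eac_a : (Ta * Tc) ga = ga⁻¹ := by rw [MulAut.mul_apply, D.ca, D.aa]
  have eac_b : (Ta * Tc) gb = gb := by rw [MulAut.mul_apply, D.cb, D.ab]
  have ebc_b : (Tb * Tc) gb = gb⁻¹ := by rw [MulAut.mul_apply, D.cb, D.bb]
  have ebc_a : (Tb * Tc) ga = ga := by rw [MulAut.mul_apply, D.ca, D.ba]
  have hsab1 : Ta * Tb ≠ 1 := by
    intro h
    rw [h, MulAut.one_apply] at eab_a
    exact hne ga D.ga1 eab_a.symm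
  have hsac1 : Ta * Tc ≠ 1 := by
    intro h
    rw [h, MulAut.one_apply] at eac_a
    exact hne ga D.ga1 eac_a.symm
  have hsbc1 : Tb * Tc ≠ 1 := by
    intro h
    rw [h, MulAut.one_apply] at ebc_b
    exact hne gb D.gb1 ebc_b.symm
  have inv2 : ∀ T ∈ I, ∀ x, T (T x) = x := fun T hT x => aut_sq_apply (hsq T hT) x
  have hI₀I : I₀ ≤ I := hI₀.le
  have cab : ga * gb = gb * ga :=
    comm_key hp hp2 hP (Ta * Tb) Tc ga gb gc (inv2 _ (hI₀I hsab)) (inv2 _ D.hTc)
      (aut_comm_apply (hcomm _ (hI₀I hsab) _ D.hTc)) (hdisj _ hsab hsab1) eab_c D.ca D.cb D.cc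
      D.gc1
  have cac : ga * gc = gc * ga :=
    comm_key hp hp2 hP (Ta * Tc) Tb ga gc gb (inv2 _ (hI₀I hsac)) (inv2 _ D.hTb)
      (aut_comm_apply (hcomm _ (hI₀I hsac) _ D.hTb)) (hdisj _ hsac hsac1) eac_b D.ba D.bc D.bb
      D.gb1
  have cbc : gb * gc = gc * gb :=
    comm_key hp hp2 hP (Tb * Tc) Ta gb gc ga (inv2 _ (hI₀I hsbc)) (inv2 _ D.hTa)
      (aut_comm_apply (hcomm _ (hI₀I hsbc) _ D.hTa)) (hdisj _ hsbc hsbc1) ebc_a D.ab D.ac D.aa
      D.ga1
  have hPc : ∀ x y : P, x * y = y * x := comm_of_gens3 D.gen cab cac cbc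
  have hw_inv : ∀ x : P, (Ta * Tb * Tc) x = x⁻¹ := by
    intro x
    have hx : x ∈ Subgroup.closure {ga, gb, gc} := by rw [D.gen]; exact Subgroup.mem_top x
    have hle : Subgroup.closure {ga, gb, gc} ≤ invSub hPc (Ta * Tb * Tc) := by
      rw [Subgroup.closure_le]
      intro z hz
      rcases hz with hz | hz | hz
      · rw [hz]
        show (Ta * Tb * Tc) ga = ga⁻¹
        rw [MulAut.mul_apply, MulAut.mul_apply, D.ca, D.ba, D.aa]
      · rw [hz]
        show (Ta * Tb * Tc) gb = gb⁻¹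
        rw [MulAut.mul_apply, MulAut.mul_apply, D.cb, D.bb, map_inv, D.ab]
      · rw [Set.mem_singleton_iff] at hz
        rw [hz]
        show (Ta * Tb * Tc) gc = gc⁻¹
        rw [MulAut.mul_apply, MulAut.mul_apply, D.cc, map_inv, map_inv, D.bc, D.ac]
    exact hle hx
  have hwcyc : CycFix (Ta * Tb * Tc) := by
    refine ⟨1, fun x => ?_⟩
    rw [hw_inv, Subgroup.zpowers_one_eq_bot, Subgroup.mem_bot]
    constructor
    · intro h; exact eq_one_of_eq_inv hp hp2 hP h.symm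
    · intro h; rw [h, inv_one]
  have hN : {T : MulAut P | T ∈ I ∧ T ≠ 1 ∧ ¬ CycFix T} = {Ta, Tb, Tc} := by
    ext T
    simp only [Set.mem_ofPred_eq, Set.mem_insert_iff, Set.mem_singleton_iff]
    constructor
    · rintro ⟨hT, hT1, hTn⟩
      rcases D.all T hT with h | h | h | h | h | h | h | h
      · exact absurd h hT1
      · exact Or.inl h
      · exact Or.inr (Or.inl h)
      · exact Or.inr (Or.inr h)
      · rw [h] at hTn; exact absurd (hdisj _ hsab hsab1) hTn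
      · rw [h] at hTn; exact absurd (hdisj _ hsac hsac1) hTn
      · rw [h] at hTn; exact absurd (hdisj _ hsbc hsbc1) hTn
      · rw [h] at hTn; exact absurd hwcyc hTn
    · rintro (h | h | h)
      · rw [h]; exact ⟨D.hTa, hTa1, D.na⟩
      · rw [h]; exact ⟨D.hTb, hTb1, D.nb⟩
      · rw [h]; exact ⟨D.hTc, hTc1, D.nc⟩
  have dab : Ta ≠ Tb := by
    intro h
    have e := D.aa
    rw [h, D.ba] at e
    exact hne ga D.ga1 e.symm
  have dac : Ta ≠ Tc := by
    intro h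
    have e := D.aa
    rw [h, D.ca] at e
    exact hne ga D.ga1 e.symm
  have dbc : Tb ≠ Tc := by
    intro h
    have e := D.bb
    rw [h, D.cb] at e
    exact hne gb D.gb1 e.symm
  refine ⟨⟨⟨hPc⟩⟩, ⟨ga, gb, gc, D.gen⟩, ?_, ?_, ?_, ?_⟩
  · rintro ⟨u, v, huv⟩
    obtain ⟨wa, hwa, hwa1, hwap⟩ := exists_order_p hP D.ga1
    obtain ⟨wb, hwb, hwb1, hwbp⟩ := exists_order_p hP D.gb1
    obtain ⟨wc, hwc, hwc1, hwcp⟩ := exists_order_p hP D.gc1
    haveI : Fact p.Prime := ⟨hp⟩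
    have cza : Nat.card ↥(Subgroup.zpowers wa) = p := by
      rw [Nat.card_zpowers]; exact orderOf_eq_prime hwap hwa1
    have czb : Nat.card ↥(Subgroup.zpowers wb) = p := by
      rw [Nat.card_zpowers]; exact orderOf_eq_prime hwbp hwb1
    have czc : Nat.card ↥(Subgroup.zpowers wc) = p := by
      rw [Nat.card_zpowers]; exact orderOf_eq_prime hwcp hwc1
    have hnorm : ∀ H K : Subgroup P, H ≤ Subgroup.normalizer (K : Set P) :=
      fun H K => le_normalizer_of_comm (fun x _ y _ => hPc x y)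
    have hinf1 : Subgroup.zpowers wa ⊓ Subgroup.zpowers wb = ⊥ := by
      rw [eq_bot_iff]
      rintro z ⟨hz1, hz2⟩
      have h1 : Tb z = z := map_zpowers_of_fix Tb D.ba (Subgroup.zpowers_le.mpr hwa hz1)
      have h2 : Tb z = z⁻¹ := map_zpowers_of_inv Tb D.bb (Subgroup.zpowers_le.mpr hwb hz2)
      exact Subgroup.mem_bot.mpr (eq_one_of_eq_inv hp hp2 hP (h1.symm.trans h2))
    have hinf2 : (Subgroup.zpowers wa ⊔ Subgroup.zpowers wb) ⊓ Subgroup.zpowers wc = ⊥ := by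
      rw [eq_bot_iff]
      rintro z ⟨hz1, hz2⟩
      have hle : Subgroup.zpowers wa ⊔ Subgroup.zpowers wb ≤ fixAut Tc := by
        apply sup_le
        · rw [Subgroup.zpowers_le]; exact map_zpowers_of_fix Tc D.ca hwa
        · rw [Subgroup.zpowers_le]; exact map_zpowers_of_fix Tc D.cb hwb
      have h1 : Tc z = z := hle hz1
      have h2 : Tc z = z⁻¹ := map_zpowers_of_inv Tc D.cc (Subgroup.zpowers_le.mpr hwc hz2)
      exact Subgroup.mem_bot.mpr (eq_one_of_eq_inv hp hp2 hP (h1.symm.trans h2))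
    have c1 := card_sup_mul_card_inf (hnorm (Subgroup.zpowers wa) (Subgroup.zpowers wb))
    rw [hinf1, Subgroup.card_bot, mul_one, cza, czb] at c1
    have c2 := card_sup_mul_card_inf
      (hnorm (Subgroup.zpowers wa ⊔ Subgroup.zpowers wb) (Subgroup.zpowers wc))
    rw [hinf2, Subgroup.card_bot, mul_one, c1, czc] at c2
    have hWp : ∀ w ∈ Subgroup.zpowers wa ⊔ Subgroup.zpowers wb ⊔ Subgroup.zpowers wc,
        w ^ p = 1 := by
      intro w hw
      obtain ⟨x, hx, z3, hz3, rfl⟩ := mem_sup_of_comm (fun a _ b _ => hPc a b) hw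
      obtain ⟨z1, hz1, z2, hz2, rfl⟩ := mem_sup_of_comm (fun a _ b _ => hPc a b) hx
      have e : ∀ w0 : P, w0 ^ p = 1 → ∀ z ∈ Subgroup.zpowers w0, z ^ p = 1 := by
        intro w0 hw0 z hz
        obtain ⟨k, rfl⟩ := Subgroup.mem_zpowers_iff.mp hz
        rw [← zpow_natCast, ← zpow_mul, mul_comm, zpow_mul, zpow_natCast, hw0, one_zpow]
      rw [(show Commute (z1 * z2) z3 from hPc _ _).mul_pow,
        (show Commute z1 z2 from hPc _ _).mul_pow,
        e wa hwap z1 hz1, e wb hwbp z2 hz2, e wc hwcp z3 hz3, one_mul, one_mul]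
    exact not_two_gen_of_comm hPc hp _ hWp (by rw [c2]; exact le_of_eq (by ring)) u v huv
  · show Nat.card ↥({T : MulAut P | T ∈ I ∧ T ≠ 1 ∧ ¬ CycFix T}) = 3
    rw [hN, Nat.card_coe_set_eq]
    exact Set.ncard_eq_three.mpr ⟨Ta, Tb, Tc, dab, dac, dbc, rfl⟩
  · rw [hN]
    apply le_antisymm
    · rw [Subgroup.closure_le]
      intro z hz
      rcases hz with hz | hz | hz
      · rw [hz]; exact D.hTa
      · rw [hz]; exact D.hTb
      · rw [Set.mem_singleton_iff] at hz; rw [hz]; exact D.hTc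
    · intro T hT
      have mA : Ta ∈ Subgroup.closure ({Ta, Tb, Tc} : Set (MulAut P)) :=
        Subgroup.subset_closure (by simp)
      have mB : Tb ∈ Subgroup.closure ({Ta, Tb, Tc} : Set (MulAut P)) :=
        Subgroup.subset_closure (by simp)
      have mC : Tc ∈ Subgroup.closure ({Ta, Tb, Tc} : Set (MulAut P)) :=
        Subgroup.subset_closure (by simp)
      rcases D.all T hT with h | h | h | h | h | h | h | h <;> rw [h]
      · exact Subgroup.one_mem _
      · exact mA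
      · exact mB
      · exact mC
      · exact Subgroup.mul_mem _ mA mB
      · exact Subgroup.mul_mem _ mA mC
      · exact Subgroup.mul_mem _ mB mC
      · exact Subgroup.mul_mem _ (Subgroup.mul_mem _ mA mB) mC
  · ext S
    simp only [SetLike.mem_coe, Set.mem_ofPred_eq]
    constructor
    · intro hS
      rcases D.all S (hI₀I hS) with h | h | h | h | h | h | h | h
      · exact ⟨Ta, Ta, D.hTa, D.hTa, hTa1, hTa1, D.na, D.na, by rw [h, hsq Ta D.hTa]⟩
      · rw [h] at hS; exact absurd (hdisj _ hS hTa1) D.na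
      · rw [h] at hS; exact absurd (hdisj _ hS hTb1) D.nb
      · rw [h] at hS; exact absurd (hdisj _ hS hTc1) D.nc
      · exact ⟨Ta, Tb, D.hTa, D.hTb, hTa1, hTb1, D.na, D.nb, h⟩
      · exact ⟨Ta, Tc, D.hTa, D.hTc, hTa1, hTc1, D.na, D.nc, h⟩
      · exact ⟨Tb, Tc, D.hTb, D.hTc, hTb1, hTc1, D.nb, D.nc, h⟩
      · exfalso
        rw [h] at hS
        have hc : Tc ∈ I₀ := by
          have e : Tc = (Ta * Tb)⁻¹ * (Ta * Tb * Tc) := by group
          rw [e]; exact I₀.mul_mem (I₀.inv_mem hsab) hS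
        exact D.nc (hdisj _ hc hTc1)
    · rintro ⟨T, T', hT, hT', hT1, hT'1, hTn, hT'n, rfl⟩
      exact hprod T hT T' hT' hT1 hT'1 hTn hT'n

end e8

end Cfsg.Agent.Lib.Helper14
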