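import Mathlib
import Cfsg.Agent.Lib.Helper11.TT56Main

/-!
# S1615, piece POW: a closed set of pairwise non-commuting 3-transpositions has 3-power size
-/

set_option autoImplicit false

namespace Cfsg.Agent.Lib.Helper14.F15

open Cfsg Cfsg.Agent.Lib.Helper11

/-- conjugation by elements of the closure preserves `E` -/
theorem conj_mem_of_closure {G : Type*} [Group G] {D : Set G} (hD : IsThreeTranspositionClass D)
    {E : Set G} (hE : E ⊆ D)
    (hcl : ∀ a ∈ E, ∀ b ∈ E, a * b * a ∈ E) {g : G} (hg : g ∈ Subgroup.closure E) :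
    ∀ e ∈ E, g * e * g⁻¹ ∈ E := by
  induction hg using Subgroup.closure_induction'' with
  | mem x hx =>
    intro e he
    rw [tt_inv hD (hE hx)]
    exact hcl x hx e he
  | inv_mem x hx =>
    intro e he
    rw [inv_inv, tt_inv hD (hE hx)]
    exact hcl x hx e he
  | one => intro e he; simpa using he
  | mul x y hx hy ihx ihy =>
    intro e he
    have := ihx _ (ihy e he)
    simpa [mul_assoc] using this

/-- a criterion for membership in the normalizer of a set -/
theorem mem_setNormalizer_of {L : Type*} [Group L] {T : Set L} {g : L}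
    (h1 : ∀ t ∈ T, g * t * g⁻¹ ∈ T) (h2 : ∀ t ∈ T, g⁻¹ * t * g ∈ T) :
    g ∈ Subgroup.normalizer T := by
  rw [Subgroup.mem_set_normalizer_iff]
  intro h
  constructor
  · exact h1 h
  · intro hh
    have := h2 _ hh
    have e : g⁻¹ * (g * h * g⁻¹) * g = h := by group
    rw [e] at this
    exact this

theorem tt_pow3 {G : Type*} [Group G] [Finite G] {D : Set G} (hD : IsThreeTranspositionClass D)
    {E : Set G} (hE : E ⊆ D)
    (hne : E.Nonempty) (hnc : ∀ a ∈ E, ∀ b ∈ E, Commute a b → a = b)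
    (hcl : ∀ a ∈ E, ∀ b ∈ E, a * b * a ∈ E) : ∃ r : ℕ, E.ncard = 3 ^ r := by
  classical
  obtain ⟨L, hLdef⟩ : ∃ L : Subgroup G, L = Subgroup.closure E := ⟨_, rfl⟩
  have hEL : E ⊆ L := by rw [hLdef]; exact Subgroup.subset_closure
  obtain ⟨E', hE'def⟩ : ∃ E' : Set ↥L, E' = {u : ↥L | (u : G) ∈ E} := ⟨_, rfl⟩
  have hmemE' : ∀ u : ↥L, u ∈ E' ↔ (u : G) ∈ E := by intro u; rw [hE'def]; rfl
  -- `E'` is closed under conjugation
  have hconj : ∀ g : ↥L, ∀ u ∈ E', g * u * g⁻¹ ∈ E' := by
    intro g u hu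
    rw [hmemE'] at hu ⊢
    have hg : (g : G) ∈ Subgroup.closure E := by rw [← hLdef]; exact g.2
    exact conj_mem_of_closure hD hE hcl hg _ hu
  obtain ⟨d0, hd0⟩ := hne
  obtain ⟨d, hddef⟩ : ∃ d : ↥L, d = ⟨d0, hEL hd0⟩ := ⟨_, rfl⟩
  have hdE' : d ∈ E' := by rw [hmemE', hddef]; exact hd0
  have hset : IsThreeTranspositionSet E' := by
    refine ⟨?_, ?_⟩
    · intro u hu
      rw [hmemE'] at hu
      rw [← Subgroup.orderOf_coe]
      exact hD.1.1 _ (hE hu)
    · intro u hu v hv
      rw [hmemE'] at hu hv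
      rcases hD.1.2 _ (hE hu) _ (hE hv) with h | h
      · left
        apply Subtype.ext
        simpa using h
      · right
        apply Subtype.ext
        simpa using h
  have hclass : IsThreeTranspositionClass E' := by
    refine ⟨hset, ⟨d, hdE', ?_⟩, ?_⟩
    · ext u
      show u ∈ E' ↔ IsConj d u
      rw [isConj_iff]
      constructor
      · intro hu
        have hdD : (d : G) ∈ D := hE ((hmemE' d).mp hdE')
        have huD : (u : G) ∈ D := hE ((hmemE' u).mp hu)
        by_cases hc : Commute (d : G) (u : G)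
        · have : (d : G) = u := hnc _ ((hmemE' d).mp hdE') _ ((hmemE' u).mp hu) hc
          refine ⟨1, ?_⟩
          rw [one_mul, inv_one, mul_one]
          exact Subtype.ext this
        · obtain ⟨hbr, -⟩ := tt_braid hD hdD huD hc
          have hz : (d : G) * u * d ∈ E := hcl _ ((hmemE' d).mp hdE') _ ((hmemE' u).mp hu)
          refine ⟨⟨(d : G) * u * d, hEL hz⟩, ?_⟩
          apply Subtype.ext
          show (d : G) * u * d * d * ((d : G) * u * d)⁻¹ = u
          have h1 : (d : G) * d = 1 := tt_sq hD hdD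
          have h2 : (u : G) * u = 1 := tt_sq hD huD
          have h3 : ((d : G) * u * d)⁻¹ = (d : G) * u * d := by
            rw [mul_inv_rev, mul_inv_rev, tt_inv hD hdD, tt_inv hD huD, ← mul_assoc]
          rw [h3]
          calc (d : G) * u * d * d * ((d : G) * u * d)
              = (d : G) * u * ((d : G) * d) * ((d : G) * u * d) := by group
            _ = ((d : G) * u * d) * (u * d) := by rw [h1]; group
            _ = ((u : G) * d * u) * (u * d) := by rw [hbr]
            _ = (u : G) * d * ((u : G) * u) * d := by group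
            _ = (u : G) * ((d : G) * d) := by rw [h2]; group
            _ = u := by rw [h1, mul_one]
      · rintro ⟨g, rfl⟩
        exact hconj g d hdE'
    · subst hE'def
      subst hLdef
      exact Subgroup.closure_closure_coe_preimage
  have hhyp : TT56Hyp ↥L E' := by
    refine ⟨hclass, ?_⟩
    intro a ha b hb hab
    have hab' : Commute (a : G) (b : G) := by
      have := congrArg Subtype.val hab.eq
      exact this
    have : a = b := Subtype.ext (hnc _ ((hmemE' a).mp ha) _ ((hmemE' b).mp hb) hab')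
    rw [this, inv_mul_cancel]
    exact one_mem _
  obtain ⟨P, hP3, hPd, htop⟩ := tt56_main (Nat.card ↥L) ↥L E' rfl hhyp d hdE'
  have hOn : (pCore 2 ↥L).Normal := Cfsg.Agent.S5351.pCore_nrm 2
  haveI : Fact (Nat.Prime 2) := ⟨Nat.prime_two⟩
  haveI : Fact (Nat.Prime 3) := ⟨Nat.prime_three⟩
  have hO2 : IsPGroup 2 ↥(pCore 2 ↥L) := Cfsg.Agent.Lib.Helper31.pCore_isPGroup 2
  -- the 2-core centralizes `E'`
  have hOcent : ∀ q ∈ pCore 2 ↥L, ∀ u ∈ E', q * u * q⁻¹ = u := by
    intro q hq u hu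
    have hu' : q * u * q⁻¹ ∈ E' := hconj q u hu
    have huu : u * u = 1 := tt_sq hclass hu
    have hw : u * (q * u * q⁻¹) ∈ pCore 2 ↥L := by
      have h1 : u * q * u⁻¹ ∈ pCore 2 ↥L := hOn.conj_mem q hq u
      have h2 : u * (q * u * q⁻¹) = (u * q * u⁻¹) * q⁻¹ := by
        rw [tt_inv hclass hu]; group
      rw [h2]
      exact mul_mem h1 (inv_mem hq)
    rcases hclass.1.2 u hu _ hu' with h | h
    · have hc := tt_commute_of_sq hclass hu hu' h
      have hc' : Commute (u : G) ((q * u * q⁻¹ : ↥L) : G) := by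
        have := congrArg Subtype.val hc.eq
        exact this
      have := hnc _ ((hmemE' u).mp hu) _ ((hmemE' _).mp hu') hc'
      exact (Subtype.ext this).symm
    · obtain ⟨k, hk⟩ := hO2 ⟨_, hw⟩
      have hk' : (u * (q * u * q⁻¹)) ^ 2 ^ k = 1 := by
        have := congrArg Subtype.val hk
        simpa using this
      have hd1 : orderOf (u * (q * u * q⁻¹)) ∣ Nat.gcd 3 (2 ^ k) :=
        Nat.dvd_gcd (orderOf_dvd_of_pow_eq_one h) (orderOf_dvd_of_pow_eq_one hk')
      have hg1 : Nat.gcd 3 (2 ^ k) = 1 :=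
        Nat.Coprime.pow_right k (by norm_num : Nat.Coprime 3 2)
      rw [hg1, Nat.dvd_one, orderOf_eq_one_iff] at hd1
      have : q * u * q⁻¹ = u⁻¹ := eq_inv_of_mul_eq_one_right hd1
      rw [this, tt_inv hclass hu]
  -- the orbit of `d` under `P`
  obtain ⟨T, hTdef⟩ : ∃ T : Set ↥L, T = {t | ∃ p ∈ P, t = p * d * p⁻¹} := ⟨_, rfl⟩
  have hmemT : ∀ t : ↥L, t ∈ T ↔ ∃ p ∈ P, t = p * d * p⁻¹ := by intro t; rw [hTdef]; rfl
  have hTE : T ⊆ E' := by
    intro t ht
    obtain ⟨p, -, rfl⟩ := (hmemT t).mp ht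
    exact hconj p d hdE'
  have hdT : d ∈ T := (hmemT d).mpr ⟨1, one_mem _, by group⟩
  have hdinv : d⁻¹ = d := tt_inv hclass hdE'
  have hdN : d ∈ Subgroup.normalizer T := by
    have key : ∀ t ∈ T, d * t * d⁻¹ ∈ T := by
      intro t ht
      obtain ⟨p, hp, rfl⟩ := (hmemT t).mp ht
      refine (hmemT _).mpr ⟨d * p * d⁻¹, hPd p hp, ?_⟩
      group
    refine mem_setNormalizer_of key ?_
    intro t ht
    have := key t ht
    rw [hdinv] at this
    rw [hdinv]
    exact this
  have hPN : P ≤ Subgroup.normalizer T := by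
    intro p' hp'
    refine mem_setNormalizer_of ?_ ?_
    · intro t ht
      obtain ⟨p, hp, rfl⟩ := (hmemT t).mp ht
      refine (hmemT _).mpr ⟨p' * p, mul_mem hp' hp, ?_⟩
      group
    · intro t ht
      obtain ⟨p, hp, rfl⟩ := (hmemT t).mp ht
      refine (hmemT _).mpr ⟨p'⁻¹ * p, mul_mem (inv_mem hp') hp, ?_⟩
      group
  have hON : pCore 2 ↥L ≤ Subgroup.normalizer T := by
    intro q hq
    refine mem_setNormalizer_of ?_ ?_
    · intro t ht
      rw [hOcent q hq t (hTE ht)]
      exact ht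
    · intro t ht
      have := hOcent q⁻¹ (inv_mem hq) t (hTE ht)
      rw [inv_inv] at this
      rw [this]
      exact ht
  have htopN : (⊤ : Subgroup ↥L) ≤ Subgroup.normalizer T := by
    rw [← htop]
    exact sup_le (sup_le (Subgroup.zpowers_le.mpr hdN) hPN) hON
  have hE'T : E' ⊆ T := by
    intro u hu
    obtain ⟨g, hg⟩ := tt_exists_conj hclass hdE' hu
    have hgN : g ∈ Subgroup.normalizer T := htopN (Subgroup.mem_top g)
    rw [Subgroup.mem_set_normalizer_iff] at hgN
    rw [← hg]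
    exact (hgN d).mp hdT
  have hET : E' = T := Set.Subset.antisymm hE'T hTE
  -- counting
  letI : MulAction ↥P ↥L :=
    MulAction.compHom ↥L ((MulAut.conj : ↥L →* MulAut ↥L).comp P.subtype)
  have hsmul : ∀ (p : ↥P) (x : ↥L), p • x = (p : ↥L) * x * (p : ↥L)⁻¹ := fun p x => rfl
  have horb : MulAction.orbit ↥P d = T := by
    ext t
    rw [MulAction.mem_orbit_iff, hmemT]
    constructor
    · rintro ⟨p, rfl⟩
      exact ⟨p, p.2, hsmul p d⟩
    · rintro ⟨p, hp, rfl⟩
      exact ⟨⟨p, hp⟩, hsmul _ d⟩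
  obtain ⟨n, hn⟩ := hP3.card_orbit (α := ↥L) d
  refine ⟨n, ?_⟩
  have h1 : E = Subtype.val '' E' := by
    ext e
    constructor
    · intro he
      exact ⟨⟨e, hEL he⟩, (hmemE' _).mpr he, rfl⟩
    · rintro ⟨u, hu, rfl⟩
      exact (hmemE' u).mp hu
  rw [h1, Set.ncard_image_of_injective _ Subtype.val_injective, hET, ← horb, ← hn]
  exact (Nat.card_coe_set_eq _).symm

end Cfsg.Agent.Lib.Helper14.F15
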