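import Mathlib
import Cfsg.Agent.Lib.Helper4.FCDefs

/-! Project FC (helper4, S4146), piece LEMF (helper14): Lemma F from its four sub-pieces. -/

set_option autoImplicit false

namespace Cfsg.Agent.Lib.Helper4.FC

universe u

/-- LEMF -/
theorem fc_lemf : LFZStmt.{u} → LFXStmt.{u} → LFKZStmt.{u} → LFEndStmt.{u} → LemFStmt.{u} := by
  intro hZ hX hKZ hEnd G _ _ n m A hFour hAn hAab hcop hcs hrel
  haveI : A.Normal := hAn
  obtain ⟨H, hH⟩ := Subgroup.exists_right_complement'_of_coprime hcop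
  have hL : LCtx G n m A H :=
    ⟨hFour, hAn, hAab, hcop, disjoint_iff.mp hH.disjoint, hH.sup_eq_top, hcs, hrel⟩
  obtain ⟨z, hzH, hzc, hzn⟩ := hZ G n m A H hL
  have hK := hKZ G n m A H z hL hzH hzc hzn
  obtain ⟨x, hxH, hxm, hxn⟩ := hX G n m A H hL
  exact hEnd G n m A H x hL hK hxH hxm hxn

end Cfsg.Agent.Lib.Helper4.FC
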