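import Mathlib

/-! Project QB (helper48, S2359), piece CF1 (helper14): the Sylow 2-subgroup of a group whose
involution centralizers are commutative of order `N ≡ 4 mod 8`. -/

set_option autoImplicit false

namespace Cfsg.Agent.Lib.Helper48.QB

-- QB-CF1
theorem cf_sylow {C : Type*} [Group C] [Finite C] (N : ℕ) (hN : N % 8 = 4)
    (hE : ∀ S : Sylow 2 C, ∀ x ∈ S, x * x = 1)
    (h2 : ∃ v : C, v ≠ 1 ∧ v * v = 1)
    (hD : ∀ v : C, v ≠ 1 → v * v = 1 → Nat.card (Subgroup.centralizer {v}) = N ∧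
      ∀ a ∈ Subgroup.centralizer {v}, ∀ b ∈ Subgroup.centralizer {v}, a * b = b * a) :
    ∃ V : Sylow 2 C, Nat.card V = 4 ∧
      ∀ v ∈ V, v ≠ 1 →
        Subgroup.centralizer {v} = Subgroup.centralizer ((V : Subgroup C) : Set C) := by
  haveI : Fact (Nat.Prime 2) := ⟨Nat.prime_two⟩
  obtain ⟨v₀, hv₀1, hv₀2⟩ := h2
  have ho : orderOf v₀ = 2 := orderOf_eq_prime (by rw [pow_two]; exact hv₀2) hv₀1
  have hp2 : IsPGroup 2 (Subgroup.zpowers v₀) :=
    IsPGroup.of_card (n := 1) (by rw [Nat.card_zpowers, ho, pow_one])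
  obtain ⟨V, hV⟩ := IsPGroup.exists_le_sylow hp2
  have hv₀V : v₀ ∈ V := hV (Subgroup.mem_zpowers v₀)
  have hVab : ∀ a ∈ V, ∀ b ∈ V, a * b = b * a := by
    intro a ha b hb
    have h1 := hE V a ha
    have h2' := hE V b hb
    have h3 := hE V (a * b) (mul_mem ha hb)
    have ia : a⁻¹ = a := inv_eq_of_mul_eq_one_right h1
    have ib : b⁻¹ = b := inv_eq_of_mul_eq_one_right h2'
    have iab : (a * b)⁻¹ = a * b := inv_eq_of_mul_eq_one_right h3
    rw [mul_inv_rev, ia, ib] at iab
    exact iab.symm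
  have hVle : ∀ v ∈ V, (V : Subgroup C) ≤ Subgroup.centralizer {v} := by
    intro v hv x hx
    rw [Subgroup.mem_centralizer_iff]
    intro h hh
    rw [Set.mem_singleton_iff] at hh
    rw [hh]
    exact hVab v hv x hx
  refine ⟨V, ?_, ?_⟩
  · have hVN : Nat.card V ∣ N := by
      have h1 := Subgroup.card_dvd_of_le (hVle v₀ hv₀V)
      rw [(hD v₀ hv₀1 hv₀2).1] at h1
      exact h1
    have hNC : N ∣ Nat.card C := by
      rw [← (hD v₀ hv₀1 hv₀2).1]
      exact Subgroup.card_subgroup_dvd_card _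
    have hcard := Sylow.card_eq_multiplicity V
    have h4N : 4 ∣ N := by omega
    have h8N : ¬ 8 ∣ N := by omega
    have hC0 : Nat.card C ≠ 0 := Nat.card_pos.ne'
    have ha2 : 2 ≤ (Nat.card C).factorization 2 := by
      apply (Nat.Prime.pow_dvd_iff_le_factorization Nat.prime_two hC0).mp
      exact h4N.trans hNC
    have ha3 : (Nat.card C).factorization 2 < 3 := by
      by_contra hcon
      push Not at hcon
      apply h8N
      have h1 : (2 : ℕ) ^ 3 ∣ 2 ^ (Nat.card C).factorization 2 := pow_dvd_pow 2 hcon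
      rw [← hcard] at h1
      exact h1.trans hVN
    have ha : (Nat.card C).factorization 2 = 2 := by omega
    rw [hcard, ha]
    norm_num
  · intro v hv hv1
    have hvv := hE V v hv
    apply le_antisymm
    · intro x hx
      rw [Subgroup.mem_centralizer_iff]
      intro h hh
      exact (hD v hv1 hvv).2 h (hVle v hv hh) x hx
    · exact Subgroup.centralizer_le (Set.singleton_subset_iff.mpr hv)

end Cfsg.Agent.Lib.Helper48.QB
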