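import Mathlib

/-! Project RL (helper48, S2343), piece RL-DETPERM (helper14): the determinant of a linear map
permuting a basis is the sign of the permutation. -/

set_option autoImplicit false

namespace Cfsg.Agent.Lib.Helper48.RL

theorem det_of_perm_basis {V : Type*} [AddCommGroup V] [Module ℂ V] {ι : Type*} [Fintype ι]
    [DecidableEq ι] (b : Module.Basis ι ℂ V) (f : V →ₗ[ℂ] V) (π : Equiv.Perm ι)
    (hf : ∀ i, f (b i) = b (π i)) :
    LinearMap.det f = (((Equiv.Perm.sign π : ℤˣ) : ℤ) : ℂ) := by
  rw [← LinearMap.det_toMatrix b f]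
  have hM : LinearMap.toMatrix b b f = (π⁻¹ : Equiv.Perm ι).permMatrix ℂ := by
    ext i j
    rw [LinearMap.toMatrix_apply, hf, Module.Basis.repr_self, Equiv.Perm.permMatrix,
      PEquiv.toMatrix_apply, Finsupp.single_apply]
    have h1 : (j ∈ (Equiv.toPEquiv (π⁻¹ : Equiv.Perm ι)) i) ↔ π j = i := by
      rw [Equiv.toPEquiv_apply, Option.mem_def, Option.some_inj]
      constructor
      · intro h
        rw [← h]
        simp
      · intro h
        rw [← h]
        simp
    by_cases h : π j = i
    · rw [if_pos h, if_pos (h1.mpr h)]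
    · rw [if_neg h, if_neg (fun h' => h (h1.mp h'))]
  rw [hM, Matrix.det_permutation, Equiv.Perm.sign_inv]

end Cfsg.Agent.Lib.Helper48.RL
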