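import Mathlib
import Cfsg.Prelude.Def_PLocal
import Cfsg.Prelude.Def_Local
import Cfsg.Agent.Lib.Helper14.Sf2
import Cfsg.Agent.Lib.Helper14.Holo
import Cfsg.Agent.Lib.Helper14.VOmega
import Cfsg.Agent.Lib.Helper2.JZ
import Cfsg.Agent.Lib.Helper40.HallHigman
import Cfsg.Agent.S1349

set_option autoImplicit false
set_option linter.unusedSectionVars false

/-!
# Solvable groups with `F(X) = O_2(X)`: Thompson factorization or a product of `S_3`'s (helper14)
-/

universe u

namespace Cfsg.Agent.Lib.Helper14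

open Cfsg Cfsg.Agent.Lib.Helper2
open scoped commutatorElement

section sf3

variable {G : Type*} [Group G]

/-- An element of odd order normalizing an abelian `2`-group `V` and centralizing its
involutions centralizes `V`. -/
theorem cent_of_cent_omega (V : Subgroup G) (hVc : ∀ x ∈ V, ∀ y ∈ V, x * y = y * x)
    (hV2 : ∀ v ∈ V, ∃ k : ℕ, v ^ 2 ^ k = 1) (h : G) (hn : ∀ v ∈ V, h * v * h⁻¹ ∈ V)
    {m : ℕ} (hm : Odd m) (hhm : h ^ m = 1)
    (hc : ∀ v ∈ V, v ^ 2 = 1 → h * v = v * h) : ∀ v ∈ V, h * v = v * h := by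
  have key : ∀ k : ℕ, ∀ v ∈ V, v ^ 2 ^ k = 1 → MulAut.conj h v = v := by
    intro k
    induction k with
    | zero =>
      intro v _ hv
      rw [pow_zero, pow_one] at hv
      rw [hv, map_one]
    | succ k ih =>
      intro v hv hvk
      have hw : MulAut.conj h (v ^ 2) = v ^ 2 := by
        apply ih _ (V.pow_mem hv 2)
        rw [← pow_mul, ← pow_succ']; exact hvk
      have hcv : MulAut.conj h v ∈ V := by
        rw [MulAut.conj_apply]; exact hn v hv
      obtain ⟨u, hu⟩ : ∃ u, u = MulAut.conj h v * v⁻¹ := ⟨_, rfl⟩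
      have huV : u ∈ V := by rw [hu]; exact V.mul_mem hcv (V.inv_mem hv)
      have hu2 : u ^ 2 = 1 := by
        have hcm : Commute (MulAut.conj h v) v⁻¹ := hVc _ hcv _ (V.inv_mem hv)
        rw [hu, hcm.mul_pow, ← map_pow, hw, inv_pow, mul_inv_cancel]
      have hcu : MulAut.conj h u = u := by
        rw [MulAut.conj_apply, hc u huV hu2, mul_inv_cancel_right]
      have hcv' : MulAut.conj h v = u * v := by rw [hu, inv_mul_cancel_right]
      have hj : ∀ j : ℕ, (MulAut.conj h ^ j) v = u ^ j * v := by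
        intro j
        induction j with
        | zero => simp
        | succ j ihj =>
          rw [pow_succ', MulAut.mul_apply, ihj, map_mul, map_pow, hcu, hcv', pow_succ, mul_assoc]
      have h1 := hj m
      rw [← map_pow, hhm, map_one, MulAut.one_apply] at h1
      have hum : u ^ m = 1 := by
        have h2 := congrArg (fun z => z * v⁻¹) h1
        simp only [mul_inv_cancel, mul_inv_cancel_right] at h2
        exact h2.symm
      have hu1 : u = 1 := by
        obtain ⟨t, rfl⟩ := hm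
        rw [pow_succ, pow_mul, hu2, one_pow, one_mul] at hum
        exact hum
      rw [hcv', hu1, one_mul]
  intro v hv
  obtain ⟨k, hk⟩ := hV2 v hv
  have h1 := key k v hv hk
  rw [MulAut.conj_apply] at h1
  calc h * v = (h * v * h⁻¹) * h := by group
    _ = v * h := by rw [h1]

/-- A normal subgroup whose image modulo `C` is a `p`-group centralizes `Z(T)` when `C` does. -/
theorem le_centralizer_center_sylow [Finite G] {p : ℕ} [Fact p.Prime] (T : Sylow p G)
    (C N : Subgroup G) [C.Normal] [N.Normal]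
    (hC : C ≤ Subgroup.centralizer
      (((T : Subgroup G) ⊓ Subgroup.centralizer ((T : Subgroup G) : Set G) : Subgroup G) : Set G))
    (hN : ∀ g ∈ N, ∃ k : ℕ, g ^ p ^ k ∈ C) :
    N ≤ Subgroup.centralizer
      (((T : Subgroup G) ⊓ Subgroup.centralizer ((T : Subgroup G) : Set G) : Subgroup G) : Set G) := by
  have hNp : IsPGroup p (N.map (QuotientGroup.mk' C)) := by
    rintro ⟨_, g, hg, rfl⟩
    obtain ⟨k, hk⟩ := hN g hg
    refine ⟨k, ?_⟩
    apply Subtype.ext
    show (QuotientGroup.mk' C g) ^ p ^ k = 1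
    rw [← map_pow]
    exact (QuotientGroup.eq_one_iff _).mpr hk
  intro g hg
  obtain ⟨s, hs, c, hc, rfl⟩ := exists_sylow_mul_of_map_isPGroup C N hNp T g hg
  rw [Subgroup.mem_centralizer_iff]
  intro z hz
  have h1 : s * z = z * s := Subgroup.mem_centralizer_iff.mp (Subgroup.mem_inf.mp hz).2 s hs
  have h2 : z * c = c * z := Subgroup.mem_centralizer_iff.mp (hC hc) z hz
  rw [← mul_assoc, ← h1, mul_assoc, h2, mul_assoc]

theorem JJ_eq_of_le [Finite G] {R P : Subgroup G} (hRP : R ≤ P) (hJR : JJ P ≤ R) :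
    JJ R = JJ P := by
  obtain ⟨A₀, hA₀⟩ := exists_maxAb P
  have hA₀R : A₀ ≤ R := (le_JJ hA₀).trans hJR
  have hset : {A | MaxAb R A} = {A | MaxAb P A} := by
    ext A
    constructor
    · intro hA
      refine ⟨hA.1.trans hRP, hA.2.1, fun B hB hBc => ?_⟩
      exact (hA₀.2.2 B hB hBc).trans (hA.2.2 A₀ hA₀R hA₀.2.1)
    · intro hA
      exact ⟨(le_JJ hA).trans hJR, hA.2.1, fun B hB hBc => hA.2.2 B (hB.trans hRP) hBc⟩
  unfold JJ
  rw [hset]

/-- an abelian subgroup of largest order in `P` maximizes `|B| |C_W(B)|` over its subgroups,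
for every abelian `W ≤ P`. -/
theorem maxab_ff [Finite G] {P W A B : Subgroup G} (hWc : ∀ x ∈ W, ∀ y ∈ W, x * y = y * x)
    (hWP : W ≤ P) (hA : MaxAb P A) (hBA : B ≤ A) : ff W B ≤ ff W A := by
  have hAc := Cfsg.Agent.Lib.Helper59.mul_comm_of_isMulCommutative hA.2.1
  have hBc : ∀ x ∈ B, ∀ y ∈ B, x * y = y * x := fun x hx y hy => hAc x (hBA hx) y (hBA hy)
  obtain ⟨D, hD⟩ : ∃ D : Subgroup G, D = W ⊓ Subgroup.centralizer (B : Set G) := ⟨_, rfl⟩
  have hDW : D ≤ W := hD ▸ inf_le_left
  have hDB : ∀ d ∈ D, ∀ b ∈ B, b * d = d * b := by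
    intro d hd b hb
    rw [hD] at hd
    exact Subgroup.mem_centralizer_iff.mp (Subgroup.mem_inf.mp hd).2 b hb
  have hBD : ∀ b ∈ B, ∀ d ∈ D, b * d = d * b := fun b hb d hd => hDB d hd b hb
  have hsupc : ∀ x ∈ B ⊔ D, ∀ y ∈ B ⊔ D, x * y = y * x := by
    intro x hx y hy
    obtain ⟨b₁, hb₁, d₁, hd₁, rfl⟩ := mem_sup_of_comm hBD hx
    obtain ⟨b₂, hb₂, d₂, hd₂, rfl⟩ := mem_sup_of_comm hBD hy
    have e1 := hBc b₁ hb₁ b₂ hb₂
    have e2 := hWc d₁ (hDW hd₁) d₂ (hDW hd₂)
    have e3 := hBD b₂ hb₂ d₁ hd₁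
    have e4 := hBD b₁ hb₁ d₂ hd₂
    calc b₁ * d₁ * (b₂ * d₂) = b₁ * (d₁ * b₂) * d₂ := by group
      _ = b₁ * (b₂ * d₁) * d₂ := by rw [e3]
      _ = (b₁ * b₂) * (d₁ * d₂) := by group
      _ = (b₂ * b₁) * (d₂ * d₁) := by rw [e1, e2]
      _ = b₂ * (b₁ * d₂) * d₁ := by group
      _ = b₂ * (d₂ * b₁) * d₁ := by rw [e4]
      _ = b₂ * d₂ * (b₁ * d₁) := by group
  have hsupP : B ⊔ D ≤ P := sup_le (hBA.trans hA.1) (hDW.trans hWP)
  have hcard1 : Nat.card ↥(B ⊔ D) ≤ Nat.card A :=
    hA.2.2 _ hsupP (Cfsg.Agent.Lib.Helper59.isMulCommutative_of_mul_comm hsupc)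
  have hDcent : D ≤ Subgroup.centralizer (B : Set G) := hD ▸ inf_le_right
  have hnorm : D ≤ Subgroup.normalizer (B : Set G) :=
    hDcent.trans (Subgroup.centralizer_le_normalizer _)
  have hprod := Cfsg.Agent.Lib.Helper59.card_sup_mul_card_inf B D hnorm
  have hinf : B ⊓ D ≤ W ⊓ Subgroup.centralizer (A : Set G) := by
    intro x hx
    obtain ⟨hxB, hxD⟩ := Subgroup.mem_inf.mp hx
    refine Subgroup.mem_inf.mpr ⟨hDW hxD, ?_⟩
    rw [Subgroup.mem_centralizer_iff]
    intro a ha
    exact hAc a ha x (hBA hxB)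
  have hcard2 : Nat.card ↥(B ⊓ D) ≤ Nat.card ↥(W ⊓ Subgroup.centralizer (A : Set G)) :=
    Subgroup.card_le_of_le hinf
  unfold ff
  rw [← hD, ← hprod]
  exact Nat.mul_le_mul hcard1 hcard2

/-- The intersection of a Sylow subgroup with a normal subgroup is a Sylow subgroup of it
(after `exists_sylow_inf_normal` of helper87). -/
theorem exists_sylow_inf_normal_sf [Finite G] {p : ℕ} [Fact p.Prime] (R : Sylow p G)
    (M : Subgroup G) [hM : M.Normal] :
    ∃ R₁ : Sylow p ↥M, (R₁ : Subgroup ↥M).map M.subtype = (R : Subgroup G) ⊓ M := by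
  have hp : IsPGroup p (((R : Subgroup G) ⊓ M).subgroupOf M) :=
    (R.isPGroup'.to_le inf_le_left).comap_subtype
  obtain ⟨R₁, hR₁⟩ := hp.exists_le_sylow
  refine ⟨R₁, ?_⟩
  have hle : (R : Subgroup G) ⊓ M ≤ (R₁ : Subgroup ↥M).map M.subtype := by
    intro x hx
    exact ⟨⟨x, hx.2⟩, hR₁ (Subgroup.mem_subgroupOf.mpr hx), rfl⟩
  symm
  apply Subgroup.eq_of_le_of_card_ge hle
  have hB : IsPGroup p ((R₁ : Subgroup ↥M).map M.subtype) := R₁.isPGroup'.map _
  obtain ⟨R₂, hR₂⟩ := hB.exists_le_sylow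
  obtain ⟨g, hg⟩ := MulAction.exists_smul_eq G R₂ R
  have h1 : ((R₁ : Subgroup ↥M).map M.subtype).map (MulAut.conj g).toMonoidHom ≤
      (R : Subgroup G) ⊓ M := by
    rintro _ ⟨b, hb, rfl⟩
    refine Subgroup.mem_inf.mpr ⟨?_, ?_⟩
    · have h2 : ((g • R₂ : Sylow p G) : Subgroup G) = (R : Subgroup G) := by rw [hg]
      rw [← h2, sylow_smul_coe_eq_map]
      exact Subgroup.mem_map_of_mem _ (hR₂ hb)
    · obtain ⟨b', -, rfl⟩ := hb
      exact hM.conj_mem _ b'.2 g
  have c2 : Nat.card (((R₁ : Subgroup ↥M).map M.subtype).map (MulAut.conj g).toMonoidHom) =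
      Nat.card ((R₁ : Subgroup ↥M).map M.subtype) :=
    Subgroup.card_map_of_injective (MulAut.conj g).injective
  have c3 := Subgroup.card_le_of_le h1
  omega

end sf3

section xmain

variable {X : Type u} [Group X] [Finite X]

theorem sf_xmain_aux [Group.IsSolvable X] (hF : fittingSubgroup X = pCore 2 X) (T : Sylow 2 X)
    (Z Y C : Subgroup X) [C.Normal]
    (hZ : Z = (T : Subgroup X) ⊓ Subgroup.centralizer ((T : Subgroup X) : Set X))
    (hY : Y = Subgroup.normalClosure (JJ (T : Subgroup X) : Set X))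
    (hC : C = (Subgroup.centralizer (Z : Set X)).normalCore) :
    (C ⊔ Y ⊔ Subgroup.normalizer (JJ (T : Subgroup X) : Set X) = ⊤) ∧
    (Y ≤ C ∨ ∃ n : ℕ, 1 ≤ n ∧
      Nonempty (↥Y ⧸ C.subgroupOf Y ≃* (Fin n → Equiv.Perm (Fin 3)))) := by
  have : Fact (Nat.Prime 2) := ⟨Nat.prime_two⟩
  obtain ⟨J, hJ⟩ : ∃ J : Subgroup X, J = JJ (T : Subgroup X) := ⟨_, rfl⟩
  rw [← hJ] at hY ⊢
  have hJT : J ≤ T := hJ ▸ JJ_le _
  have hYn : Y.Normal := hY ▸ Subgroup.normalClosure_normal
  have hJY : J ≤ Y := hY ▸ Subgroup.le_normalClosure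
  -- Part 1: the Frattini argument
  have part1 : C ⊔ Y ⊔ Subgroup.normalizer (J : Set X) = ⊤ := by
    obtain ⟨R₁, hR₁⟩ := exists_sylow_inf_normal_sf T Y
    have h1 := Sylow.normalizer_sup_eq_top R₁
    rw [hR₁] at h1
    have h3 : JJ ((T : Subgroup X) ⊓ Y) = J := by
      rw [hJ]
      exact JJ_eq_of_le inf_le_left (le_inf (hJ ▸ hJT) (hJ ▸ hJY))
    have h4 : Subgroup.normalizer (((T : Subgroup X) ⊓ Y : Subgroup X) : Set X) ≤
        Subgroup.normalizer (J : Set X) := by
      intro g hg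
      rw [← h3]
      exact mem_normalizer_JJ hg
    rw [eq_top_iff, ← h1]
    exact sup_le (h4.trans le_sup_right) (le_sup_right.trans le_sup_left)
  refine ⟨part1, ?_⟩
  -- Q = O_2(X) is self-centralizing
  have hQn : (pCore 2 X).Normal := Cfsg.Agent.Lib.Helper40.pCore_normal' 2
  have hQT : pCore 2 X ≤ T := pCore_le_sylow T
  have hcQ : Subgroup.centralizer (pCore 2 X : Set X) ≤ pCore 2 X := by
    have h1 := Cfsg.Agent.S1349.fitting_facts (L := X) inferInstance
    rwa [hF] at h1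
  have hZQ : Z ≤ pCore 2 X ⊓ Subgroup.centralizer (pCore 2 X : Set X) := by
    intro z hz
    rw [hZ] at hz
    have hzc : z ∈ Subgroup.centralizer (pCore 2 X : Set X) :=
      Subgroup.centralizer_le hQT (Subgroup.mem_inf.mp hz).2
    exact Subgroup.mem_inf.mpr ⟨hcQ hzc, hzc⟩
  -- V = the normal closure of Z
  obtain ⟨V, hVdef⟩ : ∃ V : Subgroup X, V = Subgroup.normalClosure (Z : Set X) := ⟨_, rfl⟩
  have hVn : V.Normal := hVdef ▸ Subgroup.normalClosure_normal
  have hZV : Z ≤ V := hVdef ▸ Subgroup.le_normalClosure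
  have hVQ : V ≤ pCore 2 X ⊓ Subgroup.centralizer (pCore 2 X : Set X) :=
    hVdef ▸ Subgroup.normalClosure_le_normal hZQ
  have hVc : ∀ x ∈ V, ∀ y ∈ V, x * y = y * x :=
    fun x hx y hy => center_comm (pCore 2 X) x (hVQ hx) y (hVQ hy)
  have hV2 : IsPGroup 2 V := (pCore_isPGroup (p := 2) (G := X)).to_le (hVQ.trans inf_le_left)
  -- C = C_X(V)
  have hCV : C = Subgroup.centralizer (V : Set X) := by
    apply le_antisymm
    · have h1 : Z ≤ Subgroup.centralizer (C : Set X) := by
        rw [Subgroup.le_centralizer_iff, hC]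
        exact Subgroup.normalCore_le _
      have h2 : V ≤ Subgroup.centralizer (C : Set X) :=
        hVdef ▸ Subgroup.normalClosure_le_normal h1
      exact Subgroup.le_centralizer_iff.mp h2
    · rw [hC]
      exact Subgroup.normal_le_normalCore.mpr (Subgroup.centralizer_le hZV)
  have hCZ : C ≤ Subgroup.centralizer
      (((T : Subgroup X) ⊓ Subgroup.centralizer ((T : Subgroup X) : Set X) : Subgroup X) : Set X) := by
    rw [hC, ← hZ]
    exact Subgroup.normalCore_le _
  have hleC : ∀ N : Subgroup X, N.Normal → (∀ g ∈ N, ∃ k : ℕ, g ^ 2 ^ k ∈ C) → N ≤ C := by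
    intro N hN hpow
    have hle := le_centralizer_center_sylow T C N hCZ hpow
    rw [← hZ] at hle
    rw [hC]
    exact Subgroup.normal_le_normalCore.mpr hle
  -- W = Ω₁(V)
  obtain ⟨W, hWdef⟩ : ∃ W : Subgroup X, W = omegaOne 2 V := ⟨_, rfl⟩
  have hWV : W ≤ V := hWdef ▸ omegaOne_le V
  have hWea : IsElementaryAbelian 2 W := hWdef ▸ ea_omegaOne_of_comm hVc
  have hWn : W.Normal := by
    constructor
    intro n hn g
    have h1 : (omegaOne 2 V).map (MulAut.conj g).toMonoidHom ≤ omegaOne 2 V := by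
      refine (omegaOne_map_le _ _).trans (omegaOne_mono ?_)
      rintro _ ⟨v, hv, rfl⟩
      exact hVn.conj_mem v hv g
    rw [hWdef] at hn ⊢
    exact h1 (Subgroup.mem_map_of_mem (MulAut.conj g).toMonoidHom hn)
  -- C_X(W) = C
  have hCW : Subgroup.centralizer (W : Set X) = C := by
    apply le_antisymm
    · apply hleC _ inferInstance
      intro g hg
      obtain ⟨k, m, hm, hkm⟩ := Nat.exists_eq_two_pow_mul_odd (orderOf_pos g).ne'
      refine ⟨k, ?_⟩
      rw [hCV, Subgroup.mem_centralizer_iff]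
      intro v hv
      symm
      refine cent_of_cent_omega V hVc ?_ (g ^ 2 ^ k) ?_ hm ?_ ?_ v hv
      · intro v hv
        obtain ⟨j, hj⟩ := hV2 ⟨v, hv⟩
        exact ⟨j, by simpa using congrArg Subtype.val hj⟩
      · intro v hv
        exact hVn.conj_mem v hv _
      · rw [← pow_mul, ← hkm]
        exact pow_orderOf_eq_one g
      · intro v hv hv2
        have hvW : v ∈ W := hWdef ▸ mem_omegaOne_of_mem hv hv2
        exact (Subgroup.mem_centralizer_iff.mp
          ((Subgroup.centralizer (W : Set X)).pow_mem hg (2 ^ k)) v hvW).symm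
    · rw [hCV]
      exact Subgroup.centralizer_le hWV
  -- O_2(X / C_X(W)) = 1
  have hO : pCore 2 (X ⧸ Subgroup.centralizer (W : Set X)) = ⊥ := by
    rw [eq_bot_iff]
    obtain ⟨P, hP⟩ : ∃ P : Subgroup X, P = (pCore 2 (X ⧸ Subgroup.centralizer (W : Set X))).comap
        (QuotientGroup.mk' (Subgroup.centralizer (W : Set X))) := ⟨_, rfl⟩
    have hPn : P.Normal := by
      have := Cfsg.Agent.Lib.Helper40.pCore_normal' (S := X ⧸ Subgroup.centralizer (W : Set X)) 2
      rw [hP]
      exact Subgroup.Normal.comap this _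
    have hpow : ∀ g ∈ P, ∃ k : ℕ, g ^ 2 ^ k ∈ C := by
      intro g hg
      rw [hP, Subgroup.mem_comap] at hg
      obtain ⟨k, hk⟩ := (pCore_isPGroup (p := 2) (G := X ⧸ Subgroup.centralizer (W : Set X)))
        ⟨_, hg⟩
      refine ⟨k, ?_⟩
      have hk' : (QuotientGroup.mk' (Subgroup.centralizer (W : Set X)) g) ^ 2 ^ k = 1 := by
        simpa using congrArg Subtype.val hk
      rw [← map_pow, QuotientGroup.mk'_apply, QuotientGroup.eq_one_iff] at hk'
      rw [← hCW]
      exact hk'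
    have hPC : P ≤ Subgroup.centralizer (W : Set X) := by
      rw [hCW]
      exact hleC P hPn hpow
    intro y hy
    obtain ⟨g, rfl⟩ := QuotientGroup.mk'_surjective _ y
    have hgP : g ∈ P := by rw [hP]; exact hy
    rw [Subgroup.mem_bot]
    exact (QuotientGroup.eq_one_iff g).mpr (hPC hgP)
  -- the action in the holomorph of W
  have hSV : (holoHom W).range ≤ Subgroup.normalizer (holoV W : Set (Holo W)) := by
    rw [Subgroup.normalizer_eq_top_iff.mpr (holoV_normal W)]
    exact le_top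
  have hsolvS : Group.IsSolvable ↥(holoHom W).range :=
    Group.isSolvable_of_surjective (holoHom W).rangeRestrict_surjective
  have hcoreS : pCore 2 ↥(holoHom W).range = ⊥ := by
    let e : X ⧸ Subgroup.centralizer (W : Set X) ≃* ↥(holoHom W).range :=
      (QuotientGroup.quotientMulEquivOfEq (holoHom_ker W).symm).trans
        (QuotientGroup.quotientKerEquivRange (holoHom W))
    rw [← Cfsg.Agent.Lib.Helper31.pCore_map 2 e, hO, Subgroup.map_bot]
  have hSY : (holoHom W).range ≤
      Subgroup.normalizer ((Y.map (holoHom W) : Subgroup (Holo W)) : Set (Holo W)) := by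
    rintro _ ⟨x, rfl⟩
    apply Cfsg.Agent.Lib.Helper59.conj_mem_imp_mem_normalizer
    rintro _ ⟨y, hy, rfl⟩
    refine ⟨x * y * x⁻¹, hYn.conj_mem y hy x, ?_⟩
    rw [map_mul, map_mul, map_inv]
  -- the family of conjugates of the abelian subgroups of T of largest order
  obtain ⟨I, hI⟩ : ∃ I : Set (Subgroup X), I = {A : Subgroup X | ∃ x : X, ∃ A₀ : Subgroup X,
      MaxAb (T : Subgroup X) A₀ ∧ A = A₀.map (MulAut.conj x).toMonoidHom} := ⟨_, rfl⟩
  have hYsup : Y = ⨆ i : I, (i : Subgroup X) := by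
    apply le_antisymm
    · have hn : (⨆ i : I, (i : Subgroup X)).Normal := by
        constructor
        intro n hn g
        have h1 : (⨆ i : I, (i : Subgroup X)).map (MulAut.conj g).toMonoidHom ≤
            ⨆ i : I, (i : Subgroup X) := by
          rw [Subgroup.map_iSup]
          apply iSup_le
          rintro ⟨A, hA⟩
          have hA' := hA
          rw [hI] at hA'
          obtain ⟨x, A₀, hA₀, rfl⟩ := hA'
          have hmem : (A₀.map (MulAut.conj x).toMonoidHom).map (MulAut.conj g).toMonoidHom =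
              A₀.map (MulAut.conj (g * x)).toMonoidHom := by
            rw [Subgroup.map_map]
            congr 1
            ext y
            simp [mul_assoc]
          have hmemI : A₀.map (MulAut.conj (g * x)).toMonoidHom ∈ I := by
            rw [hI]; exact ⟨g * x, A₀, hA₀, rfl⟩
          show (A₀.map (MulAut.conj x).toMonoidHom).map (MulAut.conj g).toMonoidHom ≤ _
          rw [hmem]
          exact le_iSup (fun i : I => (i : Subgroup X)) ⟨_, hmemI⟩
        exact h1 (Subgroup.mem_map_of_mem (MulAut.conj g).toMonoidHom hn)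
      rw [hY]
      apply Subgroup.normalClosure_le_normal
      have hJle : J ≤ ⨆ i : I, (i : Subgroup X) := by
        rw [hJ]
        apply sSup_le
        intro A₀ hA₀
        have h1 : A₀ = A₀.map (MulAut.conj (1 : X)).toMonoidHom := by
          rw [map_one]
          exact (Subgroup.map_id A₀).symm
        have hmemI : A₀ ∈ I := by
          rw [hI]; exact ⟨1, A₀, hA₀, h1⟩
        exact le_iSup (fun i : I => (i : Subgroup X)) ⟨A₀, hmemI⟩
      exact hJle
    · apply iSup_le
      rintro ⟨A, hA⟩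
      rw [hI] at hA
      obtain ⟨x, A₀, hA₀, rfl⟩ := hA
      rintro _ ⟨a, ha, rfl⟩
      exact hYn.conj_mem a (hJY (hJ ▸ le_JJ hA₀ ha)) x
  have hWT : W ≤ T := (hWV.trans hVQ).trans (inf_le_left.trans hQT)
  have hWc := ea_comm hWea
  have hgbo : ∀ i : I, IsGbo (holoV W) ((i : Subgroup X).map (holoHom W)) := by
    rintro ⟨A, hA⟩
    rw [hI] at hA
    obtain ⟨x, A₀, hA₀, hAdef⟩ := hA
    show IsGbo (holoV W) (A.map (holoHom W))
    have hAmax : MaxAb ((T : Subgroup X).map (MulAut.conj x).toMonoidHom) A := by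
      rw [hAdef]
      exact maxAb_map _ (fun y _ hy => (MulAut.conj x).injective (by simpa using hy)) hA₀
    have hWP : W ≤ (T : Subgroup X).map (MulAut.conj x).toMonoidHom := by
      intro w hw
      refine ⟨x⁻¹ * w * x, hWT ?_, ?_⟩
      · have h1 := hWn.conj_mem w hw x⁻¹
        simpa using h1
      · show x * (x⁻¹ * w * x) * x⁻¹ = w
        group
    have hAc := Cfsg.Agent.Lib.Helper59.mul_comm_of_isMulCommutative hAmax.2.1
    have hA2 : IsPGroup 2 A := (T.isPGroup'.map _).to_le hAmax.1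
    refine ⟨hA2.map (holoHom W), ?_, ?_⟩
    · rintro _ ⟨a, ha, rfl⟩ _ ⟨b, hb, rfl⟩
      rw [← map_mul, ← map_mul, hAc a ha b hb]
    · intro B' hB'
      obtain ⟨B, hBdef⟩ : ∃ B : Subgroup X, B = A ⊓ B'.comap (holoHom W) := ⟨_, rfl⟩
      have hBA : B ≤ A := hBdef ▸ inf_le_left
      have hBmap : B.map (holoHom W) = B' := by
        apply le_antisymm
        · rw [Subgroup.map_le_iff_le_comap, hBdef]
          exact inf_le_right
        · intro y hy
          obtain ⟨a, ha, rfl⟩ := hB' hy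
          exact ⟨a, hBdef ▸ Subgroup.mem_inf.mpr ⟨ha, hy⟩, rfl⟩
      have hBC : B ⊓ Subgroup.centralizer (W : Set X) = A ⊓ Subgroup.centralizer (W : Set X) := by
        apply le_antisymm (inf_le_inf_right _ hBA)
        refine le_inf ?_ inf_le_right
        intro y hy
        rw [hBdef]
        refine Subgroup.mem_inf.mpr ⟨(Subgroup.mem_inf.mp hy).1, ?_⟩
        have hy2 : y ∈ (holoHom W).ker := by
          rw [holoHom_ker]; exact (Subgroup.mem_inf.mp hy).2
        rw [Subgroup.mem_comap, MonoidHom.mem_ker.mp hy2]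
        exact one_mem _
      have h1 := holo_card_map W B
      have h2 := holo_card_map W A
      have h3 : ff W B ≤ ff W A := maxab_ff hWc hWP hAmax hBA
      rw [hBC] at h1
      rw [← hBmap]
      unfold ff at h3 ⊢
      rw [holo_cv_card, holo_cv_card]
      have hpos : 0 < Nat.card ↥(A ⊓ Subgroup.centralizer (W : Set X)) := Nat.card_pos
      apply Nat.le_of_mul_le_mul_right _ hpos
      calc Nat.card ↥(B.map (holoHom W)) * Nat.card ↥(W ⊓ Subgroup.centralizer (B : Set X)) *
            Nat.card ↥(A ⊓ Subgroup.centralizer (W : Set X))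
          = Nat.card B * Nat.card ↥(W ⊓ Subgroup.centralizer (B : Set X)) := by rw [← h1]; ring
        _ ≤ Nat.card A * Nat.card ↥(W ⊓ Subgroup.centralizer (A : Set X)) := h3
        _ = Nat.card ↥(A.map (holoHom W)) * Nat.card ↥(W ⊓ Subgroup.centralizer (A : Set X)) *
            Nat.card ↥(A ⊓ Subgroup.centralizer (W : Set X)) := by rw [← h2]; ring
  have hmain := sf_main (holoV W) (holoHom W).range (Y.map (holoHom W)) (holoV_ea W hWea) hSV
    (holo_faithful W) hsolvS hcoreS (Subgroup.map_le_range _ _) hSY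
    (fun i : I => (i : Subgroup X).map (holoHom W)) hgbo (by rw [hYsup, Subgroup.map_iSup])
  rcases hmain with hbot | ⟨n, hn, ⟨e⟩⟩
  · left
    rw [← hCW, ← holoHom_ker]
    exact (Subgroup.map_eq_bot_iff _).mp hbot
  · right
    refine ⟨n, hn, ?_⟩
    obtain ⟨φ, hφ⟩ : ∃ φ : ↥Y →* Holo W, φ = (holoHom W).comp Y.subtype := ⟨_, rfl⟩
    have hkerφ : C.subgroupOf Y = φ.ker := by
      rw [hφ]
      ext y
      rw [Subgroup.mem_subgroupOf, MonoidHom.mem_ker, MonoidHom.comp_apply, ← MonoidHom.mem_ker,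
        holoHom_ker, hCW]
      rfl
    have hrange : φ.range = Y.map (holoHom W) := by
      rw [hφ, MonoidHom.range_comp, Subgroup.range_subtype]
    exact ⟨((QuotientGroup.quotientMulEquivOfEq hkerφ).trans
      (QuotientGroup.quotientKerEquivRange φ)).trans ((MulEquiv.subgroupCongr hrange).trans e)⟩

end xmain

end Cfsg.Agent.Lib.Helper14
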