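import Mathlib
import Cfsg.Prelude.Def_PLocal
import Cfsg.Prelude.Def_Local
import Cfsg.Agent.Lib.Helper14.FF3
import Cfsg.Agent.Lib.Helper14.DualHH
import Cfsg.Agent.Lib.Helper14.QuadSylow
import Cfsg.Agent.Lib.Helper14.Aut1
import Cfsg.Agent.Lib.Helper26.SolvPSolv
import Cfsg.Agent.Lib.Helper31.Basic

set_option autoImplicit false
set_option linter.unusedSectionVars false

universe u

namespace Cfsg.Agent.Lib.Helper14

open Cfsg
open scoped commutatorElement

theorem perm_fin4_sq : ∀ σ : Equiv.Perm (Fin 4), ∀ i : Fin 4, σ i = i → σ ^ 4 = 1 → σ ^ 2 = 1 := by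
  decide

/-- a permutation of a four-element set with a fixed point and fourth power one is an
involution. -/
theorem perm_card4_sq {α : Type*} (h : Nat.card α = 4) (σ : Equiv.Perm α) (a : α) (ha : σ a = a)
    (h4 : σ ^ 4 = 1) : σ ^ 2 = 1 := by
  have hfin : Finite α := Nat.finite_of_card_ne_zero (by omega)
  let e : α ≃ Fin 4 := Finite.equivFinOfCardEq h
  have h1 := perm_fin4_sq (e.permCongrHom σ) (e a) (by simp [Equiv.permCongrHom, ha])
    (by rw [← map_pow, h4, map_one])
  rw [← map_pow] at h1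
  exact (MulEquiv.map_eq_one_iff _).mp h1

section tq

variable {G : Type u} [Group G] [Finite G]

theorem map_inf_centralizer_equiv {V : Subgroup G} (c : G ≃* G) (hV : V.map c.toMonoidHom = V)
    (B : Subgroup G) :
    (V ⊓ Subgroup.centralizer (B : Set G)).map c.toMonoidHom =
      V ⊓ Subgroup.centralizer ((B.map c.toMonoidHom : Subgroup G) : Set G) := by
  ext y
  constructor
  · rintro ⟨x, ⟨hxV, hxC⟩, rfl⟩
    refine ⟨?_, map_mem_centralizer_map _ B hxC⟩
    have : c.toMonoidHom x ∈ V.map c.toMonoidHom := ⟨x, hxV, rfl⟩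
    rwa [hV] at this
  · rintro ⟨hyV, hyC⟩
    have hyV' : y ∈ V.map c.toMonoidHom := by rw [hV]; exact hyV
    obtain ⟨x, hxV, rfl⟩ := hyV'
    refine ⟨x, ⟨hxV, ?_⟩, rfl⟩
    exact (mem_centralizer_map_iff c.toMonoidHom c.injective B x).mp hyC

/-- best offenders are carried to best offenders by automorphisms stabilizing `V`. -/
theorem bo_map_equiv {p : ℕ} {V A : Subgroup G} (hA : IsBestOffenderOn p V A) (c : G ≃* G)
    (hV : V.map c.toMonoidHom = V) : IsBestOffenderOn p V (A.map c.toMonoidHom) := by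
  have hcinj : Function.Injective c.toMonoidHom := c.injective
  obtain ⟨h1, h2, h3⟩ := hA
  have hcard : ∀ B : Subgroup G,
      Nat.card ↥(V ⊓ Subgroup.centralizer ((B.map c.toMonoidHom : Subgroup G) : Set G)) =
      Nat.card ↥(V ⊓ Subgroup.centralizer (B : Set G)) := by
    intro B
    rw [← map_inf_centralizer_equiv c hV B]
    exact Subgroup.card_map_of_injective hcinj
  refine ⟨?_, ?_, ?_⟩
  · intro B hB
    have hB' : B.comap c.toMonoidHom ≤ A := by
      intro x hx
      have : c.toMonoidHom x ∈ A.map c.toMonoidHom := hB hx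
      exact (Subgroup.mem_map_iff_mem hcinj).mp this
    have hBeq : (B.comap c.toMonoidHom).map c.toMonoidHom = B :=
      Subgroup.map_comap_eq_self_of_surjective c.surjective B
    have := h1 (B.comap c.toMonoidHom) hB'
    rw [← hBeq, hcard, hcard, Subgroup.card_map_of_injective hcinj,
      Subgroup.card_map_of_injective hcinj]
    exact this
  · rw [← Subgroup.map_commutator]
    rintro _ ⟨x, hx, rfl⟩
    have := map_mem_centralizer_map c.toMonoidHom V (h2 hx)
    rwa [hV] at this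
  · rintro _ ⟨a, ha, rfl⟩
    have := map_mem_centralizer_map c.toMonoidHom V (h3 a ha)
    rw [hV] at this
    rwa [map_pow] at this

/-- `O_p` of a subgroup normalized by an overgroup with trivial `O_p` is trivial. -/
theorem pCore_eq_bot_of_le_normalizer {p : ℕ} [Fact p.Prime] (H R : Subgroup G) (hHR : H ≤ R)
    (hRH : R ≤ Subgroup.normalizer (H : Set G)) (hcoreR : pCore p ↥R = ⊥) : pCore p ↥H = ⊥ := by
  set P : Subgroup G := (pCore p ↥H).map H.subtype with hP
  have hPH : P ≤ H := Subgroup.map_subtype_le _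
  have hPp : IsPGroup p P := (pCore_isPGroup (p := p) (G := ↥H)).map H.subtype
  have hPn : ∀ r ∈ R, ∀ y ∈ P, r * y * r⁻¹ ∈ P := by
    rintro r hr _ ⟨x, hx, rfl⟩
    have h1 := Cfsg.Agent.Lib.Helper31.pCore_map p (conjHom H R hRH ⟨r, hr⟩)
    have h2 : conjHom H R hRH ⟨r, hr⟩ x ∈ pCore p ↥H := by
      rw [← h1]; exact ⟨x, hx, rfl⟩
    exact ⟨_, h2, rfl⟩
  have hPRn : (P.subgroupOf R).Normal := by
    refine ⟨fun x hx g => ?_⟩
    rw [Subgroup.mem_subgroupOf] at hx ⊢
    exact hPn g g.2 x hx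
  have hPRp : IsPGroup p ↥(P.subgroupOf R) := hPp.comap_of_injective R.subtype R.subtype_injective
  have hPRbot : P.subgroupOf R = ⊥ := by
    have := le_pCore hPRn hPRp
    rw [hcoreR] at this
    exact le_bot_iff.mp this
  have hPbot : P = ⊥ := by
    rw [eq_bot_iff]
    intro y hy
    have h1 : (⟨y, hHR (hPH hy)⟩ : ↥R) ∈ P.subgroupOf R := Subgroup.mem_subgroupOf.mpr hy
    rw [hPRbot, Subgroup.mem_bot] at h1
    exact Subgroup.mem_bot.mpr (congrArg Subtype.val h1)
  exact (Subgroup.map_eq_bot_iff_of_injective _ H.subtype_injective).mp hPbot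

/-- `O_{p'}` of a subgroup is stable under conjugation by elements normalizing it. -/
theorem pPrimeCore_conj_mem {p : ℕ} (H : Subgroup G) {r : G}
    (hr : r ∈ Subgroup.normalizer (H : Set G)) :
    ∀ y ∈ (pPrimeCore p ↥H).map H.subtype, r * y * r⁻¹ ∈ (pPrimeCore p ↥H).map H.subtype := by
  rintro _ ⟨x, hx, rfl⟩
  have hle : Subgroup.zpowers r ≤ Subgroup.normalizer (H : Set G) := Subgroup.zpowers_le.mpr hr
  have h1 := Cfsg.Agent.Lib.Helper31.pPrimeCore_map p
    (conjHom H (Subgroup.zpowers r) hle ⟨r, Subgroup.mem_zpowers r⟩)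
  have h2 : conjHom H (Subgroup.zpowers r) hle ⟨r, Subgroup.mem_zpowers r⟩ x ∈ pPrimeCore p ↥H := by
    rw [← h1]; exact ⟨x, hx, rfl⟩
  exact ⟨_, h2, rfl⟩

/-- **transvection lemma.** A solvable group `S` acting faithfully on an elementary abelian
`2`-group `V` with `O_2(S) = 1` contains no element `x` with `x ^ 4 = 1` whose square is a
transvection on `V`. -/
theorem no_transvection_sq (V S : Subgroup G) (hV : IsElementaryAbelian 2 V)
    (hSV : S ≤ Subgroup.normalizer (V : Set G))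
    (hf : S ⊓ Subgroup.centralizer (V : Set G) = ⊥)
    (hsolv : Group.IsSolvable ↥S) (hcore : pCore 2 ↥S = ⊥)
    (x : G) (hxS : x ∈ S) (hx4 : x ^ 4 = 1) (hx2 : x ^ 2 ≠ 1)
    (U : Subgroup G) (hUV : U ≤ V) (hUt : x ^ 2 ∈ Subgroup.centralizer (U : Set G))
    (hcard : Nat.card V ≤ 2 * Nat.card U) : False := by
  have : Fact (Nat.Prime 2) := ⟨Nat.prime_two⟩
  set t : G := x ^ 2 with ht
  have ht2 : t ^ 2 = 1 := by rw [ht, ← pow_mul]; exact hx4
  have htS : t ∈ S := S.pow_mem hxS 2
  set A : Subgroup G := Subgroup.zpowers t with hA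
  have htA : t ∈ A := Subgroup.mem_zpowers t
  have hAS : A ≤ S := Subgroup.zpowers_le.mpr htS
  have hord : orderOf t = 2 := orderOf_eq_prime ht2 hx2
  have hAcard : Nat.card A = 2 := by rw [hA, Nat.card_zpowers, hord]
  have hsub : ∀ B : Subgroup G, B ≤ A → B = ⊥ ∨ B = A := by
    intro B hB
    have hdvd : Nat.card B ∣ 2 := by rw [← hAcard]; exact Subgroup.card_dvd_of_le hB
    rcases (Nat.dvd_prime Nat.prime_two).mp hdvd with h | h
    · left; exact Subgroup.eq_bot_of_card_eq B h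
    · right; exact subgroup_eq_of_le_of_card_le hB (by rw [h, hAcard])
  have hAcomm : A ≤ Subgroup.centralizer (A : Set G) := by
    apply Subgroup.zpowers_le.mpr
    rw [Subgroup.mem_centralizer_iff]
    intro h hh
    obtain ⟨k, rfl⟩ := Subgroup.mem_zpowers_iff.mp hh
    exact (Commute.zpow_left (Commute.refl t) k).eq
  have hUA : U ≤ V ⊓ Subgroup.centralizer (A : Set G) := by
    refine le_inf hUV ?_
    rw [Subgroup.le_centralizer_iff]
    exact Subgroup.zpowers_le.mpr hUt
  have hAbo : IsBestOffenderOn 2 V A := by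
    refine ⟨?_, ?_, ?_⟩
    · intro B hB
      rcases hsub B hB with h | h
      · rw [h, Subgroup.card_bot, one_mul, hAcard]
        calc Nat.card ↥(V ⊓ Subgroup.centralizer ((⊥ : Subgroup G) : Set G)) ≤ Nat.card V :=
              Subgroup.card_le_of_le inf_le_left
          _ ≤ 2 * Nat.card U := hcard
          _ ≤ 2 * Nat.card ↥(V ⊓ Subgroup.centralizer (A : Set G)) :=
              Nat.mul_le_mul_left 2 (Subgroup.card_le_of_le hUA)
      · rw [h]
    · rw [Subgroup.commutator_eq_bot_iff_le_centralizer.mpr hAcomm]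
      exact bot_le
    · intro a ha
      obtain ⟨k, rfl⟩ := Subgroup.mem_zpowers_iff.mp ha
      have : (t ^ k) ^ 2 = 1 := by
        rw [← zpow_natCast, ← zpow_mul, mul_comm, zpow_mul, zpow_natCast, ht2, one_zpow]
      rw [this]; exact Subgroup.one_mem _
  have hAV : ⁅V, A⁆ ≠ ⊥ := by
    intro h
    have h1 : V ≤ Subgroup.centralizer (A : Set G) :=
      Subgroup.commutator_eq_bot_iff_le_centralizer.mp h
    have h2 : A ≤ Subgroup.centralizer (V : Set G) := Subgroup.le_centralizer_iff.mp h1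
    have h3 : t ∈ S ⊓ Subgroup.centralizer (V : Set G) := ⟨htS, h2 htA⟩
    rw [hf, Subgroup.mem_bot] at h3
    exact hx2 h3
  have hmin : ∀ B : Subgroup G, B ≤ A → IsBestOffenderOn 2 V B → ⁅V, B⁆ ≠ ⊥ → B = A := by
    intro B hB _ hBV
    rcases hsub B hB with h | h
    · rw [h] at hBV
      exact absurd (Subgroup.commutator_bot_right V) hBV
    · exact h
  -- the normal closure of `A` in `S`
  set H : Subgroup G := ⨆ s : ↥S, A.map (MulAut.conj (s : G)).toMonoidHom with hH
  have hconjS : ∀ s : ↥S, A.map (MulAut.conj (s : G)).toMonoidHom ≤ S := by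
    rintro s _ ⟨a, ha, rfl⟩
    exact S.mul_mem (S.mul_mem s.2 (hAS ha)) (S.inv_mem s.2)
  have hHS : H ≤ S := iSup_le hconjS
  have hconjH : ∀ s : ↥S, A.map (MulAut.conj (s : G)).toMonoidHom ≤ H := fun s =>
    le_iSup (fun s : ↥S => A.map (MulAut.conj (s : G)).toMonoidHom) s
  have hAH : A ≤ H := by
    intro a ha
    apply hconjH 1
    exact ⟨a, ha, by simp⟩
  have hSH : S ≤ Subgroup.normalizer (H : Set G) := by
    intro s hs
    apply mem_normalizer_of_conj_mem
    intro y hy
    have h1 : H.map (MulAut.conj s).toMonoidHom ≤ H := by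
      rw [hH, Subgroup.map_iSup]
      apply iSup_le
      intro s'
      rw [Subgroup.map_map]
      have h2 : (MulAut.conj s).toMonoidHom.comp (MulAut.conj (s' : G)).toMonoidHom =
          (MulAut.conj ((⟨s, hs⟩ * s' : ↥S) : G)).toMonoidHom := by
        ext z
        show s * ((s' : G) * z * (s' : G)⁻¹) * s⁻¹ = s * (s' : G) * z * (s * (s' : G))⁻¹
        group
      rw [h2]
      exact hconjH (⟨s, hs⟩ * s')
    exact h1 ⟨y, hy, rfl⟩
  have hS3 : H = ⨆ A' : {A' : Subgroup G // A' ≤ H ∧ IsBestOffenderOn 2 V A'},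
      (A' : Subgroup G) := by
    apply le_antisymm
    · show (⨆ s : ↥S, A.map (MulAut.conj (s : G)).toMonoidHom) ≤ _
      apply iSup_le
      intro s
      have hb : IsBestOffenderOn 2 V (A.map (MulAut.conj (s : G)).toMonoidHom) :=
        bo_map_equiv hAbo (MulAut.conj (s : G))
          (Cfsg.Agent.Lib.Helper26.map_conj_eq_of_mem_normalizer (hSV s.2))
      exact le_iSup (fun A' : {A' : Subgroup G // A' ≤ H ∧ IsBestOffenderOn 2 V A'} =>
        (A' : Subgroup G)) ⟨_, hconjH s, hb⟩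
    · exact iSup_le (fun A' => A'.2.1)
  have hHV : H ≤ Subgroup.normalizer (V : Set G) := hHS.trans hSV
  have hfH : H ⊓ Subgroup.centralizer (V : Set G) = ⊥ := by
    rw [eq_bot_iff, ← hf]; exact inf_le_inf_right _ hHS
  have := hsolv
  have hsolvH : Group.IsSolvable ↥H :=
    Group.isSolvable_of_isSolvable_injective (Subgroup.inclusion_injective hHS)
  have hpsolv : IsPSolvable 2 ↥H :=
    Cfsg.Agent.Lib.Helper26.isPSolvable_of_isSolvable 2 _ ↥H rfl hsolvH
  have hcoreH : pCore 2 ↥H = ⊥ := pCore_eq_bot_of_le_normalizer H S hHS hSH hcore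
  have hS1 := centralizer_pPrimeCore_le hpsolv hcoreH
  have hcomp := isFFComp_of_min V H hV hHV hfH hS1 hS3 hAH hAbo hAV hmin
  set Wp : Subgroup G := (pPrimeCore 2 ↥H).map H.subtype with hWp
  set E : Subgroup G := ⁅Wp, A⁆ ⊔ A with hE
  set W : Subgroup G := ⁅V, E⁆ with hW
  have hxV : V.map (MulAut.conj x).toMonoidHom = V :=
    Cfsg.Agent.Lib.Helper26.map_conj_eq_of_mem_normalizer (hSV hxS)
  have hxA : A.map (MulAut.conj x).toMonoidHom = A := by
    rw [hA, MonoidHom.map_zpowers]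
    congr 1
    show x * t * x⁻¹ = t
    rw [ht]; group
  have hxWp : Wp.map (MulAut.conj x).toMonoidHom ≤ Wp := by
    rintro _ ⟨y, hy, rfl⟩
    exact pPrimeCore_conj_mem H (hSH hxS) y hy
  have hxE : E.map (MulAut.conj x).toMonoidHom ≤ E := by
    rw [hE, Subgroup.map_sup, Subgroup.map_commutator, hxA]
    exact sup_le_sup_right (Subgroup.commutator_mono hxWp le_rfl) A
  have hxW : W.map (MulAut.conj x).toMonoidHom ≤ W := by
    rw [hW, Subgroup.map_commutator, hxV]
    exact Subgroup.commutator_mono le_rfl hxE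
  have hxNW : x ∈ Subgroup.normalizer (W : Set G) :=
    mem_normalizer_of_conj_mem (fun w hw => hxW ⟨w, hw, rfl⟩)
  have hzx : Subgroup.zpowers x ≤ Subgroup.normalizer (W : Set G) := Subgroup.zpowers_le.mpr hxNW
  have hWcard : Nat.card W = 4 := by rw [hcomp.h3]; norm_num
  have hxx4 : (⟨x, Subgroup.mem_zpowers x⟩ : ↥(Subgroup.zpowers x)) ^ 4 = 1 :=
    Subtype.ext (by simpa using hx4)
  have hσ4 : (MulAut.toPerm ↥W (conjHom W (Subgroup.zpowers x) hzx
      ⟨x, Subgroup.mem_zpowers x⟩)) ^ 4 = 1 := by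
    rw [← map_pow, ← map_pow, hxx4, map_one, map_one]
  have hσ1 : (MulAut.toPerm ↥W (conjHom W (Subgroup.zpowers x) hzx
      ⟨x, Subgroup.mem_zpowers x⟩)) 1 = 1 :=
    map_one (conjHom W (Subgroup.zpowers x) hzx ⟨x, Subgroup.mem_zpowers x⟩)
  have hσ2 := perm_card4_sq hWcard _ 1 hσ1 hσ4
  have htW : t ∈ Subgroup.centralizer (W : Set G) := by
    rw [Subgroup.mem_centralizer_iff]
    intro w hw
    rw [pow_two] at hσ2
    have h1 := Equiv.congr_fun hσ2 ⟨w, hw⟩
    rw [Equiv.Perm.mul_apply, Equiv.Perm.one_apply] at h1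
    have h2 : x * (x * w * x⁻¹) * x⁻¹ = w := congrArg Subtype.val h1
    calc w * t = (x * (x * w * x⁻¹) * x⁻¹) * t := by rw [h2]
      _ = t * w := by rw [ht, pow_two]; group
  have htE : t ∈ E := (le_sup_right : A ≤ E) htA
  have hbot : t ∈ E ⊓ (H ⊓ Subgroup.centralizer ((⁅V, E⁆ : Subgroup G) : Set G)) :=
    ⟨htE, hAH htA, htW⟩
  rw [hcomp.h7, Subgroup.mem_bot] at hbot
  exact hx2 hbot

end tq

end Cfsg.Agent.Lib.Helper14
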