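import Mathlib
import Cfsg.Agent.Lib.Helper14.Tq1

set_option autoImplicit false
set_option linter.unusedSectionVars false

universe u

namespace Cfsg.Agent.Lib.Helper14

open Cfsg

section tq2

variable {V : Type u} [AddCommGroup V] [Module (ZMod 2) V]

theorem zmod2_add_self (v : V) : v + v = 0 := by
  have h : (2 : ZMod 2) = 0 := by decide
  rw [← two_smul (ZMod 2) v, h, zero_smul]

/-- linear automorphisms as automorphisms of the multiplicative copy of `V`. -/
def linMulAut : (V ≃ₗ[ZMod 2] V) →* MulAut (Multiplicative V) where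
  toFun f := AddEquiv.toMultiplicative f.toAddEquiv
  map_one' := by ext a; rfl
  map_mul' f g := by ext a; rfl

theorem linMulAut_apply (f : V ≃ₗ[ZMod 2] V) (a : Multiplicative V) :
    linMulAut f a = Multiplicative.ofAdd (f (Multiplicative.toAdd a)) := rfl

theorem linMulAut_injective : Function.Injective (linMulAut (V := V)) := by
  intro f g h
  ext v
  have := congrArg (fun a : MulAut (Multiplicative V) =>
    Multiplicative.toAdd (a (Multiplicative.ofAdd v))) h
  exact this

/-- the holomorph of the multiplicative copy of `V`. -/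
abbrev LinHolo (V : Type u) [AddCommGroup V] : Type u :=
  Multiplicative V ⋊[MonoidHom.id (MulAut (Multiplicative V))] MulAut (Multiplicative V)

/-- the embedding of the linear group in the holomorph. -/
def linHoloHom : (V ≃ₗ[ZMod 2] V) →* LinHolo V :=
  (SemidirectProduct.inr : MulAut (Multiplicative V) →* LinHolo V).comp linMulAut

theorem linHoloHom_injective : Function.Injective (linHoloHom (V := V)) :=
  SemidirectProduct.inr_injective.comp linMulAut_injective

theorem linHolo_conj (f : V ≃ₗ[ZMod 2] V) (a : Multiplicative V) :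
    linHoloHom f * SemidirectProduct.inl a * (linHoloHom f)⁻¹ =
      SemidirectProduct.inl (linMulAut f a) := by
  show SemidirectProduct.inr (linMulAut f) * SemidirectProduct.inl a *
    (SemidirectProduct.inr (linMulAut f))⁻¹ = _
  rw [← map_inv]
  exact (SemidirectProduct.inl_aut (φ := MonoidHom.id (MulAut (Multiplicative V)))
    (linMulAut f) a).symm

theorem sub_id_sq_apply (P : V ≃ₗ[ZMod 2] V) (v : V) :
    ((((P : V →ₗ[ZMod 2] V) - LinearMap.id) ^ 2 : V →ₗ[ZMod 2] V)) v = P (P v) + v := by
  have h1 : P v + P v = 0 := zmod2_add_self _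
  simp only [pow_two, Module.End.mul_apply, LinearMap.sub_apply, LinearMap.id_apply,
    LinearEquiv.coe_coe, map_sub]
  have : P (P v) - P v - (P v - v) = P (P v) + v - (P v + P v) := by abel
  rw [this, h1, sub_zero]

theorem eq_of_add_eq_zero {a b : V} (h : a + b = 0) : a = b := by
  have hb := zmod2_add_self b
  calc a = a + b + b := by rw [add_assoc, hb, add_zero]
    _ = b := by rw [h, zero_add]

/-- an element of order four in a solvable linear group over `𝔽₂` with trivial `O₂` does not
have a transvection as its square. -/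
theorem four_le_card_range_sq [Finite V]
    (S : Subgroup (V ≃ₗ[ZMod 2] V)) (hS : Group.IsSolvable ↥S) (hO2 : Cfsg.pCore 2 ↥S = ⊥)
    (P : V ≃ₗ[ZMod 2] V) (hPS : P ∈ S) (hP4 : orderOf P = 4) :
    4 ≤ Nat.card ↥(LinearMap.range (((P : V →ₗ[ZMod 2] V) - LinearMap.id) ^ 2)) := by
  set f : V →ₗ[ZMod 2] V := ((P : V →ₗ[ZMod 2] V) - LinearMap.id) ^ 2 with hf
  have hfv : ∀ v, f v = P (P v) + v := sub_id_sq_apply P
  have hP2 : P ^ 2 ≠ 1 := by
    intro h
    have := orderOf_dvd_of_pow_eq_one h
    rw [hP4] at this
    norm_num at this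
  have hP4' : P ^ 4 = 1 := by rw [← hP4]; exact pow_orderOf_eq_one P
  by_contra hlt
  rw [not_le] at hlt
  have hpos : 0 < Nat.card ↥(LinearMap.range f) := Nat.card_pos
  have hne1 : Nat.card ↥(LinearMap.range f) ≠ 1 := by
    intro h1
    apply hP2
    ext v
    have hsub : Subsingleton ↥(LinearMap.range f) := (Nat.card_eq_one_iff_unique.mp h1).1
    have h0 : f v = 0 := by
      have := Subsingleton.elim (⟨f v, LinearMap.mem_range_self f v⟩ : ↥(LinearMap.range f)) 0
      exact congrArg Subtype.val this
    rw [hfv] at h0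
    exact eq_of_add_eq_zero h0
  have hne3 : Nat.card ↥(LinearMap.range f) ≠ 3 := by
    intro h3
    have hnt : Nontrivial ↥(LinearMap.range f) :=
      Finite.one_lt_card_iff_nontrivial.mp (by rw [h3]; norm_num)
    obtain ⟨y, hy⟩ := exists_ne (0 : ↥(LinearMap.range f))
    have hy2 : y + y = 0 := zmod2_add_self y
    have hord : addOrderOf y = 2 :=
      addOrderOf_eq_prime (by rw [two_nsmul]; exact hy2) hy
    have hdvd : addOrderOf y ∣ Nat.card ↥(LinearMap.range f) := addOrderOf_dvd_natCard y
    rw [hord, h3] at hdvd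
    norm_num at hdvd
  have h2 : Nat.card ↥(LinearMap.range f) = 2 := by omega
  -- the holomorph
  have hfinΓ : Finite (LinHolo V) :=
    Finite.of_equiv (Multiplicative V × MulAut (Multiplicative V))
      SemidirectProduct.equivProd.symm
  have hθinj : Function.Injective (linHoloHom (V := V)) := linHoloHom_injective
  have hinl : Function.Injective (SemidirectProduct.inl : Multiplicative V →* LinHolo V) :=
    SemidirectProduct.inl_injective
  set VV : Subgroup (LinHolo V) :=
    (SemidirectProduct.inl : Multiplicative V →* LinHolo V).range with hVV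
  have hVVn : VV.Normal := by
    rw [hVV, SemidirectProduct.range_inl_eq_ker_rightHom]; infer_instance
  have hVVea : IsElementaryAbelian 2 VV := by
    apply ea_of_forall
    · rintro _ ⟨a, rfl⟩ _ ⟨b, rfl⟩
      rw [← map_mul, ← map_mul, mul_comm]
    · rintro _ ⟨a, rfl⟩
      rw [← map_pow]
      have : a ^ 2 = 1 := by
        have h := zmod2_add_self (Multiplicative.toAdd a)
        rw [pow_two]
        exact congrArg Multiplicative.ofAdd h
      rw [this, map_one]
  set SS : Subgroup (LinHolo V) := S.map linHoloHom with hSS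
  have hSSV : SS ≤ Subgroup.normalizer (VV : Set (LinHolo V)) := by
    rw [Subgroup.normalizer_eq_top]; exact le_top
  have hfaith : SS ⊓ Subgroup.centralizer (VV : Set (LinHolo V)) = ⊥ := by
    rw [eq_bot_iff]
    rintro _ ⟨⟨g, hg, rfl⟩, hc⟩
    rw [Subgroup.mem_bot]
    have hg1 : g = 1 := by
      ext v
      have h1 := Subgroup.mem_centralizer_iff.mp hc
        (SemidirectProduct.inl (Multiplicative.ofAdd v)) ⟨_, rfl⟩
      have h2 : linHoloHom g * SemidirectProduct.inl (Multiplicative.ofAdd v) *
          (linHoloHom g)⁻¹ = SemidirectProduct.inl (Multiplicative.ofAdd v) := by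
        rw [← h1]; group
      rw [linHolo_conj] at h2
      have h3 := hinl h2
      exact congrArg Multiplicative.toAdd h3
    rw [hg1, map_one]
  let e : ↥S ≃* ↥SS := S.equivMapOfInjective linHoloHom hθinj
  have hSSsolv : Group.IsSolvable ↥SS := by
    have := hS
    exact Group.isSolvable_of_isSolvable_injective (f := e.symm.toMonoidHom) e.symm.injective
  have hSScore : pCore 2 ↥SS = ⊥ := by
    rw [← Cfsg.Agent.Lib.Helper31.pCore_map 2 e, hO2, Subgroup.map_bot]
  have hx4 : (linHoloHom P) ^ 4 = 1 := by rw [← map_pow, hP4', map_one]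
  have hx2 : (linHoloHom P) ^ 2 ≠ 1 := by
    rw [← map_pow]
    intro h
    exact hP2 (hθinj (h.trans (map_one _).symm))
  set F : Multiplicative V →* Multiplicative V :=
    AddMonoidHom.toMultiplicative f.toAddMonoidHom with hF
  set U : Subgroup (LinHolo V) :=
    F.ker.map (SemidirectProduct.inl : Multiplicative V →* LinHolo V) with hU
  have hUV : U ≤ VV := by
    rintro _ ⟨a, -, rfl⟩; exact ⟨a, rfl⟩
  have hUt : (linHoloHom P) ^ 2 ∈ Subgroup.centralizer (U : Set (LinHolo V)) := by
    rw [Subgroup.mem_centralizer_iff]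
    rintro _ ⟨a, ha, rfl⟩
    have ha0 : f (Multiplicative.toAdd a) = 0 := by
      have := MonoidHom.mem_ker.mp ha
      exact congrArg Multiplicative.toAdd this
    rw [hfv] at ha0
    have hPP : P (P (Multiplicative.toAdd a)) = Multiplicative.toAdd a := eq_of_add_eq_zero ha0
    have h1 : linHoloHom (P ^ 2) * SemidirectProduct.inl a * (linHoloHom (P ^ 2))⁻¹ =
        SemidirectProduct.inl a := by
      have h5 : linMulAut (P ^ 2) a = a := by
        rw [linMulAut_apply, pow_two]
        exact congrArg Multiplicative.ofAdd hPP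
      rw [linHolo_conj, h5]
    rw [← map_pow]
    calc SemidirectProduct.inl a * linHoloHom (P ^ 2) =
          (linHoloHom (P ^ 2) * SemidirectProduct.inl a * (linHoloHom (P ^ 2))⁻¹) *
            linHoloHom (P ^ 2) := by rw [h1]
      _ = linHoloHom (P ^ 2) * SemidirectProduct.inl a := by group
  have hcard : Nat.card VV ≤ 2 * Nat.card U := by
    have c1 : Nat.card VV = Nat.card (Multiplicative V) := by
      rw [hVV, MonoidHom.range_eq_map, Subgroup.card_map_of_injective hinl, Subgroup.card_top]
    have c2 : Nat.card U = Nat.card F.ker := Subgroup.card_map_of_injective hinl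
    have c3 : Nat.card F.ker * F.ker.index = Nat.card (Multiplicative V) :=
      Subgroup.card_mul_index F.ker
    have c4 : F.ker.index = Nat.card F.range := Subgroup.index_ker F
    have c5 : Nat.card F.range = Nat.card ↥(LinearMap.range f) := by
      apply Nat.card_congr
      refine Equiv.subtypeEquiv Multiplicative.toAdd ?_
      intro y
      constructor
      · rintro ⟨a, rfl⟩; exact ⟨Multiplicative.toAdd a, rfl⟩
      · rintro ⟨u, hu⟩
        refine ⟨Multiplicative.ofAdd u, ?_⟩
        show Multiplicative.ofAdd (f u) = y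
        rw [hu]
        rfl
    rw [c1, c2, ← c3, c4, c5, h2, mul_comm]
  exact no_transvection_sq VV SS hVVea hSSV hfaith hSSsolv hSScore (linHoloHom P)
    (Subgroup.mem_map_of_mem _ hPS) hx4 hx2 U hUV hUt hcard

end tq2

end Cfsg.Agent.Lib.Helper14
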