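import Mathlib
import Cfsg.Prelude.Def_Classical
import Cfsg.Agent.Lib.Helper18.UEDefs
import Cfsg.Agent.Lib.Helper7.GUOrder

/-!
# S2335 piece UE-BASIS (helper14 for helper18)

A hyperbolic basis for the standard Hermitian form in even dimension `m + m`: a base change `P`
with `Pᵀ * σ(P) = Jb m β`, `σ β = -β ≠ 0`.
-/

set_option autoImplicit false

namespace Cfsg.Agent.Lib.Helper18.UE

open Matrix

universe u

variable {F : Type u} [Field F] {m : ℕ}

/-- block matrix with scalar blocks -/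
def basisS2 (m : ℕ) (a b c d : F) : Matrix (Fin m ⊕ Fin m) (Fin m ⊕ Fin m) F :=
  fromBlocks (a • (1 : Matrix (Fin m) (Fin m) F)) (b • (1 : Matrix (Fin m) (Fin m) F))
    (c • (1 : Matrix (Fin m) (Fin m) F)) (d • (1 : Matrix (Fin m) (Fin m) F))

theorem basis_S2_congr {a b c d a' b' c' d' : F} (ha : a = a') (hb : b = b') (hc : c = c')
    (hd : d = d') : basisS2 m a b c d = basisS2 m a' b' c' d' := by
  subst ha hb hc hd
  rfl

theorem basis_S2_mul (a b c d a' b' c' d' : F) :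
    basisS2 m a b c d * basisS2 m a' b' c' d' =
      basisS2 m (a * a' + b * c') (a * b' + b * d') (c * a' + d * c') (c * b' + d * d') := by
  unfold basisS2
  rw [fromBlocks_multiply]
  congr 1 <;> simp [smul_smul, add_smul, mul_comm]

theorem basis_S2_transpose (a b c d : F) :
    (basisS2 m a b c d)ᵀ = basisS2 m a c b d := by
  unfold basisS2
  rw [fromBlocks_transpose]
  simp [transpose_smul]

theorem basis_sc_map (σ : F →+* F) (a : F) :
    ((a • (1 : Matrix (Fin m) (Fin m) F)).map σ) = σ a • (1 : Matrix (Fin m) (Fin m) F) := by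
  ext i j
  by_cases h : i = j
  · subst h; simp
  · simp [Matrix.one_apply_ne h]

theorem basis_S2_map (σ : F →+* F) (a b c d : F) :
    (basisS2 m a b c d).map σ = basisS2 m (σ a) (σ b) (σ c) (σ d) := by
  unfold basisS2
  rw [fromBlocks_map, basis_sc_map, basis_sc_map, basis_sc_map, basis_sc_map]

theorem basis_S2_one : basisS2 m (1 : F) 0 0 1 = 1 := by
  unfold basisS2
  simp [fromBlocks_one]

theorem basis_Jb (β : F) : Jb m β = basisS2 m 0 β (-β) 0 := by
  unfold Jb basisS2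
  simp

theorem basis_exists_not_fixed [Fintype F] {q : ℕ} (hF : Fintype.card F = q ^ 2) :
    ∃ ξ : F, ξ ^ q ≠ ξ := by
  classical
  by_contra hcon
  push Not at hcon
  have hq := Cfsg.Agent.Lib.Helper7.herm_two_le hF
  have hq1 : 1 < q := by omega
  have hp0 : (Polynomial.X ^ q - Polynomial.X : Polynomial F) ≠ 0 :=
    FiniteField.X_pow_card_sub_X_ne_zero F hq1
  have hsub : (Finset.univ : Finset F) ⊆
      (Polynomial.X ^ q - Polynomial.X : Polynomial F).roots.toFinset := by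
    intro x _
    rw [Multiset.mem_toFinset, Polynomial.mem_roots hp0]
    simp [Polynomial.IsRoot, hcon x]
  have hle : Fintype.card F ≤ q := by
    calc Fintype.card F = (Finset.univ : Finset F).card := Finset.card_univ.symm
      _ ≤ (Polynomial.X ^ q - Polynomial.X : Polynomial F).roots.toFinset.card :=
          Finset.card_le_card hsub
      _ ≤ Multiset.card (Polynomial.X ^ q - Polynomial.X : Polynomial F).roots :=
          Multiset.toFinset_card_le _
      _ ≤ (Polynomial.X ^ q - Polynomial.X : Polynomial F).natDegree :=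
          Polynomial.card_roots' _
      _ = q := FiniteField.X_pow_card_sub_X_natDegree_eq F hq1
  rw [hF] at hle
  nlinarith

theorem exists_basis [Fintype F] {q : ℕ} (hF : Fintype.card F = q ^ 2) (σ : F →+* F)
    (hσ : ∀ x, σ x = x ^ q) (m : ℕ) :
    ∃ (β : F) (P : Matrix (Fin (m + m)) (Fin m ⊕ Fin m) F)
      (P' : Matrix (Fin m ⊕ Fin m) (Fin (m + m)) F),
      β ≠ 0 ∧ P * P' = 1 ∧ P' * P = 1 ∧ Pᵀ * P.map σ = Jb m β := by
  classical
  have hσσ : ∀ x, σ (σ x) = x := fun x => by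
    rw [hσ, hσ]; exact Cfsg.Agent.Lib.Helper7.herm_pow_pow hF x
  have hinj : Function.Injective σ := σ.injective
  have hz : ∀ x : F, σ x = 0 → x = 0 := fun x h => hinj (h.trans (map_zero σ).symm)
  obtain ⟨a, ha⟩ := basis_exists_not_fixed hF
  have ha' : σ a ≠ a := by rw [hσ]; exact ha
  have ha0 : a ≠ 0 := by
    rintro rfl
    exact ha' (map_zero σ)
  have hσa0 : σ a ≠ 0 := fun h => ha0 (hz a h)
  -- `ε` of norm `-1`
  have hm1 : (-1 : F) ^ q = -1 := by rw [← hσ, map_neg, map_one]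
  obtain ⟨ε, hε0, hε⟩ := Cfsg.Agent.Lib.Helper7.herm_norm_surj hF (-1)
    (neg_ne_zero.mpr one_ne_zero) hm1
  have hNε : ε * σ ε = -1 := by rw [hσ, ← pow_succ', hε]
  -- `ζ ≠ 1` of norm `1`
  obtain ⟨ζ, hζdef⟩ : ∃ ζ : F, ζ = σ a / a := ⟨_, rfl⟩
  have hζ1 : ζ ≠ 1 := by
    rw [hζdef]
    intro h
    apply ha'
    rw [div_eq_one_iff_eq ha0] at h
    exact h
  have hNζ : ζ * σ ζ = 1 := by
    rw [hζdef, map_div₀, hσσ]
    field_simp
  obtain ⟨ε', hε'def⟩ : ∃ ε' : F, ε' = ε * ζ := ⟨_, rfl⟩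
  have hNε' : ε' * σ ε' = -1 := by
    rw [hε'def, map_mul]
    linear_combination (ζ * σ ζ) * hNε - hNζ
  have hne : ε' ≠ ε := by
    rw [hε'def]
    intro h
    apply hζ1
    have h1 : ε * ζ = ε * 1 := by rw [h, mul_one]
    exact mul_left_cancel₀ hε0 h1
  obtain ⟨δ, hδdef⟩ : ∃ δ : F, δ = 1 + ε * σ ε' := ⟨_, rfl⟩
  have hδ0 : δ ≠ 0 := by
    intro h
    apply hne
    have h1 : ε * σ ε' = ε * σ ε := by
      rw [hNε]; rw [hδdef] at h; linear_combination h
    exact hinj (mul_left_cancel₀ hε0 h1)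
  obtain ⟨β, hβdef⟩ : ∃ β : F, β = a - σ a := ⟨_, rfl⟩
  have hβ0 : β ≠ 0 := by
    rw [hβdef]; exact sub_ne_zero.mpr (Ne.symm ha')
  have hσβ : σ β = -β := by
    rw [hβdef, map_sub, hσσ]; ring
  obtain ⟨t, htdef⟩ : ∃ t : F, t = σ (β / δ) := ⟨_, rfl⟩
  have hσt : σ t = β / δ := by rw [htdef, hσσ]
  have ht0 : t ≠ 0 := by
    rw [htdef]
    intro h
    exact (div_ne_zero hβ0 hδ0) (hz _ h)
  have hσδ : σ δ = 1 + σ ε * ε' := by
    rw [hδdef, map_add, map_one, map_mul, hσσ]
  have hσδ0 : σ δ ≠ 0 := fun h => hδ0 (hz δ h)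
  have ht' : t = -β / σ δ := by rw [htdef, map_div₀, hσβ]
  have hsub : ε' - ε ≠ 0 := sub_ne_zero.mpr hne
  obtain ⟨D, hDdef⟩ : ∃ D : F, D = t * (ε' - ε) := ⟨_, rfl⟩
  have hD0 : D ≠ 0 := by
    rw [hDdef]; exact mul_ne_zero ht0 hsub
  -- the entries of the Gram matrix
  have e11 : 1 * σ 1 + ε * σ ε = 0 := by
    rw [map_one, hNε]; ring
  have e12 : 1 * σ t + ε * σ (t * ε') = β := by
    rw [map_mul, hσt]
    have h1 : 1 * (β / δ) + ε * (β / δ * σ ε') = β / δ * δ := by rw [hδdef]; ring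
    rw [h1]
    exact div_mul_cancel₀ β hδ0
  have e21 : t * σ 1 + t * ε' * σ ε = -β := by
    rw [map_one, ht']
    have h1 : -β / σ δ * 1 + -β / σ δ * ε' * σ ε = -β / σ δ * σ δ := by rw [hσδ]; ring
    rw [h1]
    exact div_mul_cancel₀ (-β) hσδ0
  have e22 : t * σ t + t * ε' * σ (t * ε') = 0 := by
    rw [map_mul]
    linear_combination (t * σ t) * hNε'
  have hPP' : basisS2 m 1 t ε (t * ε') * basisS2 m (t * ε' / D) (-t / D) (-ε / D) (1 / D) = 1 := by
    rw [basis_S2_mul, ← basis_S2_one]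
    apply basis_S2_congr
    · have h1 : 1 * (t * ε' / D) + t * (-ε / D) = D / D := by rw [hDdef]; ring
      rw [h1, div_self hD0]
    · ring
    · ring
    · have h1 : ε * (-t / D) + t * ε' * (1 / D) = D / D := by rw [hDdef]; ring
      rw [h1, div_self hD0]
  have hP'P : basisS2 m (t * ε' / D) (-t / D) (-ε / D) (1 / D) * basisS2 m 1 t ε (t * ε') = 1 := by
    rw [basis_S2_mul, ← basis_S2_one]
    apply basis_S2_congr
    · have h1 : t * ε' / D * 1 + -t / D * ε = D / D := by rw [hDdef]; ring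
      rw [h1, div_self hD0]
    · ring
    · ring
    · have h1 : -ε / D * t + 1 / D * (t * ε') = D / D := by rw [hDdef]; ring
      rw [h1, div_self hD0]
  have hgram : (basisS2 m 1 t ε (t * ε'))ᵀ * (basisS2 m 1 t ε (t * ε')).map σ = Jb m β := by
    rw [basis_S2_transpose, basis_S2_map, basis_S2_mul, basis_Jb]
    exact basis_S2_congr e11 e12 e21 e22
  refine ⟨β, (basisS2 m 1 t ε (t * ε')).submatrix finSumFinEquiv.symm id,
    (basisS2 m (t * ε' / D) (-t / D) (-ε / D) (1 / D)).submatrix id finSumFinEquiv.symm,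
    hβ0, ?_, ?_, ?_⟩
  · rw [← Matrix.submatrix_mul _ _ _ _ _ Function.bijective_id, hPP']
    exact Matrix.submatrix_one _ finSumFinEquiv.symm.injective
  · rw [← Matrix.submatrix_mul _ _ _ _ _ finSumFinEquiv.symm.bijective, hP'P]
    exact Matrix.submatrix_one _ Function.injective_id
  · rw [Matrix.transpose_submatrix, ← Matrix.submatrix_map,
      ← Matrix.submatrix_mul _ _ _ _ _ finSumFinEquiv.symm.bijective, hgram]
    rfl

end Cfsg.Agent.Lib.Helper18.UE
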